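import Cfsg.Agent.Lib.LieBlocks.Split
import Cfsg.Agent.Lib.BrauerPairs.Basic

/-!
Convolution of functions on a split (B,N)-pair invariant under `U` on both sides, and the support of
an idempotent one vanishing on the maximal parabolic subgroups.
-/

set_option autoImplicit false
set_option linter.unusedSectionVars false
set_option linter.style.haveILetI false

noncomputable section

namespace CfsgLib.LieBlocks

open CfsgLib.BNPair CfsgLib.InvCentralizers.SteinbergChar CfsgLib.InvCentralizers.SteinbergCount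
open CfsgLib.BrauerPairs

namespace SplitData

variable {G : Type*} [Group G] [Finite G] {p : ℕ} [Fact p.Prime] (D : SplitData G p)
  {k : Type*} [Field k]

/-- Invariance under `U` on both sides. -/
def Bi (f : G → k) : Prop :=
  (∀ u ∈ D.U, ∀ g, f (u * g) = f g) ∧ ∀ u ∈ D.U, ∀ g, f (g * u) = f g

/-- The double coset of `g` under `U`. -/
def dbl (g : G) : Set G := DoubleCoset.doubleCoset g (D.U : Set G) (D.U : Set G)

/-- The indicator function of a double coset. -/
def ind (g : G) : G → k := (D.dbl g).indicator fun _ => 1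

/-- Convolution over the cosets of `U`. -/
def conv (f a : G → k) (g : G) : k :=
  letI := Fintype.ofFinite (G ⧸ D.U)
  ∑ q : G ⧸ D.U, f q.out * a (q.out⁻¹ * g)

theorem conv_eq [Fintype (G ⧸ D.U)] (f a : G → k) (g : G) :
    D.conv f a g = ∑ q : G ⧸ D.U, f q.out * a (q.out⁻¹ * g) := by
  unfold conv
  exact Finset.sum_congr (by ext; simp) fun _ _ => rfl

theorem mem_dbl {g h : G} : h ∈ D.dbl g ↔ ∃ u ∈ D.U, ∃ v ∈ D.U, h = u * g * v :=
  DoubleCoset.mem_doubleCoset

theorem dbl_mul {g h u v : G} (hu : u ∈ D.U) (hv : v ∈ D.U) :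
    u * h * v ∈ D.dbl g ↔ h ∈ D.dbl g := by
  rw [mem_dbl, mem_dbl]
  constructor
  · rintro ⟨a, ha, b, hb, e⟩
    refine ⟨u⁻¹ * a, D.U.mul_mem (D.U.inv_mem hu) ha, b * v⁻¹, D.U.mul_mem hb (D.U.inv_mem hv), ?_⟩
    rw [show h = u⁻¹ * (u * h * v) * v⁻¹ by group, e]
    group
  · rintro ⟨a, ha, b, hb, e⟩
    exact ⟨u * a, D.U.mul_mem hu ha, b * v, D.U.mul_mem hb hv, by rw [e]; group⟩

theorem bi_ind (g : G) : D.Bi (D.ind g : G → k) := by
  classical
  refine ⟨fun u hu h => ?_, fun u hu h => ?_⟩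
  · have := D.dbl_mul (g := g) (h := h) hu D.U.one_mem
    rw [mul_one] at this
    simp only [ind, Set.indicator_apply]
    exact if_congr this rfl rfl
  · have := D.dbl_mul (g := g) (h := h) D.U.one_mem hu
    rw [one_mul] at this
    simp only [ind, Set.indicator_apply]
    exact if_congr this rfl rfl

variable {D}

theorem Bi.eq_out {f : G → k} (hf : D.Bi f) (x : G) : f (x : G ⧸ D.U).out = f x := by
  have h : (x : G ⧸ D.U).out⁻¹ * x ∈ D.U := QuotientGroup.eq.1 (Quotient.out_eq _)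
  rw [← hf.2 _ h ((x : G ⧸ D.U).out), mul_inv_cancel_left]

theorem Bi.arg_out {a : G → k} (ha : D.Bi a) (x g : G) :
    a ((x : G ⧸ D.U).out⁻¹ * g) = a (x⁻¹ * g) := by
  have h : (x : G ⧸ D.U).out⁻¹ * x ∈ D.U := QuotientGroup.eq.1 (Quotient.out_eq _)
  rw [← ha.1 _ h (x⁻¹ * g)]
  congr 1
  group

theorem Bi.eq_of_dbl {f : G → k} (hf : D.Bi f) {g h : G} (hh : h ∈ D.dbl g) : f h = f g := by
  obtain ⟨u, hu, v, hv, rfl⟩ := D.mem_dbl.1 hh
  rw [hf.2 v hv, hf.1 u hu]

theorem bi_conv {f a : G → k} (hf : D.Bi f) (ha : D.Bi a) : D.Bi (D.conv f a) := by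
  haveI := Fintype.ofFinite (G ⧸ D.U)
  refine ⟨fun u hu g => ?_, fun u hu g => ?_⟩
  · rw [D.conv_eq, D.conv_eq]
    refine Fintype.sum_equiv (MulAction.toPerm u⁻¹) _ _ fun q => ?_
    obtain ⟨x, rfl⟩ := QuotientGroup.mk_surjective q
    simp only [MulAction.toPerm_apply, MulAction.Quotient.smul_coe, smul_eq_mul, hf.eq_out,
      ha.arg_out, hf.1 u⁻¹ (D.U.inv_mem hu)]
    congr 2
    group
  · rw [D.conv_eq, D.conv_eq]
    refine Fintype.sum_congr _ _ fun q => ?_
    rw [← mul_assoc, ha.2 u hu]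

theorem conv_assoc {f a c : G → k} (ha : D.Bi a) (hc : D.Bi c) (g : G) :
    D.conv (D.conv f a) c g = D.conv f (D.conv a c) g := by
  haveI := Fintype.ofFinite (G ⧸ D.U)
  simp only [D.conv_eq, Finset.sum_mul, Finset.mul_sum]
  rw [Finset.sum_comm]
  refine Fintype.sum_congr _ _ fun q => ?_
  refine Fintype.sum_equiv (MulAction.toPerm q.out⁻¹) _ _ fun r => ?_
  obtain ⟨x, rfl⟩ := QuotientGroup.mk_surjective r
  simp only [MulAction.toPerm_apply, MulAction.Quotient.smul_coe, smul_eq_mul, ha.eq_out,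
    hc.arg_out]
  rw [mul_assoc]
  congr 2
  · have h : (x : G ⧸ D.U).out⁻¹ * x ∈ D.U := QuotientGroup.eq.1 (Quotient.out_eq _)
    rw [show q.out⁻¹ * x = q.out⁻¹ * (x : G ⧸ D.U).out * ((x : G ⧸ D.U).out⁻¹ * x) by group,
      ha.2 _ h]
  · group

variable (D)

/-- A nonzero value of a convolution is seen at a coset fixed by the stabilizer. -/
theorem exists_fixed [CharP k p] {f a : G → k} (hf : D.Bi f) (ha : D.Bi a) {g : G}
    (h : D.conv f a g ≠ 0) : ∃ x, f x ≠ 0 ∧ a (x⁻¹ * g) ≠ 0 ∧ D.stabU g ≤ D.stabU x := by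
  classical
  haveI := Fintype.ofFinite (G ⧸ D.U)
  have hP : IsPGroup p (D.stabU g) := D.pGroup.to_le inf_le_left
  rw [D.conv_eq, sum_eq_sum_fixedPoints (R := k) hP] at h
  · obtain ⟨q, hq, hne⟩ := Finset.exists_ne_zero_of_sum_ne_zero h
    simp only [Finset.mem_filter, Finset.mem_univ, true_and, MulAction.mem_fixedPoints] at hq
    refine ⟨q.out, left_ne_zero_of_mul hne, right_ne_zero_of_mul hne, fun u hu => ?_⟩
    rw [D.mem_stabU]
    refine ⟨inf_le_left (α := Subgroup G) hu, ?_⟩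
    have h1 := hq ⟨u, hu⟩
    rw [← QuotientGroup.out_eq' q] at h1
    change (((u * q.out : G)) : G ⧸ D.U) = (q.out : G ⧸ D.U) at h1
    rw [QuotientGroup.eq] at h1
    have h2 := D.U_le (D.U.inv_mem h1)
    simpa [Fix, mul_assoc] using h2
  · rintro ⟨u, hu⟩ q
    obtain ⟨x, rfl⟩ := QuotientGroup.mk_surjective q
    have hu' := D.mem_stabU.1 hu
    have hc : g⁻¹ * u⁻¹ * g ∈ D.U := by
      have := D.U.inv_mem (D.conj_mem_U hu'.1 hu'.2)
      simpa [mul_assoc] using this
    change f ((u * x : G) : G ⧸ D.U).out * a (((u * x : G) : G ⧸ D.U).out⁻¹ * g) = _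
    rw [hf.eq_out, hf.eq_out,
      ha.arg_out, ha.arg_out, hf.1 u hu'.1, ← ha.2 _ hc (x⁻¹ * g)]
    congr 2
    group

/-- Splitting off the last letter of a reduced word. -/
theorem ind_mul_conv {l : List G} {s τ : G} (hl : IsReduced D.P (l ++ [s])) (hτ : τ ∈ D.P.B ⊓ D.P.N)
    (g : G) : (D.conv (D.ind l.prod) (D.ind (s * τ)) g : k) = D.ind (l.prod * (s * τ)) g := by
  classical
  haveI := Fintype.ofFinite (G ⧸ D.U)
  have hs : s ∈ D.P.S := hl.1 s (by simp)
  have hl' := red_left hl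
  set a := l.prod with ha
  have haN : a ∈ D.P.N := hl'.1.prod_mem
  have hle : len D.P a ≤ len D.P (a * s) := by
    have h1 := hl.2
    simp only [List.prod_append, List.prod_singleton, List.length_append, List.length_singleton] at h1
    rw [h1, hl'.2]
    omega
  have hcs : ∀ {w : G}, w ∈ D.dbl (s * τ) → w ∈ cell D.P s := fun hw => by
    obtain ⟨u, hu, v, hv, rfl⟩ := D.mem_dbl.1 hw
    exact mem_cell.2 ⟨u, D.U_le hu, τ * v, D.P.B.mul_mem hτ.1 (D.U_le hv), by group⟩
  have hca : ∀ {w : G}, w ∈ D.dbl a → w ∈ cell D.P a := fun hw => by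
    obtain ⟨u, hu, v, hv, rfl⟩ := D.mem_dbl.1 hw
    exact mem_cell.2 ⟨u, D.U_le hu, v, D.U_le hv, rfl⟩
  rw [D.conv_eq]
  by_cases hg : g ∈ D.dbl (a * (s * τ))
  · obtain ⟨u, hu, v, hv, hguv⟩ := D.mem_dbl.1 hg
    rw [Finset.sum_eq_single ((u * a : G) : G ⧸ D.U)]
    · rw [(D.bi_ind a).eq_out, (D.bi_ind (s * τ)).arg_out]
      have h1 : u * a ∈ D.dbl a := D.mem_dbl.2 ⟨u, hu, 1, D.U.one_mem, (mul_one _).symm⟩
      have h2 : (u * a)⁻¹ * g ∈ D.dbl (s * τ) :=
        D.mem_dbl.2 ⟨1, D.U.one_mem, v, hv, by rw [hguv]; group⟩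
      simp only [ind]
      rw [Set.indicator_of_mem h1, Set.indicator_of_mem h2, Set.indicator_of_mem hg, one_mul]
    · intro q _ hq
      obtain ⟨x, rfl⟩ := QuotientGroup.mk_surjective q
      rw [(D.bi_ind a).eq_out, (D.bi_ind (s * τ)).arg_out]
      by_contra hne
      have hx : x ∈ D.dbl a := Set.mem_of_indicator_ne_zero (left_ne_zero_of_mul hne)
      have hxg : x⁻¹ * g ∈ D.dbl (s * τ) := Set.mem_of_indicator_ne_zero (right_ne_zero_of_mul hne)
      have hua : u * a ∈ D.dbl a := D.mem_dbl.2 ⟨u, hu, 1, D.U.one_mem, (mul_one _).symm⟩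
      have huag : (u * a)⁻¹ * g ∈ D.dbl (s * τ) :=
        D.mem_dbl.2 ⟨1, D.U.one_mem, v, hv, by rw [hguv]; group⟩
      have hB : (u * a)⁻¹ * x ∈ D.P.B :=
        D.prefix_unique hs haN hle (hca hx) (hca hua) (hcs hxg) (hcs huag) (by
          rw [mul_inv_cancel_left, mul_inv_cancel_left, inv_mul_cancel]
          exact D.P.B.one_mem)
      obtain ⟨u1, hu1, u2, hu2, rfl⟩ := D.mem_dbl.1 hx
      have hw : D.Fix (u⁻¹ * u1) a := by
        have := D.P.B.mul_mem hB (D.P.B.inv_mem (D.U_le hu2))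
        simpa [Fix, mul_assoc] using this
      have hU := D.conj_mem_U (D.U.mul_mem (D.U.inv_mem hu) hu1) hw
      refine hq (QuotientGroup.eq.2 ?_)
      have := D.U.inv_mem (D.U.mul_mem hU hu2)
      simpa [mul_assoc] using this
    · simp
  · simp only [ind, Set.indicator_of_notMem hg]
    refine Finset.sum_eq_zero fun q _ => ?_
    by_contra hne
    have hx : q.out ∈ D.dbl a := Set.mem_of_indicator_ne_zero (left_ne_zero_of_mul hne)
    have hxg : q.out⁻¹ * g ∈ D.dbl (s * τ) := Set.mem_of_indicator_ne_zero (right_ne_zero_of_mul hne)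
    apply hg
    obtain ⟨u1, hu1, u2, hu2, e1⟩ := D.mem_dbl.1 hx
    obtain ⟨u3, hu3, u4, hu4, e2⟩ := D.mem_dbl.1 hxg
    set u := u2 * u3 with huU
    have hu : u ∈ D.U := D.U.mul_mem hu2 hu3
    have h1 : a * u ∈ cell D.P a := right_mul_mem_cell (D.U_le hu) (self_mem_cell a)
    obtain ⟨u', hu', hu'B⟩ := D.exists_U_rep (D.P.N.mul_mem haN (s_mem_N hs))
      (D.cell_mul_cell hs haN hle h1 (self_mem_cell s))
    have h2 : (u' * a)⁻¹ * (a * u) ∈ D.P.B :=
      D.prefix_unique hs haN hle h1 (left_mul_mem_cell (D.U_le hu') (self_mem_cell a))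
        (self_mem_cell s) (self_mem_cell s) (by rwa [mul_assoc u' a s])
    have h3 : D.Fix u'⁻¹ a := by
      have := D.P.B.mul_mem h2 (D.P.B.inv_mem (D.U_le hu))
      simpa [Fix, mul_assoc] using this
    set u1' := a⁻¹ * u'⁻¹ * a with hu1'
    have hu1'U : u1' ∈ D.U := D.conj_mem_U (D.U.inv_mem hu') h3
    have h4 : D.Fix (u1' * u) s := by
      have : (u' * (a * s))⁻¹ * (a * u * s) = s⁻¹ * (u1' * u) * s := by rw [hu1']; group
      rw [this] at hu'B
      exact hu'B
    have h5 := D.conj_mem_U (D.U.mul_mem hu1'U hu) h4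
    have h6 : τ⁻¹ * (s⁻¹ * (u1' * u) * s) * τ ∈ D.U := by
      have := D.conj τ⁻¹ (D.P.B.inv_mem hτ.1) _ h5
      simpa [mul_assoc] using this
    refine D.mem_dbl.2 ⟨u1 * u', D.U.mul_mem hu1 hu', τ⁻¹ * (s⁻¹ * (u1' * u) * s) * τ * u4,
      D.U.mul_mem h6 hu4, ?_⟩
    rw [show g = q.out * (q.out⁻¹ * g) by group, e2, e1, hu1', huU]
    group

/-- Along a word carrying a maximal stabilizer, all letters are descents. -/
theorem descent_of_mem_word [CharP k p] {φ : G → k} (hφ : D.Bi φ) {r0 : ℕ}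
    (hmax : ∀ x, φ x ≠ 0 → Nat.card (D.stabU x) ≤ r0) {n : G} (hn : n ∈ D.P.N) :
    ∀ l : List G, IsReduced D.P l → ∀ τ ∈ D.P.B ⊓ D.P.N, ∀ g ∈ cell D.P n,
      Nat.card (D.stabU g) = r0 → D.conv φ (D.ind (l.prod * τ)) g ≠ 0 →
      ∀ s ∈ l, len D.P (n * s) < len D.P n := by
  intro l
  induction l using List.reverseRecOn with
  | nil => simp
  | append_singleton l s ih =>
    intro hl τ hτ g hg hr hne t ht
    have hs : s ∈ D.P.S := hl.1 s (by simp)
    have hsN := s_mem_N hs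
    have e : (D.ind ((l ++ [s]).prod * τ) : G → k) = D.conv (D.ind l.prod) (D.ind (s * τ)) := by
      funext y
      rw [D.ind_mul_conv hl hτ, List.prod_append, List.prod_singleton, mul_assoc]
    rw [e, ← conv_assoc (D.bi_ind _) (D.bi_ind _)] at hne
    obtain ⟨x, hx, hxg, hle⟩ := D.exists_fixed (bi_conv hφ (D.bi_ind _)) (D.bi_ind _) hne
    obtain ⟨x', hx', -, hle'⟩ := D.exists_fixed hφ (D.bi_ind _) hx
    have hge := Subgroup.card_le_of_le hle
    have hle2 := (Subgroup.card_le_of_le hle').trans (hmax x' hx')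
    have hxcs : g⁻¹ * x ∈ cell D.P s := by
      have h1 := Set.mem_of_indicator_ne_zero hxg
      obtain ⟨u, hu, v, hv, e1⟩ := D.mem_dbl.1 h1
      have h2 : x⁻¹ * g ∈ cell D.P s :=
        mem_cell.2 ⟨u, D.U_le hu, τ * v, D.P.B.mul_mem hτ.1 (D.U_le hv), by rw [e1]; group⟩
      have h3 := inv_mem_cell h2
      rw [mul_inv_rev, inv_inv] at h3
      have hcs : cell D.P s⁻¹ = cell D.P s := by
        have := cell_eq_of_agree (agree_right_inv (m := 1) hs)
        simpa using this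
      rwa [hcs] at h3
    have hdesc : len D.P (n * s) < len D.P n := by
      by_contra hcon
      have hlt : len D.P n < len D.P (n * s) :=
        lt_of_le_of_ne (not_lt.1 hcon) (len_mul_right_ne hs hn).symm
      have h1 := D.cell_mul_cell hs hn hlt.le hg hxcs
      rw [mul_inv_cancel_left] at h1
      have h2 := D.card_stabU_cell (D.P.N.mul_mem hn hsN) h1
      have h3 := D.card_stabU_lt hs hn hlt
      have h4 := D.card_stabU_cell hn hg
      omega
    rcases List.mem_append.1 ht with ht | ht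
    swap
    · rw [List.mem_singleton.1 ht]; exact hdesc
    have hxn : x ∈ cell D.P n := by
      obtain ⟨b, hb, b', hb', e1⟩ := mem_cell.1 hxcs
      have h1 : g * b * s * b' ∈ cell D.P (n * s) ∪ cell D.P n := by
        rcases cell_mul_right hs hn (right_mul_mem_cell hb hg) with h | h
        · exact Or.inl (right_mul_mem_cell hb' h)
        · exact Or.inr (right_mul_mem_cell hb' h)
      rw [show g * b * s * b' = g * (b * s * b') by group, ← e1, mul_inv_cancel_left] at h1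
      refine h1.resolve_left fun h => ?_
      have h2 := D.card_stabU_cell (D.P.N.mul_mem hn hsN) h
      have h4 := D.card_stabU_cell hn hg
      have hag : Agree D.P (n * s * s) n := by
        have := D.P.B.inv_mem (D.P.sq_mem s hs)
        simpa [Agree, mul_assoc] using this
      have h5 : len D.P (n * s) < len D.P (n * s * s) := by rwa [len_congr hag]
      have h3 := D.card_stabU_lt hs (D.P.N.mul_mem hn hsN) h5
      rw [D.stabU_congr hag] at h3
      omega
    refine ih (red_left hl) 1 ⟨D.P.B.one_mem, D.P.N.one_mem⟩ x hxn ?_ ?_ t ht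
    · omega
    · rwa [mul_one]

/-- An idempotent vanishing on the maximal parabolic subgroups is supported on the chambers with
trivial stabilizer. -/
theorem stabU_eq_bot [CharP k p] {φ : G → k} (hφ : D.Bi φ) (hid : ∀ g, D.conv φ φ g = φ g)
    (hpar : ∀ r ∈ D.P.S, ∀ g ∈ D.P.parabolic (D.P.S \ {r}), φ g = 0) {g : G} (hg : φ g ≠ 0) :
    D.stabU g = ⊥ := by
  classical
  haveI := Fintype.ofFinite G
  haveI := Fintype.ofFinite (G ⧸ D.U)
  obtain ⟨x, hx, hmax⟩ := Finset.exists_max_image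
    (Finset.univ.filter fun x => φ x ≠ 0) (fun x => Nat.card (D.stabU x)) ⟨g, by simpa using hg⟩
  simp only [Finset.mem_filter, Finset.mem_univ, true_and] at hx hmax
  suffices H : D.stabU x = ⊥ by
    refine Subgroup.eq_bot_of_card_le _ ?_
    have := hmax g hg
    rwa [H, Subgroup.card_bot] at this
  obtain ⟨n, hn, hxn⟩ := exists_mem_cell (P := D.P) x
  have hne : D.conv φ φ x ≠ 0 := by rwa [hid]
  -- one double coset carries the convolution
  obtain ⟨y, hy, hyne⟩ : ∃ y, φ y ≠ 0 ∧ D.conv φ (D.ind y) x ≠ 0 := by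
    rw [D.conv_eq] at hne
    rw [← Finset.sum_fiberwise_of_maps_to (g := fun q : G ⧸ D.U => D.dbl (q.out⁻¹ * x))
      (t := Finset.univ.image fun q : G ⧸ D.U => D.dbl (q.out⁻¹ * x))
      (fun q _ => Finset.mem_image_of_mem _ (Finset.mem_univ q))] at hne
    obtain ⟨c, hc, hcne⟩ := Finset.exists_ne_zero_of_sum_ne_zero hne
    obtain ⟨q0, -, rfl⟩ := Finset.mem_image.1 hc
    have hrep : ∀ q : G ⧸ D.U, q.out⁻¹ * x ∈ D.dbl (q0.out⁻¹ * x) ↔
        D.dbl (q.out⁻¹ * x) = D.dbl (q0.out⁻¹ * x) :=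
      fun q => ⟨fun h => DoubleCoset.doubleCoset_eq_of_mem h,
        fun h => h ▸ DoubleCoset.mem_doubleCoset_self _ _ _⟩
    rw [Finset.sum_congr rfl (g := fun q : G ⧸ D.U => φ q.out * φ (q0.out⁻¹ * x)) (fun q hq => by
      rw [hφ.eq_of_dbl ((hrep q).2 (Finset.mem_filter.1 hq).2)]), ← Finset.sum_mul] at hcne
    refine ⟨_, right_ne_zero_of_mul hcne, ?_⟩
    rw [D.conv_eq]
    refine ne_of_eq_of_ne ?_ (left_ne_zero_of_mul hcne)
    rw [Finset.sum_filter]
    refine Fintype.sum_congr _ _ fun q => ?_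
    simp only [ind, Set.indicator_apply, mul_ite, mul_one, mul_zero]
    exact if_congr (hrep q) rfl rfl
  obtain ⟨m, hm, hym⟩ := exists_mem_cell (P := D.P) y
  obtain ⟨l, hl, hlm⟩ := exists_isReduced hm
  rw [← cell_eq_of_agree hlm] at hym
  obtain ⟨u, hu, hub⟩ := D.exists_U_rep hl.1.prod_mem hym
  obtain ⟨v, hv, τ, hτ, hvτ⟩ := D.dec _ hub
  have hy' : y ∈ D.dbl (l.prod * τ) := by
    refine D.mem_dbl.2 ⟨u, hu, τ⁻¹ * v * τ, ?_, ?_⟩
    · have := D.conj τ⁻¹ (D.P.B.inv_mem hτ.1) v hv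
      simpa using this
    · rw [show y = u * l.prod * ((u * l.prod)⁻¹ * y) by group, hvτ]
      group
  have hdbl : D.dbl y = D.dbl (l.prod * τ) := DoubleCoset.doubleCoset_eq_of_mem hy'
  have hind : (D.ind y : G → k) = D.ind (l.prod * τ) := by unfold ind; rw [hdbl]
  rw [hind] at hyne
  have hall : ∀ s ∈ D.P.S, s ∈ l := by
    intro s hs
    by_contra hsl
    refine hy (hpar s hs y ?_)
    have hsub : ∀ z ∈ l, z ∈ D.P.S \ {s} := fun z hz => ⟨hl.1 z hz, fun h => hsl (h ▸ hz)⟩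
    refine cell_subset (B_le_parabolic _) ?_ hym
    exact Subgroup.list_prod_mem _ fun z hz => subset_parabolic _ (hsub z hz)
  rw [eq_bot_iff]
  have htop : RightTop D.P n := fun s hs =>
    D.descent_of_mem_word hφ (fun z hz => hmax z hz) hn l hl τ hτ x hxn rfl hyne s (hall s hs)
  have h1 := D.card_stabU_cell hn hxn
  rw [D.stabU_rightTop hn htop, Subgroup.card_bot] at h1
  exact (Subgroup.eq_bot_of_card_eq _ h1).le

end SplitData

end CfsgLib.LieBlocks
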