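import Cfsg.Agent.Lib.LieBlocks.Split

/-!
Split (B,N)-pairs pass to quotients by subgroups of `B ⊓ N`, and the panel condition follows from
the radicals of the panels.
-/

set_option autoImplicit false
set_option linter.unusedSectionVars false
set_option linter.style.haveILetI false

namespace CfsgLib.LieBlocks

open CfsgLib.BNPair CfsgLib.InvCentralizers.SteinbergChar CfsgLib.InvCentralizers.SteinbergCount

variable {G H : Type*} [Group G] [Group H]

/-- The image of a (B,N)-pair modulo a subgroup of `B ⊓ N`. -/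
def mapPair (P : Cfsg.BNPair G) (π : G →* H) (hπ : Function.Surjective π)
    (hB : π.ker ≤ P.B) (hN : π.ker ≤ P.N) : Cfsg.BNPair H where
  B := P.B.map π
  N := P.N.map π
  S := π '' P.S
  sup_eq_top := by
    rw [← Subgroup.map_sup, P.sup_eq_top, Subgroup.map_top_of_surjective π hπ]
  conj_mem := by
    rintro _ ⟨n, hn, rfl⟩ t ⟨htB, htN⟩
    obtain ⟨b, hb, rfl⟩ := htB
    obtain ⟨n', hn', e⟩ := htN
    have hbN : b ∈ P.N := by
      have hk : n'⁻¹ * b ∈ π.ker := by rw [MonoidHom.mem_ker, map_mul, map_inv, e, inv_mul_cancel]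
      simpa using P.N.mul_mem hn' (hN hk)
    exact ⟨n * b * n⁻¹, P.conj_mem n hn b ⟨hb, hbN⟩, by simp⟩
  subset := by
    rintro _ ⟨s, hs, rfl⟩
    exact ⟨s, P.subset hs, rfl⟩
  sq_mem := by
    rintro _ ⟨s, hs, rfl⟩
    exact ⟨s * s, P.sq_mem s hs, map_mul π s s⟩
  inj := by
    rintro _ ⟨s, hs, rfl⟩ _ ⟨s', hs', rfl⟩ ⟨b, hb, e⟩
    congr 1
    refine P.inj s hs s' hs' ?_
    have hk : b⁻¹ * (s⁻¹ * s') ∈ π.ker := by
      rw [MonoidHom.mem_ker, map_mul, map_mul, map_inv, map_inv, e, inv_mul_cancel]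
    simpa using P.B.mul_mem hb (hB hk)
  closure_sup := by
    have hinf : P.B.map π ⊓ P.N.map π = (P.B ⊓ P.N).map π := by
      refine le_antisymm ?_ (Subgroup.map_inf_le _ _ π)
      rintro _ ⟨⟨b, hb, rfl⟩, ⟨n, hn, e⟩⟩
      have hk : n⁻¹ * b ∈ π.ker := by rw [MonoidHom.mem_ker, map_mul, map_inv, e, inv_mul_cancel]
      exact ⟨b, ⟨hb, by simpa using P.N.mul_mem hn (hN hk)⟩, rfl⟩
    rw [← MonoidHom.map_closure, hinf, ← Subgroup.map_sup, P.closure_sup]
  mul_mem_union := by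
    rintro _ ⟨s, hs, rfl⟩ _ ⟨n, hn, rfl⟩ _ ⟨b, hb, rfl⟩
    rcases P.mul_mem_union s hs n hn b hb with h | h <;>
      obtain ⟨x, hx, y, hy, e⟩ := DoubleCoset.mem_doubleCoset.1 h
    · refine Or.inl (DoubleCoset.mem_doubleCoset.2 ⟨π x, ⟨x, hx, rfl⟩, π y, ⟨y, hy, rfl⟩, ?_⟩)
      rw [← map_mul, ← map_mul, e, map_mul, map_mul, map_mul]
    · refine Or.inr (DoubleCoset.mem_doubleCoset.2 ⟨π x, ⟨x, hx, rfl⟩, π y, ⟨y, hy, rfl⟩, ?_⟩)
      rw [← map_mul, ← map_mul, e, map_mul, map_mul]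
  conj_ne := by
    rintro _ ⟨s, hs, rfl⟩ h
    refine P.conj_ne s hs ?_
    have hq := P.sq_mem s hs
    have hmem : ∀ b ∈ P.B, s * b * s ∈ P.B := by
      intro b hb
      have h1 : π (s * b * s) ∈ P.B.map π := by
        rw [← SetLike.mem_coe, ← h, map_mul, map_mul]
        exact ⟨π b, ⟨b, hb, rfl⟩, rfl⟩
      obtain ⟨c, hc, e⟩ := h1
      have hk : c⁻¹ * (s * b * s) ∈ π.ker := by
        rw [MonoidHom.mem_ker, map_mul, map_inv, e, inv_mul_cancel]
      simpa using P.B.mul_mem hc (hB hk)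
    ext x
    constructor
    · rintro ⟨b, hb, rfl⟩
      exact hmem b hb
    · intro hx
      refine ⟨(s * s)⁻¹ * (s * x * s) * (s * s)⁻¹,
        P.B.mul_mem (P.B.mul_mem (P.B.inv_mem hq) (hmem x hx)) (P.B.inv_mem hq), ?_⟩
      group

namespace SplitData

variable {p : ℕ}

/-- Split (B,N)-pairs pass to quotients by subgroups of `B ⊓ N`. -/
def map (D : SplitData G p) (π : G →* H) (hπ : Function.Surjective π)
    (hB : π.ker ≤ D.P.B) (hN : π.ker ≤ D.P.N) : SplitData H p where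
  P := mapPair D.P π hπ hB hN
  U := D.U.map π
  U_le := Subgroup.map_mono D.U_le
  pGroup := D.pGroup.map π
  index := fun h => D.index (h.trans (Subgroup.index_map_dvd D.U hπ))
  conj := by
    rintro _ ⟨b, hb, rfl⟩ _ ⟨u, hu, rfl⟩
    exact ⟨b * u * b⁻¹, D.conj b hb u hu, by simp⟩
  dec := by
    rintro _ ⟨b, hb, rfl⟩
    obtain ⟨u, hu, t, ⟨htB, htN⟩, rfl⟩ := D.dec b hb
    exact ⟨π u, ⟨u, hu, rfl⟩, π t, ⟨⟨t, htB, rfl⟩, ⟨t, htN, rfl⟩⟩, map_mul π u t⟩
  UN := by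
    rintro _ ⟨u, hu, rfl⟩ ⟨n, hn, e⟩
    have hk : n⁻¹ * u ∈ π.ker := by rw [MonoidHom.mem_ker, map_mul, map_inv, e, inv_mul_cancel]
    rw [D.UN u hu (by simpa using D.P.N.mul_mem hn (hN hk)), map_one]
  opp := by
    obtain ⟨n, hn, h⟩ := D.opp
    refine ⟨π n, ⟨n, hn, rfl⟩, ?_⟩
    rintro _ ⟨b, hb, rfl⟩ ⟨c, hc, e⟩
    have hk : c⁻¹ * (n⁻¹ * b * n) ∈ π.ker := by
      rw [MonoidHom.mem_ker, map_mul, map_inv, e, map_mul, map_mul, map_inv, inv_mul_cancel]
    exact ⟨b, h b hb (by simpa using D.P.B.mul_mem hc (hB hk)), rfl⟩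
  panel := by
    rintro _ ⟨t, ht, rfl⟩ _ ⟨b, hb, rfl⟩ _ ⟨u, hu, rfl⟩ ⟨c, hc, e⟩
    have hk : c⁻¹ * (t⁻¹ * u * t) ∈ π.ker := by
      rw [MonoidHom.mem_ker, map_mul, map_inv, e, map_mul, map_mul, map_inv, inv_mul_cancel]
    have h1 := D.panel t ht b hb u hu (by simpa using D.P.B.mul_mem hc (hB hk))
    exact ⟨_, h1, by simp⟩

/-- The data transported along an isomorphism. -/
def congr (D : SplitData G p) (e : G ≃* H) : SplitData H p :=
  have hk : e.toMonoidHom.ker = ⊥ :=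
    (MonoidHom.ker_eq_bot_iff e.toMonoidHom).2 (fun _ _ h => e.injective h)
  D.map e.toMonoidHom e.surjective (by rw [hk]; exact bot_le) (by rw [hk]; exact bot_le)

end SplitData

/-- The panel condition follows from subgroups of `U` normalized by the panel parabolics and cut out
by an element of `N`. -/
theorem panel_of_split [Finite G] {P : Cfsg.BNPair G} {p : ℕ} (T : Split P p) {t : G} (ht : t ∈ P.S)
    {b : G} (hb : b ∈ P.B) {u : G} (hu : u ∈ T.U) (h : t⁻¹ * u * t ∈ P.B) :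
    t⁻¹ * (b * u * b⁻¹) * t ∈ P.B := by
  have hJ : ({t} : Set G) ⊆ P.S := by simpa using ht
  obtain ⟨n, hn, hnJ, hstab⟩ := T.stab {t} hJ
  have huR : u ∈ T.R {t} := by
    refine hstab u hu ?_
    rcases mem_parabolic_singleton ht hnJ with h1 | h1
    · exact P.B.mul_mem (P.B.mul_mem (P.B.inv_mem h1) (T.U_le hu)) h1
    · have hag := agree_of_mem_cell (s_mem_N ht) hn h1 (self_mem_cell n)
      rw [show n⁻¹ * u * n = (t⁻¹ * n)⁻¹ * (t⁻¹ * u * t) * (t⁻¹ * n) by group]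
      exact P.B.mul_mem (P.B.mul_mem (P.B.inv_mem hag) h) hag
  have htp : t ∈ P.parabolic {t} := subset_parabolic _ rfl
  have h1 := T.R_normal {t} hJ b (B_le_parabolic _ hb) u huR
  have h2 := T.R_normal {t} hJ t⁻¹ (Subgroup.inv_mem _ htp) _ h1
  rw [inv_inv] at h2
  exact T.U_le (T.R_le {t} hJ h2)

end CfsgLib.LieBlocks
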