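import Cfsg.Agent.Lib.LieBlocks.PolarSplit
import Cfsg.Agent.Lib.BrauerPairs.ChamberClassical

/-!
Split (B,N)-pairs of the classical groups.
-/

set_option autoImplicit false
set_option linter.unusedSectionVars false

namespace CfsgLib.LieBlocks

open Module CfsgLib.Generators.Steinberg CfsgLib.ClassicalForms CfsgLib.BrauerPairs

variable {F : Type} [Field F] [Finite F] {p : ℕ} [Fact p.Prime] [CharP F p] {H : Type*} [Group H]

theorem exists_splitData_pSp {m : ℕ} (e : H ≃* Cfsg.PSp m F) : Nonempty (SplitData H p) :=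
  ⟨(PolarBN.splitDataQuot (good_symp m F p) (QuotientGroup.mk' _) (QuotientGroup.mk'_surjective _)
    (QuotientGroup.ker_mk' _).le).congr e.symm⟩

theorem exists_splitData_pSU {n q : ℕ} (hF : Nat.card F = q ^ 2) (e : H ≃* Cfsg.PSU n F q) :
    Nonempty (SplitData H p) := by
  obtain ⟨c⟩ := exists_conj (F := F) (q := q) hF
  exact ⟨(PolarBN.splitDataQuot (good_herm c p) (QuotientGroup.mk' _) (QuotientGroup.mk'_surjective _)
    (QuotientGroup.ker_mk' _).le).congr e.symm⟩

theorem exists_splitData_pOmega {ι' : Type} [Fintype ι'] [DecidableEq ι'] {f : (ι' → F) → F} {m : ℕ}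
    (Q' : QuadraticForm F (ι' → F)) (h : ∀ v, Q' v = f v) (D' : QData Q' m)
    (e : H ≃* Cfsg.POmega F f) : Nonempty (SplitData H p) := by
  let i := isoMat Q' h
  let j : Cfsg.Omega F f →* orth Q' := i.toMonoidHom.comp (Cfsg.Omega F f).subtype
  have hj : Function.Injective j := i.injective.comp (Cfsg.Omega F f).subtype_injective
  have hr : j.range = commutator (orth Q') := by
    rw [MonoidHom.range_comp, Subgroup.range_subtype, show Cfsg.Omega F f = commutator _ from rfl,
      commutator_def, Subgroup.map_commutator, commutator_def,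
      Subgroup.map_top_of_surjective i.toMonoidHom i.surjective]
  have : Finite (orth Q') := Finite.of_injective
    (fun g => ((g : (ι' → F) ≃ₗ[F] (ι' → F)) : (ι' → F) → (ι' → F))) (fun _ _ e => orth_ext (congrFun e))
  have : Finite (Cfsg.Omega F f) := Finite.of_injective j hj
  exact ⟨(PolarBN.splitDataQuot (D'.good j hj hr p) (QuotientGroup.mk' _)
    (QuotientGroup.mk'_surjective _) (QuotientGroup.ker_mk' _).le).congr e.symm⟩

end CfsgLib.LieBlocks
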