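import Cfsg.Agent.Lib.LieBlocks.Image
import Cfsg.Agent.Lib.BrauerPairs.ParabolicFixed
import Cfsg.Agent.Lib.InvCentralizers.ChevalleySplit

/-!
Split (B,N)-pairs of Chevalley and twisted groups.
-/

set_option autoImplicit false
set_option linter.unusedSectionVars false

namespace CfsgLib.LieBlocks

open Cfsg.Lie CfsgLib.Chevalley CfsgLib.Twisted CfsgLib.BrauerPairs
open CfsgLib.InvCentralizers.ChevalleySplit (outRoots borel_conj_out)

variable {D : ChevalleyDatum} {A : Aux} {F : Type*} [Field F] {h : Full D A}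
  {ρ : Equiv.Perm (Fin D.nroots)} {φ : GL D.Idx F → GL D.Idx F} {G : Subgroup (GL D.Idx F)}
  {Js : Set (Set (Fin D.rank))}

/-- An element of the unipotent subgroup fixing a second chamber of a panel fixes the panel. -/
theorem isRep_panel {J : Set (Fin D.rank)} {s : GL D.Idx F} (hs : FixedPts.IsRep h G J s)
    {b u : GL D.Idx F} (hb : b ∈ D.borelSubgroup F) (hu : u ∈ D.posUnipotent F)
    (hus : s⁻¹ * u * s ∈ D.borelSubgroup F) : s⁻¹ * (b * u * b⁻¹) * s ∈ D.borelSubgroup F := by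
  obtain ⟨-, -, σ, η, hA, hk, hneg⟩ := id hs
  obtain ⟨θ, hA'⟩ := hs.acts_inv hA
  set Jn : Set ℕ := {i | ∃ hi : i < D.rank, (⟨i, hi⟩ : Fin D.rank) ∈ J}
  have hout : ∀ v ∈ rootsU D F (outRoots D A Jn), s⁻¹ * v * s ∈ D.borelSubgroup F := by
    intro v hv
    have h1 := hA'.conj_rootsU (S := outRoots D A Jn) (T := {r | D.IsPosRoot r}) (fun r hr => by
      obtain ⟨hrp, i, hi, hiJ, hpos⟩ := hr
      refine (hk.isPos h hrp fun hm => hpos.ne' ?_).1
      exact hm.2 ⟨i, hi⟩ fun hJ' => hiJ ⟨hi, hJ'⟩) v hv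
    rw [inv_inv] at h1
    exact Subgroup.mem_sup_left h1
  obtain ⟨a, ha, c, hc, hac⟩ := split_pos h.toStd (P := outRoots D A Jn) (Q := subPos D A J)
    (fun r hr => by
      by_cases hex : ∃ i < D.rank, i ∉ Jn ∧ 0 < crd A i r
      · exact Or.inl ⟨hr, hex⟩
      · refine Or.inr ⟨hr, fun i hiJ => le_antisymm (not_lt.1 fun hpos => hex ?_) (h.crd_nonneg hr i.isLt)⟩
        exact ⟨i, i.isLt, fun ⟨_, h'⟩ => hiJ h', hpos⟩) hu
  have ha' : a ∈ rootsU D F (outRoots D A Jn) := rootsU_mono (fun r hr => hr.2) ha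
  have hneg' : s⁻¹ * c * s ∈ D.negUnipotent F := by
    have h1 := hA'.conj_rootsU (T := {r | D.IsNegRoot r}) (fun r hr => hneg r hr.2) c hc
    rwa [inv_inv] at h1
  have hcB : s⁻¹ * c * s ∈ D.borelSubgroup F := by
    have h1 := mul_mem (inv_mem (hout a ha')) hus
    rw [hac] at h1
    simpa [mul_assoc] using h1
  have hc1 : c = 1 := by
    have h1 : s⁻¹ * c * s ∈ D.borelSubgroup F ⊓ D.negUnipotent F := ⟨hcB, hneg'⟩
    rw [borel_inf_negUnipotent h, Subgroup.mem_bot] at h1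
    calc c = s * (s⁻¹ * c * s) * s⁻¹ := by group
      _ = 1 := by rw [h1]; simp
  rw [hac, hc1, mul_one]
  exact hout _ (borel_conj_out h Jn hb a ha')

variable [Fintype F]

/-- The split (B,N)-pair of a group of fixed points. -/
theorem exists_splitData_fixedPts (hG : FixedPts h ρ φ G) (hJ : OrbitData h ρ G Js)
    {p : ℕ} [Fact p.Prime] [CharP F p] {H : Type*} [Group H] (e : H ≃* G) :
    Nonempty (SplitData H p) := by
  classical
  have : Finite (GL D.Idx F) := inferInstance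
  set P := hG.bnPair hJ with hP
  have hmemB : ∀ x : G, x ∈ P.B ↔ (x : GL D.Idx F) ∈ D.borelSubgroup F := fun x =>
    ⟨fun hx => hx.1, fun hx => ⟨hx, x.2⟩⟩
  have hmemN : ∀ x : G, x ∈ P.N ↔ (x : GL D.Idx F) ∈ D.monomialSubgroup F := fun x =>
    ⟨fun hx => hx.1, fun hx => ⟨hx, x.2⟩⟩
  have hU : IsPGroup p ((D.posUnipotent F).subgroupOf G) :=
    ((CfsgLib.InvCentralizers.ChevalleySteinberg.isPGroup_U (F := F) h).to_le
      (inf_le_left (b := G))).of_equiv
      ((Subgroup.subgroupOfEquivOfLe (inf_le_right (a := D.posUnipotent F))).symm.trans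
        (MulEquiv.subgroupCongr (Subgroup.inf_subgroupOf_right _ _)))
  have hUB : (D.posUnipotent F).subgroupOf G ≤ P.B := fun x hx => (hmemB x).2 (Subgroup.mem_sup_left hx)
  have hconj : ∀ b ∈ P.B, ∀ u ∈ (D.posUnipotent F).subgroupOf G, b * u * b⁻¹ ∈ (D.posUnipotent F).subgroupOf G :=
    fun b hb u hu => IsRankOne.conj_pos h ((hmemB b).1 hb) hu
  have hdec : ∀ b ∈ P.B, ∃ u ∈ (D.posUnipotent F).subgroupOf G, ∃ t ∈ P.B ⊓ P.N, b = u * t := by
    intro b hb
    obtain ⟨u, t, hu, huU, ht, htD, eb⟩ := hG.borel_decomp b.2 ((hmemB b).1 hb)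
    exact ⟨⟨u, hu⟩, huU, ⟨t, ht⟩, ⟨(hmemB _).2 (Subgroup.mem_sup_right htD),
      (hmemN _).2 (diagonal_le_monomial htD)⟩, Subtype.ext eb⟩
  have hUN : ∀ u ∈ (D.posUnipotent F).subgroupOf G, u ∈ P.N → u = 1 := by
    intro u hu huN
    refine Subtype.ext (eq_one_of_mem_pos_diagonal h hu ?_)
    rw [← borel_inf_monomial h]
    exact ⟨Subgroup.mem_sup_left hu, (hmemN u).1 huN⟩
  have hH : ∃ n ∈ P.N, ∀ b ∈ P.B, n⁻¹ * b * n ∈ P.B → b ∈ P.N := by
    obtain ⟨n, hn, hnN, σ, η, hA, hpn⟩ := exists_negating hG hJ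
    exact ⟨⟨n, hn⟩, (hmemN _).2 hnN, fun b hb hb' => (hmemN b).2 (diagonal_le_monomial
      (mem_diagonal_of_negates h hnN hA hpn ((hmemB b).1 hb) ((hmemB _).1 hb')))⟩
  have hT : ¬ p ∣ Nat.card ↥(P.B ⊓ P.N) := by
    intro hd
    refine CfsgLib.InvCentralizers.ChevalleySteinberg.coprime_card_diagonal (F := F) h (p := p)
      (hd.trans ?_)
    refine Subgroup.card_dvd_of_injective
      (((G.subtype.comp (P.B ⊓ P.N).subtype)).codRestrict (D.diagonalSubgroup F) fun x => ?_) ?_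
    · rw [← borel_inf_monomial h]
      exact ⟨(hmemB _).1 x.2.1, (hmemN _).1 x.2.2⟩
    · intro x y hxy
      exact Subtype.ext (Subtype.ext (congrArg (fun z : D.diagonalSubgroup F => (z : GL D.Idx F)) hxy :))
  let S : SplitData G p :=
    { P := P
      U := (D.posUnipotent F).subgroupOf G
      U_le := hUB
      pGroup := hU
      index := not_dvd_index_of_bnPair (P := P) hUB hconj hdec hUN hH hU hT
      conj := hconj
      dec := hdec
      UN := hUN
      opp := hH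
      panel := by
        rintro _ ⟨J, rfl⟩ b hb u hu hus
        exact (hmemB _).2 (isRep_panel (hG.rep_spec hJ J) ((hmemB b).1 hb) hu ((hmemB _).1 hus)) }
  exact ⟨S.congr e.symm⟩

theorem exists_splitData_fixed {LJ : List (List ℕ)} (hd : HasFixedData h G LJ)
    {p : ℕ} [Fact p.Prime] [CharP F p] {H : Type*} [Group H] (e : H ≃* G) :
    Nonempty (SplitData H p) := by
  obtain ⟨ρ, φ, hG, hJ⟩ := hd
  exact exists_splitData_fixedPts hG hJ e

theorem exists_splitData_chevalley (h : Full D A) {p : ℕ} [Fact p.Prime] [CharP F p] {H : Type*}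
    [Group H] (e : H ≃* D.group F) : Nonempty (SplitData H p) := by
  refine exists_splitData_fixedPts (h := h) (ρ := 1) (φ := id)
    (Js := Set.range fun i : Fin D.rank => ({i} : Set _))
    ⟨le_rfl, fun _ _ _ _ => rfl, fun _ _ => rfl,
      fun g hg _ => CfsgLib.Chevalley.rootsU_le_group h.cert {r | D.IsPosRoot r} hg, fun r t => ⟨t, rfl⟩,
      fun r => ⟨1, one_ne_zero, rfl⟩, fun i => CfsgLib.Chevalley.nG_simple_mem_monomial h i,
      fun _ ht => ht, fun _ hr => hr, fun _ hr => hr⟩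
    ⟨fun i => ⟨{i}, ⟨i, rfl⟩, rfl⟩, ?_, ?_⟩ e
  · rintro _ ⟨k, rfl⟩ i hi j hj
    rw [Set.mem_singleton_iff] at hi hj
    exact ⟨0, by rw [hi, hj]; rfl⟩
  · rintro _ ⟨k, rfl⟩
    have hs : D.IsNegRoot (ngR h.cert (smp h.cert k)) := h.neg_isNeg (h.simple_pos k.isLt)
    refine ⟨xG h.cert (ngR h.cert (smp h.cert k) : ℕ) 1, CfsgLib.Chevalley.xG_mem_group h.cert _ _, fun e1 => ?_,
      xG_mem_rootsU (S := subNeg D A ({k} : Set (Fin D.rank))) h.cert ⟨hs, fun i hi => ?_⟩ 1⟩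
    · exact one_ne_zero (xG_injective h.cert (ngR h.cert (smp h.cert k)).isLt (e1.trans (xG_zero h.cert _).symm))
    · show crd A i (D.neg (D.simple k)) = 0
      rw [(neg_facts h.cert i.isLt (h.cert.wf.simple_lt k k.isLt)).1, crd_simple h.cert i.isLt k.isLt,
        if_neg fun e => hi (by rw [Set.mem_singleton_iff]; exact Fin.ext e), neg_zero]

end CfsgLib.LieBlocks
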