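import Cfsg.Agent.Lib.LieBlocks.Image
import Cfsg.Agent.Lib.BrauerPairs.ChamberLinear
import Cfsg.Agent.Lib.BrauerPairs.ChamberSuzuki

/-!
Split (B,N)-pairs of the linear groups and of the Suzuki groups.
-/

set_option autoImplicit false
set_option linter.unusedSectionVars false

namespace CfsgLib.LieBlocks

open Matrix CfsgLib.BNPair CfsgLib.BrauerPairs

theorem SplitData.center_le_N {G : Type*} [Group G] {p : ℕ} (D : SplitData G p)
    (hB : Subgroup.center G ≤ D.P.B) : Subgroup.center G ≤ D.P.N := fun z hz => by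
  obtain ⟨n, -, h⟩ := D.opp
  refine h z (hB hz) ?_
  rw [Subgroup.mem_center_iff.1 hz n⁻¹, inv_mul_cancel_right]
  exact hB hz

/-- In rank one an element of `U` fixing the second chamber of a panel is trivial. -/
theorem panel_of_rankOne {G : Type*} [Group G] [Finite G] {P : Cfsg.BNPair G} {s : G}
    (hS : P.S = {s}) {U : Subgroup G} (hUB : U ≤ P.B) (hUN : ∀ u ∈ U, u ∈ P.N → u = 1)
    (hH : ∃ n ∈ P.N, ∀ b ∈ P.B, n⁻¹ * b * n ∈ P.B → b ∈ P.N) :
    ∀ t ∈ P.S, ∀ b ∈ P.B, ∀ u ∈ U, t⁻¹ * u * t ∈ P.B → t⁻¹ * (b * u * b⁻¹) * t ∈ P.B := by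
  intro t ht b hb u hu h
  obtain ⟨n, hn, hop⟩ := hH
  have hst : t = s := by rw [hS] at ht; exact ht
  have htop : n ∈ P.parabolic {t} := by
    rw [hst, ← hS]
    have h1 : P.N ≤ P.parabolic P.S := by
      rw [← P.closure_sup]
      exact sup_le le_sup_right (inf_le_left.trans le_sup_left)
    exact h1 hn
  have hu1 : u = 1 := by
    refine hUN u hu (hop u (hUB hu) ?_)
    rcases mem_parabolic_singleton ht htop with h1 | h1
    · exact P.B.mul_mem (P.B.mul_mem (P.B.inv_mem h1) (hUB hu)) h1
    · have hag := agree_of_mem_cell (s_mem_N ht) hn h1 (self_mem_cell n)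
      rw [show n⁻¹ * u * n = (t⁻¹ * n)⁻¹ * (t⁻¹ * u * t) * (t⁻¹ * n) by group]
      exact P.B.mul_mem (P.B.mul_mem (P.B.inv_mem hag) h) hag
  simp [hu1]

section SL

open CfsgLib.ClassK.SLn

variable {F : Type*} [Field F] [Finite F] {n : ℕ}

local notation "𝔾" => SpecialLinearGroup (Fin n) F

theorem mul_upper_corner {a c : 𝔾} (ha : IsUp a) (hc : IsUp c) {k k' : Fin n}
    (hk : (k' : ℕ) = k + 1) :
    (a * c) k k' = a k k * c k k' + a k k' * c k' k' := by
  classical
  rw [Matrix.SpecialLinearGroup.coe_mul, Matrix.mul_apply, Fintype.sum_eq_add k k' (fun e => by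
    rw [e] at hk; omega)]
  rintro l ⟨hl, hl'⟩
  rcases lt_trichotomy l k with h | h | h
  · rw [ha k l h, zero_mul]
  · exact absurd h hl
  · have : k' < l := Fin.lt_def.2 (by
      have h1 := Fin.lt_def.1 h
      have h2 : (l : ℕ) ≠ k' := fun e => hl' (Fin.ext e)
      omega)
    rw [hc l k' this, mul_zero]

theorem slPair_panel : ∀ t ∈ (slPair n F).S, ∀ b ∈ (slPair n F).B, ∀ u ∈ upperU n F,
    t⁻¹ * u * t ∈ (slPair n F).B → t⁻¹ * (b * u * b⁻¹) * t ∈ (slPair n F).B := by
  rintro _ ⟨k, k', hk, rfl⟩ b hb u hu h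
  have hlt : k < k' := Fin.lt_def.2 (by omega)
  have hs := isMono_mono (n := n) (F := F) (Equiv.swap k k')
  set s := mono n F (Equiv.swap k k')
  have hu0 : u k k' = 0 := by
    have h1 := mem_borel.1 h k' k hlt
    rw [hs.conj_apply hs, Equiv.swap_apply_left, Equiv.swap_apply_right, mul_eq_zero,
      mul_eq_zero] at h1
    rcases h1 with (h1 | h1) | h1
    · have := hs.conj_coeff_ne_zero k'
      rw [Equiv.swap_apply_right] at this
      exact absurd h1 this
    · exact h1
    · have := hs.ne_zero k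
      rw [Equiv.swap_apply_left] at this
      exact absurd h1 this
  set v := b * u * b⁻¹ with hv
  have hbU : IsUp b := mem_borel.1 hb
  have hvU : IsUp v := mem_borel.1 ((borel n F).mul_mem ((borel n F).mul_mem hb hu.1) ((borel n F).inv_mem hb))
  have hv0 : v k k' = 0 := by
    have e : v * b = b * u := by rw [hv]; group
    have e1 := congrArg (fun x : 𝔾 => x k k') e
    have hvkk : v k k = 1 := by
      have e2 := congrArg (fun x : 𝔾 => x k k) e
      simp only [mul_diag_of_isUp hvU hbU, mul_diag_of_isUp hbU hu.1, hu.2 k, mul_one] at e2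
      exact mul_right_cancel₀ (diag_ne_zero_of_isUp hbU k) (e2.trans (one_mul _).symm)
    simp only [mul_upper_corner hvU hbU hk, mul_upper_corner hbU hu.1 hk, hu0, hvkk, hu.2 k',
      mul_zero, one_mul, mul_one, zero_add, add_eq_left, mul_eq_zero] at e1
    exact e1.resolve_right (diag_ne_zero_of_isUp hbU k')
  show IsUp (s⁻¹ * v * s)
  intro a c hac
  rw [hs.conj_apply hs]
  suffices v (Equiv.swap k k' a) (Equiv.swap k k' c) = 0 by rw [this, mul_zero, zero_mul]
  rcases lt_trichotomy (Equiv.swap k k' c) (Equiv.swap k k' a) with h1 | h1 | h1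
  · exact hvU _ _ h1
  · exact absurd ((Equiv.swap k k').injective h1) hac.ne
  · have hac' : a = k' ∧ c = k := by
      rw [Equiv.swap_apply_def, Equiv.swap_apply_def] at h1
      simp only [Fin.lt_def, Fin.ext_iff] at *
      split_ifs at h1 <;> omega
    rw [hac'.1, hac'.2, Equiv.swap_apply_right, Equiv.swap_apply_left]
    exact hv0

theorem exists_splitData_pSL {p : ℕ} [Fact p.Prime] [CharP F p] {H : Type*} [Group H]
    (e : H ≃* ProjectiveSpecialLinearGroup (Fin n) F) : Nonempty (SplitData H p) := by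
  classical
  obtain ⟨hconj, hdec, hUN, hH, hU, hT⟩ := slPair_split (n := n) (F := F) p
  let S : SplitData 𝔾 p :=
    { P := slPair n F
      U := upperU n F
      U_le := upperU_le_borel
      pGroup := hU
      index := not_dvd_index_of_bnPair (P := slPair n F) upperU_le_borel hconj hdec hUN hH hU hT
      conj := hconj
      dec := hdec
      UN := hUN
      opp := hH
      panel := slPair_panel }
  exact ⟨(S.map (QuotientGroup.mk' _) (QuotientGroup.mk'_surjective _)
    ((QuotientGroup.ker_mk' _).trans_le center_le_borel)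
    ((QuotientGroup.ker_mk' _).trans_le (S.center_le_N center_le_borel))).congr e.symm⟩

end SL

theorem exists_splitData_isoSuzuki {G : Type*} [Group G] (hG : Cfsg.Lie.IsoSuzuki G) :
    Nonempty (SplitData G 2) := by
  have : Fact (Nat.Prime 2) := ⟨Nat.prime_two⟩
  obtain ⟨F, _, m, h, ⟨e⟩⟩ := CfsgLib.Suzuki.isoSuzuki_spec hG
  have := h.finite_group
  obtain ⟨P, hB, ⟨s, hs⟩, hconj, hdec, hUN, hH, hT⟩ := suzuki_split h
  have hUB : h.U ≤ P.B := fun u hu => by rw [hB]; exact h.mem_U_fix hu
  have hU : IsPGroup 2 h.U := h.sylU_coe ▸ h.sylU.isPGroup'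
  let S : SplitData (Cfsg.Sz F m) 2 :=
    { P := P
      U := h.U
      U_le := hUB
      pGroup := hU
      index := not_dvd_index_of_bnPair (P := P) hUB hconj hdec hUN hH hU hT
      conj := hconj
      dec := hdec
      UN := hUN
      opp := hH
      panel := panel_of_rankOne hs hUB hUN hH }
  exact ⟨S.congr e.symm⟩

end CfsgLib.LieBlocks
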