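import Cfsg.Prelude.Def_LieTypeChar
import Cfsg.Agent.Lib.LieBlocks.InstClassical
import Cfsg.Agent.Lib.LieBlocks.InstFixed
import Cfsg.Agent.Lib.LieBlocks.InstLinear
import Cfsg.Agent.Lib.Twisted.FixedF4
import Cfsg.Agent.Lib.ClassicalLinear.Simple
import Cfsg.Agent.S0270
import Cfsg.Agent.S0283
import Cfsg.Agent.S0295
import Cfsg.Agent.S0296
import Cfsg.Agent.S0297
import Cfsg.Agent.S1054
import Cfsg.Agent.S1055
import Cfsg.Agent.S1070
import Cfsg.Agent.S1071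
import Cfsg.Agent.S1072
import Cfsg.Agent.S1073
import Cfsg.Agent.S1162

/-!
Every group of Lie type in characteristic `p` is simple and has a split (B,N)-pair.
-/

set_option autoImplicit false

namespace CfsgLib.LieBlocks

theorem isSimpleGroup_and_splitData {G : Type*} [Group G] {p : ℕ} [Fact p.Prime]
    (hG : Cfsg.IsLieTypeChar p G) : IsSimpleGroup G ∧ Nonempty (SplitData G p) := by
  rcases hG with ⟨F, _, _, _, n, hn, h4, ⟨e⟩⟩ | ⟨F, _, _, _, m, hm, h3, ⟨e⟩⟩ |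
    ⟨F, _, _, _, n, q, hq, hn, h32, ⟨e⟩⟩ | ⟨F, _, _, _, m, hm, hodd, ⟨e⟩⟩ |
    ⟨F, _, _, _, m, hm, ⟨e⟩⟩ | ⟨F, _, _, _, m, a, b, hm, hab, ⟨e⟩⟩ |
    ⟨F, _, _, _, h⟩ | ⟨F, _, _, _, q, hq, h⟩ | ⟨rfl, h⟩ | ⟨rfl, h⟩ | ⟨rfl, h⟩
  · have : IsSimpleGroup (Matrix.ProjectiveSpecialLinearGroup (Fin n) F) :=
      CfsgLib.ClassicalLinear.isSimpleGroup_psl_fin hn (by rwa [Nat.card_eq_fintype_card])
    exact ⟨e.isSimpleGroup, exists_splitData_pSL e⟩
  · have := Cfsg.Agent.S0270.result (F := F) m hm h3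
    exact ⟨e.isSimpleGroup, exists_splitData_pSp e⟩
  · have := Cfsg.Agent.S0283.result hq n hn h32
    exact ⟨e.isSimpleGroup, exists_splitData_pSU (by rw [Nat.card_eq_fintype_card, hq]) e⟩
  · have := Cfsg.Agent.S0295.result (F := F) hodd m hm
    have h2 : (2 : F) ≠ 0 := CfsgLib.ClassicalForms.two_ne_zero_of_odd (by rwa [Nat.card_eq_fintype_card])
    exact ⟨e.isSimpleGroup, exists_splitData_pOmega _ (CfsgLib.ClassicalForms.qOdd_apply m)
      (CfsgLib.Generators.Steinberg.oddData h2) e⟩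
  · have := Cfsg.Agent.S0296.result (F := F) m hm
    exact ⟨e.isSimpleGroup, exists_splitData_pOmega _ (CfsgLib.ClassicalForms.qPlus_apply m)
      (CfsgLib.Generators.Steinberg.plusData (Or.inl (by omega))) e⟩
  · have := Cfsg.Agent.S0297.result (F := F) m hm a b hab
    exact ⟨e.isSimpleGroup, exists_splitData_pOmega _ (CfsgLib.ClassicalForms.qMinus_apply (m - 1) a b)
      (CfsgLib.Generators.Steinberg.minusData (hab : CfsgLib.ClassicalForms.Aniso a b)) e⟩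
  · rcases h with ⟨h3, ⟨e⟩⟩ | ⟨⟨e⟩⟩ | ⟨⟨e⟩⟩ | ⟨⟨e⟩⟩ | ⟨⟨e⟩⟩
    · have h2 : ∃ a : F, a ≠ 0 ∧ a ≠ 1 := by
        classical
        obtain ⟨a, -, ha⟩ := Finset.exists_mem_notMem_of_card_lt_card
          (s := ({0, 1} : Finset F)) (t := Finset.univ)
          (lt_of_le_of_lt Finset.card_le_two (by rw [Finset.card_univ]; omega))
        exact ⟨a, by simp at ha; exact ha⟩
      have := (Cfsg.Agent.S1055.result h2).1
      exact ⟨e.isSimpleGroup, exists_splitData_chevalley CfsgLib.Twisted.fullG2 e⟩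
    · have := (Cfsg.Agent.S1054.result (F := F) Cfsg.Lie.chevF4 (by simp)).1
      exact ⟨e.isSimpleGroup, exists_splitData_chevalley CfsgLib.Twisted.fullF4 e⟩
    · have := (Cfsg.Agent.S1054.result (F := F) Cfsg.Lie.chevE6 (by simp)).1
      exact ⟨e.isSimpleGroup, exists_splitData_chevalley CfsgLib.Twisted.fullE6 e⟩
    · have := (Cfsg.Agent.S1054.result (F := F) Cfsg.Lie.chevE7 (by simp)).1
      exact ⟨e.isSimpleGroup, exists_splitData_chevalley (A := CfsgLib.Chevalley.auxE7)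
        ⟨⟨CfsgLib.Chevalley.cert_E7, CfsgLib.Chevalley.posE7, by simp⟩, CfsgLib.Chevalley.extraE7⟩ e⟩
    · have := (Cfsg.Agent.S1054.result (F := F) Cfsg.Lie.chevE8 (by simp)).1
      exact ⟨e.isSimpleGroup, exists_splitData_chevalley (A := CfsgLib.Chevalley.auxE8)
        ⟨⟨CfsgLib.Chevalley.cert_E8, CfsgLib.Chevalley.posE8, by simp⟩, CfsgLib.Chevalley.extraE8⟩ e⟩
  · rcases h with ⟨hc, ⟨e⟩⟩ | ⟨hc, ⟨e⟩⟩
    · have := (Cfsg.Agent.S1070.result hq hc).1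
      exact ⟨e.isSimpleGroup, exists_splitData_fixed (CfsgLib.Twisted.fixedDataE6 hq hc) e⟩
    · have := (Cfsg.Agent.S1071.result hq hc).1
      exact ⟨e.isSimpleGroup, exists_splitData_fixed (CfsgLib.Twisted.fixedDataD4 hq hc) e⟩
  · obtain ⟨F, _, _, m, hm, hc, ⟨e⟩⟩ := id h
    have := Cfsg.Agent.S1162.result hm hc
    exact ⟨e.isSimpleGroup, exists_splitData_isoSuzuki h⟩
  · obtain ⟨F, _, _, m, hm, hc, ⟨e⟩⟩ := h
    have : CharP F 2 := CfsgLib.Twisted.charP_f4 hc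
    have := (Cfsg.Agent.S1072.result hm hc).1
    exact ⟨e.isSimpleGroup, exists_splitData_fixed (CfsgLib.Twisted.fixedDataF4 hc) e⟩
  · obtain ⟨F, _, _, m, hm, hc, ⟨e⟩⟩ := h
    obtain ⟨q, hq⟩ := CharP.exists F
    obtain ⟨f, hqp, hf⟩ := FiniteField.card F q
    rw [hc] at hf
    have h3 : (3 : ℕ) = q := (Nat.prime_dvd_prime_iff_eq Nat.prime_three hqp).1
      (Nat.prime_three.dvd_of_dvd_pow (hf ▸ dvd_pow_self 3 (by omega)))
    subst h3
    have := (Cfsg.Agent.S1073.result hm hc).1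
    exact ⟨e.isSimpleGroup, exists_splitData_fixed (CfsgLib.Twisted.fixedDataG2 hc) e⟩

end CfsgLib.LieBlocks
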