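import Cfsg.Agent.Lib.LieBlocks.Radical
import Cfsg.Agent.Lib.BrauerPairs.ChamberSystem
import Cfsg.Agent.Lib.BrauerPairs.Trace
import Mathlib.Algebra.CharP.Lemmas

/-!
In a simple group with a split (B,N)-pair and rigid Sylow subgroups, a central idempotent killed by
the Brauer map at `U` is killed at the radical of every maximal parabolic subgroup.
-/

set_option autoImplicit false
set_option linter.unusedSectionVars false
set_option linter.style.haveILetI false

noncomputable section

namespace CfsgLib.LieBlocks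

open CfsgLib.BNPair CfsgLib.InvCentralizers.SteinbergChar CfsgLib.InvCentralizers.SteinbergCount
open CfsgLib.BrauerPairs MonoidAlgebra

/-- An idempotent supported on an abelian `p`-subgroup with vanishing coefficient at `1` is zero. -/
theorem eq_zero_of_supp_pGroup {G : Type*} [Group G] {p : ℕ} [Fact p.Prime] {k : Type*} [Field k]
    [CharP k p] {C : Subgroup G} [Finite C] (hC : IsPGroup p C)
    (hcomm : ∀ a ∈ C, ∀ b ∈ C, a * b = b * a) {x : MonoidAlgebra k G} (hx : x ∈ supp k C)
    (hxx : x * x = x) (h1 : x.coeff 1 = 0) : x = 0 := by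
  classical
  haveI : CharP (MonoidAlgebra k G) p := charP_of_injective_algebraMap' (R := k) p
  haveI : ExpChar (MonoidAlgebra k G) p := ExpChar.prime Fact.out
  obtain ⟨n, hn⟩ := IsPGroup.iff_card.1 hC
  have key : ∀ s : Finset G, (∀ a ∈ s, a ∈ C) → ∃ c : k,
      (∑ a ∈ s, single a (x.coeff a)) ^ p ^ n = single (1 : G) c := by
    intro s
    induction s using Finset.induction_on with
    | empty =>
      exact fun _ => ⟨0, by
        rw [Finset.sum_empty, zero_pow (Nat.pow_pos (Fact.out : p.Prime).pos).ne', single_zero]⟩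
    | insert a s ha ih =>
      intro hs
      obtain ⟨c, hc⟩ := ih fun b hb => hs b (Finset.mem_insert_of_mem hb)
      have haC := hs a (Finset.mem_insert_self a s)
      have hcs : Commute (single a (x.coeff a)) (∑ b ∈ s, single b (x.coeff b)) :=
        Commute.sum_right _ _ _ fun b hb => by
          show single a (x.coeff a) * single b (x.coeff b) = single b (x.coeff b) * single a (x.coeff a)
          rw [single_mul_single, single_mul_single,
            hcomm a haC b (hs b (Finset.mem_insert_of_mem hb)), mul_comm]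
      have ha1 : a ^ p ^ n = 1 := by
        have := congrArg (Subtype.val : C → G) (pow_card_eq_one' (x := (⟨a, haC⟩ : C)))
        rw [hn] at this
        exact this
      refine ⟨x.coeff a ^ p ^ n + c, ?_⟩
      rw [Finset.sum_insert ha, add_pow_char_pow_of_commute _ _ hcs, hc, single_pow, ha1,
        single_add]
  obtain ⟨c, hc⟩ := key x.coeff.support fun a ha => by
    by_contra h
    exact Finsupp.mem_support_iff.1 ha (hx a h)
  have hsum : ∑ a ∈ x.coeff.support, single a (x.coeff a) = x := MonoidAlgebra.sum_coeff_single x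
  rw [hsum] at hc
  have hid : x ^ p ^ n = x := by
    have : ∀ m, x ^ (m + 1) = x := fun m => by
      induction m with
      | zero => exact pow_one x
      | succ m ih => rw [pow_succ, ih, hxx]
    obtain ⟨m, hm⟩ := Nat.exists_eq_succ_of_ne_zero (Nat.pow_pos (Fact.out : p.Prime).pos).ne'
    rw [hm]
    exact this m
  rw [hid] at hc
  have hc0 : c = 0 := by simpa [hc] using h1
  rw [hc, hc0, single_zero]

namespace SplitData

variable {G : Type*} [Group G] [Finite G] {p : ℕ} [Fact p.Prime] (D : SplitData G p)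

theorem parabolic_S : D.P.parabolic D.P.S = ⊤ := by
  rw [eq_top_iff, ← D.P.sup_eq_top, ← D.P.closure_sup]
  exact sup_le le_sup_left (sup_le le_sup_right (inf_le_left.trans le_sup_left))

/-- Two distinguished generators commute modulo `B`. -/
def Comm (s t : G) : Prop := Agree D.P (s * t) (t * s)

theorem conj_ne_B {s : G} (hs : s ∈ D.P.S) : ¬ D.P.B.Normal := by
  intro hN
  refine s_not_mem hs ?_
  rw [← CfsgLib.BNPair.normalizer_eq (P := D.P) (le_refl D.P.B),
    Subgroup.normalizer_eq_top_iff.2 hN]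
  exact Subgroup.mem_top s

variable {D} {w0 : G}

theorem IsTop.len_le {K : Set G} {v : G} (hv : D.IsTop K v) {m : G} (hm : m ∈ D.P.N)
    (hmK : m ∈ D.P.parabolic K) : len D.P m ≤ len D.P v := by
  obtain ⟨u, hu, hag, huK⟩ := exists_word_parabolic hv.sub hm hmK
  obtain ⟨a, hua, haga⟩ := exists_extension_of hv.mem hu fun s hs => hv.left s (huK s hs)
  have h1 := hua.2
  have h2 := hu.2
  rw [len_congr haga] at h1
  rw [len_congr hag] at h2
  simp only [List.length_append] at h1
  omega

theorem top_agree (hw : D.IsTop D.P.S w0) {m : G} (hm : m ∈ D.P.N)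
    (h : len D.P w0 ≤ len D.P m) : Agree D.P m w0 := by
  have hmS : m ∈ D.P.parabolic D.P.S := by rw [D.parabolic_S]; trivial
  exact hw.agree_of_len hm hmS (le_antisymm (hw.len_le hm hmS) h)

/-- Below the top there are left descents in all other directions. -/
theorem descent_adj (hw : D.IsTop D.P.S w0) {r s : G} (hr : r ∈ D.P.S) (hs : s ∈ D.P.S)
    (hne : s ≠ r) : len D.P (s * (r * w0)) < len D.P (r * w0) := by
  by_contra hcon
  have hrN := s_mem_N hr
  have hsN := s_mem_N hs
  have hz := D.P.N.mul_mem hrN hw.mem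
  have h1 := len_mul_lt hr hw.mem (hw.left r hr).le
  have h2 : len D.P w0 ≤ len D.P (s * (r * w0)) := by
    rcases D.len_left_cases hs hz with h | h <;> omega
  have h3 := (top_agree hw (D.P.N.mul_mem hsN hz) h2).right (D.P.N.mul_mem hsN hz) hw.mem
    (D.P.N.inv_mem hw.mem)
  have h4 : Agree D.P (s * r) 1 := by simpa [mul_assoc] using h3
  have h5 : Agree D.P (s * r) (s * s) :=
    h4.trans (show Agree D.P 1 (s * s) by simpa [Agree] using D.P.sq_mem s hs)
  exact hne (eq_of_agree hr hs (agree_of_left h5)).symm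

theorem exists_rightAscent (hw : D.IsTop D.P.S w0) {z : G} (hz : z ∈ D.P.N)
    (h : len D.P z < len D.P w0) : ∃ s ∈ D.P.S, len D.P z < len D.P (z * s) := by
  by_contra hcon
  push Not at hcon
  have h1 : RightTop D.P z := fun s hs => lt_of_le_of_ne (hcon s hs) (len_mul_right_ne hs hz)
  have := len_congr (rightTop_unique hz hw.mem h1 fun s hs => hw.right s hs)
  omega

theorem exists_leftAscent (hw : D.IsTop D.P.S w0) {z : G} (hz : z ∈ D.P.N)
    (h : len D.P z < len D.P w0) : ∃ s ∈ D.P.S, len D.P z < len D.P (s * z) := by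
  by_contra hcon
  push Not at hcon
  have h1 : LeftTop D.P z := fun s hs => lt_of_le_of_ne (hcon s hs) (len_mul_ne hs hz)
  have := len_congr (leftTop_unique hz hw.mem h1 fun s hs => hw.left s hs)
  omega

theorem stabU_below_ne_bot (hw : D.IsTop D.P.S w0) {r : G} (hr : r ∈ D.P.S) :
    D.stabU (r * w0) ≠ ⊥ := by
  have hz := D.P.N.mul_mem (s_mem_N hr) hw.mem
  obtain ⟨s, hs, hlt⟩ := exists_rightAscent hw hz (hw.left r hr)
  intro h
  have h1 := D.card_stabU_lt hs hz hlt
  rw [h, Subgroup.card_bot] at h1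
  have := Nat.card_pos (α := D.stabU (r * w0 * s))
  omega

/-- An element of the small stabilizer fixing a chamber low in the `r`-direction is trivial. -/
theorem eq_one_of_fix (hw : D.IsTop D.P.S w0) {r : G} (hr : r ∈ D.P.S) {z c q : G}
    (hz : z ∈ D.P.N) (hlt : len D.P (r * z) < len D.P z) (hc : c ∈ cell D.P z)
    (hq : q ∈ D.stabU (r * w0)) (hfix : D.Fix q c) : q = 1 := by
  have hrN := s_mem_N hr
  have hz' : r * z ∈ D.P.N := D.P.N.mul_mem hrN hz
  have hss : Agree D.P (r * (r * z)) z := agree_s_s hr hz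
  have hle : len D.P (r * z) ≤ len D.P (r * (r * z)) := by rw [len_congr hss]; exact hlt.le
  have hq' := D.mem_stabU.1 hq
  obtain ⟨b, hb, b', hb', rfl⟩ := mem_cell.1 hc
  have h1 : D.Fix q (b * (r * (r * z))) :=
    D.fix_congr (g := b * z * b') (by
      rw [show (b * z * b')⁻¹ * (b * (r * (r * z))) = b'⁻¹ * (z⁻¹ * (r * (r * z))) by group]
      exact D.P.B.mul_mem (D.P.B.inv_mem hb') (Agree.symm hss)) hfix
  set h := (b * r)⁻¹ * q * (b * r) with hdef
  have hP : h ∈ D.P.parabolic {r} := by
    have hbr : b * r ∈ D.P.parabolic {r} :=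
      Subgroup.mul_mem _ (B_le_parabolic _ hb) (subset_parabolic _ rfl)
    exact Subgroup.mul_mem _ (Subgroup.mul_mem _ (Subgroup.inv_mem _ hbr)
      (B_le_parabolic _ (D.U_le hq'.1))) hbr
  have h2 : D.Fix h (r * z) := by
    unfold Fix at h1 ⊢
    rw [hdef]
    simpa [mul_assoc] using h1
  have hB : h ∈ D.P.B := by
    refine (mem_parabolic_singleton hr hP).resolve_right fun hcell => ?_
    obtain ⟨a, ha, a', ha', he⟩ := mem_cell.1 hcell
    have h3 : h * (r * z) ∈ cell D.P (r * (r * z)) := by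
      rw [he, show a * r * a' * (r * z) = a * (r * (a' * (r * z))) by group]
      exact left_mul_mem_cell ha
        (mul_cell_of_le hr hz' hle (left_mul_mem_cell ha' (self_mem_cell _)))
    have h4 : h * (r * z) ∈ cell D.P (r * z) := by
      rw [show h * (r * z) = r * z * ((r * z)⁻¹ * h * (r * z)) by group]
      exact right_mul_mem_cell h2 (self_mem_cell _)
    have h5 := len_congr (hss.symm.trans (agree_of_mem_cell (D.P.N.mul_mem hrN hz') hz' h3 h4))
    omega
  have hqb : b⁻¹ * q * b ∈ D.U := by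
    have := D.conj b⁻¹ (D.P.B.inv_mem hb) q hq'.1
    simpa using this
  have h6 : D.Fix (b⁻¹ * q * b) r := by
    rw [hdef] at hB
    unfold Fix
    simpa [mul_assoc] using hB
  have h7 := D.panel_fix hr hqb h6 (y := b⁻¹ * r)
    (Subgroup.mul_mem _ (B_le_parabolic _ (D.P.B.inv_mem hb)) (subset_parabolic _ rfl))
  have h8 : D.Fix q r := by
    unfold Fix at h7 ⊢
    simpa [mul_assoc] using h7
  have h9 : r⁻¹ * q * r ∈ D.stabU w0 := by
    refine D.mem_stabU.2 ⟨D.conj_mem_U hq'.1 h8, ?_⟩
    have := hq'.2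
    unfold Fix at this ⊢
    simpa [mul_assoc] using this
  rw [D.stabU_rightTop hw.mem fun s hs => hw.right s hs, Subgroup.mem_bot] at h9
  rw [show q = r * (r⁻¹ * q * r) * r⁻¹ by group, h9]
  group

variable [IsSimpleGroup G]

theorem IsTop.stabU_ne_bot {K : Set G} {v : G} (hv : D.IsTop K v) {r : G} (hr : r ∈ D.P.S)
    (hrK : r ∉ K) : D.stabU v ≠ ⊥ := by
  obtain ⟨w0, hw⟩ := D.exists_isTop (K := D.P.S) subset_rfl
  intro h
  have h1 := hv.stabU_le (D.P.N.mul_mem (s_mem_N hr) hw.mem) fun s hs =>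
    descent_adj hw hr (hv.sub hs) fun e => hrK (e ▸ hs)
  rw [h, le_bot_iff] at h1
  exact stabU_below_ne_bot hw hr h1

theorem IsTop.normalizer_le {r v : G} (hr : r ∈ D.P.S) (hv : D.IsTop (D.P.S \ {r}) v) :
    Subgroup.normalizer (D.stabU v : Set G) ≤ D.P.parabolic (D.P.S \ {r}) := by
  set M := Subgroup.normalizer (D.stabU v : Set G)
  have hBM : D.P.B ≤ M := (B_le_parabolic _).trans hv.parabolic_le_normalizer
  have hrM : r ∉ M := by
    intro hrM
    have htop : M = ⊤ := by
      rw [eq_top_iff, ← D.parabolic_S]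
      refine sup_le hBM ((Subgroup.closure_le _).2 fun s hs => ?_)
      by_cases h : s = r
      · exact h ▸ hrM
      · exact hv.parabolic_le_normalizer (subset_parabolic _ ⟨hs, h⟩)
    have hN : (D.stabU v).Normal := Subgroup.normalizer_eq_top_iff.1 htop
    rcases IsSimpleGroup.eq_bot_or_eq_top_of_normal _ hN with h | h
    · exact hv.stabU_ne_bot hr (fun h' => h'.2 rfl) h
    · have h1 : r ∈ D.stabU v := by rw [h]; trivial
      exact s_not_mem hr (D.U_le (D.mem_stabU.1 h1).1)
  rw [overgroup_eq hBM]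
  refine sup_le (B_le_parabolic _) ((Subgroup.closure_le _).2 fun s hs => subset_parabolic _ ?_)
  exact ⟨hs.1, fun h => hrM (h ▸ hs.2)⟩

/-- A group with a (B,N)-pair is not simple if its generators split into two commuting parts. -/
theorem not_commuting {J : Set G} (hJ : J ⊆ D.P.S) {j r : G} (hj : j ∈ J) (hr : r ∈ D.P.S)
    (hrJ : r ∉ J) (hcomm : ∀ a ∈ J, ∀ b ∈ D.P.S \ J, D.Comm a b) : False := by
  set J' := D.P.S \ J with hJ'
  have hJ'S : J' ⊆ D.P.S := Set.sdiff_subset
  have hword : ∀ l : List G, (∀ x ∈ l, x ∈ J') → ∀ a ∈ J, Agree D.P (a * l.prod) (l.prod * a) := by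
    intro l
    induction l with
    | nil => intro _ a _; simpa using Agree.refl a
    | cons s l ih =>
      intro hl a ha
      have hs : s ∈ J' := hl s (by simp)
      have hl' : ∀ x ∈ l, x ∈ J' := fun x hx => hl x (List.mem_cons_of_mem s hx)
      have haN := s_mem_N (hJ ha)
      have hsN := s_mem_N (hJ'S hs)
      have h1 := (hcomm a ha s hs).right (D.P.N.mul_mem haN hsN) (D.P.N.mul_mem hsN haN)
        (word_of_subset hJ'S hl').prod_mem
      rw [List.prod_cons, ← mul_assoc, mul_assoc s l.prod a]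
      exact h1.trans (by rw [mul_assoc]; exact (ih hl' a ha).left s)
  set T : Set G := {g | ∃ a ∈ D.P.parabolic J', ∃ b ∈ D.P.parabolic J, g = a * b}
  have hT1 : (1 : G) ∈ T := ⟨1, Subgroup.one_mem _, 1, Subgroup.one_mem _, (mul_one 1).symm⟩
  have hleft : ∀ x ∈ D.P.parabolic J', ∀ g ∈ T, x * g ∈ T := by
    rintro x hx _ ⟨a, ha, b, hb, rfl⟩
    exact ⟨x * a, Subgroup.mul_mem _ hx ha, b, hb, (mul_assoc x a b).symm⟩
  have hJT : ∀ x ∈ J, ∀ g ∈ T, x * g ∈ T ∧ x⁻¹ * g ∈ T := by
    rintro x hx _ ⟨a, ha, b, hb, rfl⟩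
    obtain ⟨l, hl, hal⟩ := (mem_parabolic_iff hJ'S).1 ha
    have hlN := (word_of_subset hJ'S hl).prod_mem
    have hlP : l.prod ∈ D.P.parabolic J' :=
      Subgroup.list_prod_mem _ fun z hz => subset_parabolic _ (hl z hz)
    have key : ∀ y ∈ cell D.P (x * l.prod) ∪ cell D.P l.prod, y * b ∈ T := by
      rintro y (hy | hy)
      · rw [cell_eq_of_agree (hword l hl x hx)] at hy
        obtain ⟨c, hc, c', hc', rfl⟩ := mem_cell.1 hy
        exact ⟨c * l.prod, Subgroup.mul_mem _ (B_le_parabolic _ hc) hlP, x * c' * b,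
          Subgroup.mul_mem _ (Subgroup.mul_mem _ (subset_parabolic _ hx) (B_le_parabolic _ hc')) hb,
          by group⟩
      · exact ⟨y, cell_subset (B_le_parabolic _) hlP hy, b, hb, rfl⟩
    refine ⟨?_, ?_⟩
    · rw [← mul_assoc]; exact key _ (cell_mul_left (hJ hx) hlN hal)
    · rw [← mul_assoc]; exact key _ (cell_mul_left_inv (hJ hx) hlN hal)
  have hall : ∀ g : G, g ∈ T := by
    intro g
    have hg : g ∈ Subgroup.closure ((D.P.B : Set G) ∪ D.P.S) := by
      rw [Subgroup.closure_union, Subgroup.closure_eq]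
      have h : g ∈ D.P.parabolic D.P.S := by rw [D.parabolic_S]; trivial
      exact h
    refine Subgroup.closure_induction_left (p := fun x _ => x ∈ T) hT1 ?_ ?_ hg
    · rintro x (hx | hx) y _ hy
      · exact hleft x (B_le_parabolic _ hx) y hy
      · by_cases h : x ∈ J
        · exact (hJT x h y hy).1
        · exact hleft x (subset_parabolic _ ⟨hx, h⟩) y hy
    · rintro x (hx | hx) y _ hy
      · exact hleft _ (B_le_parabolic _ (D.P.B.inv_mem hx)) y hy
      · by_cases h : x ∈ J
        · exact (hJT x h y hy).2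
        · exact hleft _ (Subgroup.inv_mem _ (subset_parabolic _ (show x ∈ J' from ⟨hx, h⟩))) y hy
  obtain ⟨v, hv⟩ := D.exists_isTop hJ'S
  have hcore : D.stabU v ≤ (D.P.parabolic J).normalCore := by
    intro x hx g
    obtain ⟨a, ha, b, hb, e⟩ := hall g⁻¹
    have h1 : a⁻¹ * x * a ∈ D.stabU v := by
      have := (Subgroup.mem_normalizer_iff.1
        (Subgroup.inv_mem _ (hv.parabolic_le_normalizer ha)) x).1 hx
      simpa using this
    rw [show g * x * g⁻¹ = b⁻¹ * (a⁻¹ * x * a) * b by rw [← inv_inv g, e]; group]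
    exact Subgroup.mul_mem _ (Subgroup.mul_mem _ (Subgroup.inv_mem _ hb)
      (B_le_parabolic _ (D.U_le (D.mem_stabU.1 h1).1))) hb
  rcases IsSimpleGroup.eq_bot_or_eq_top_of_normal _ (D.P.parabolic J).normalCore_normal with h | h
  · rw [h, le_bot_iff] at hcore
    exact hv.stabU_ne_bot (hJ hj) (fun h' => h'.2 hj) hcore
  · have h1 : r ∈ D.P.parabolic J := Subgroup.normalCore_le _ (h ▸ Subgroup.mem_top r)
    exact hrJ (mem_of_mem_parabolic hJ hr h1)

/-- Tits: generators inside and outside a normalized supplement commute modulo `B`. -/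
theorem comm_of_supplement {M : Subgroup G} (hM : D.P.B ≤ M) {s t c b : G} (hs : s ∈ D.P.S)
    (ht : t ∈ D.P.S) (hb : b ∈ D.P.B) (hsM : s ∈ M) (htM : t ∉ M) (hsc : s = c * b)
    (hconj : t * c * t⁻¹ ∈ M) : D.Comm s t := by
  classical
  have hsN := s_mem_N hs
  have htN := s_mem_N ht
  have hcs : c ∈ cell D.P s :=
    mem_cell.2 ⟨1, D.P.B.one_mem, b⁻¹, D.P.B.inv_mem hb, by rw [hsc]; group⟩
  have hle : len D.P s ≤ len D.P (t * s) := by
    by_contra hcon
    have h1 := len_mul_lt ht hsN (not_le.1 hcon).le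
    rw [len_s hs] at h1
    have h2 : t * s ∈ D.P.B := (len_eq_zero (D.P.N.mul_mem htN hsN)).1 (by omega)
    exact htM (by simpa using M.mul_mem (hM h2) (M.inv_mem hsM))
  have hmem : t * c * t ∈ M := by
    have := M.mul_mem hconj (hM (D.P.sq_mem t ht))
    simpa [mul_assoc] using this
  have h2 := (cell_mul_right ht (D.P.N.mul_mem htN hsN) (mul_cell_of_le ht hsN hle hcs)).resolve_right
    fun h => htM (by simpa using M.mul_mem (mem_of_cell_meets hM hmem h) (M.inv_mem hsM))
  have hmM := mem_of_cell_meets hM hmem h2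
  have hw3 : IsWord D.P [t, s, t] := by simp [IsWord, hs, ht]
  obtain ⟨w, hsub, hwred, hwag⟩ := exists_reduced_sublist hw3
  have e3 : [t, s, t].prod = t * s * t := by simp [mul_assoc]
  rw [e3] at hwag
  have hwM : ∀ x ∈ w, x = s := by
    intro x hx
    have h3 := letters_mem hM hwred
      (mem_of_cell_meets hM hmM (cell_eq_of_agree hwag ▸ self_mem_cell _)) x hx
    have hx' := hsub.subset hx
    simp only [List.mem_cons, List.not_mem_nil, or_false] at hx'
    rcases hx' with rfl | rfl | rfl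
    · exact absurd h3 htM
    · rfl
    · exact absurd h3 htM
  have hne : t ≠ s := fun e => htM (e ▸ hsM)
  have hw : List.Sublist w [s] := by
    have h3 := hsub.filter fun x => decide (x = s)
    rw [List.filter_eq_self.2 fun x hx => by simpa using hwM x hx] at h3
    simpa [List.filter_cons, hne] using h3
  rcases List.sublist_singleton.1 hw with rfl | rfl
  · exfalso
    have h5 : t * s * t ∈ D.P.B := by simpa [Agree] using hwag
    have h6 := conj_inv_mem' htN h5 (D.P.N.mul_mem (D.P.N.mul_mem htN hsN) htN)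
    have h7 : s * (t * t) ∈ D.P.B := by simpa [mul_assoc] using h6
    exact s_not_mem hs (by
      simpa [mul_assoc] using D.P.B.mul_mem h7 (D.P.B.inv_mem (D.P.sq_mem t ht)))
  · have key : Agree D.P s (t * s * t) := by simpa using hwag
    have k1 : Agree D.P (s * t⁻¹) (t * s) := by
      have := key.right hsN (D.P.N.mul_mem (D.P.N.mul_mem htN hsN) htN) (D.P.N.inv_mem htN)
      simpa using this
    exact (agree_right_inv ht).symm.trans k1

/-- The centralizer of the radical of a maximal parabolic subgroup lies in `B`. -/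
theorem centralizer_le_B {r v : G} (hr : r ∈ D.P.S) (hv : D.IsTop (D.P.S \ {r}) v) :
    Subgroup.centralizer (D.stabU v : Set G) ≤ D.P.B := by
  set K := D.P.S \ {r} with hK
  set C := Subgroup.centralizer (D.stabU v : Set G) with hC
  set PK := D.P.parabolic K
  have hCP : C ≤ PK := (Subgroup.centralizer_le_normalizer _).trans (hv.normalizer_le hr)
  have hconj : ∀ g ∈ PK, ∀ c ∈ C, g * c * g⁻¹ ∈ C := fun g hg c hc => by
    have hn : g ∈ Subgroup.normalizer (C : Set G) :=
      normalizer_le_normalizer_cen _ (hv.parabolic_le_normalizer hg)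
    exact (Subgroup.mem_normalizer_iff.1 hn c).1 hc
  have hBN : D.P.B ≤ Subgroup.normalizer (C : Set G) := fun b hb =>
    normalizer_le_normalizer_cen _ (hv.parabolic_le_normalizer (B_le_parabolic _ hb))
  by_contra hCB
  set M := C ⊔ D.P.B with hM
  have hBM : D.P.B ≤ M := le_sup_right
  have hMP : M ≤ PK := sup_le hCP (B_le_parabolic _)
  have hdec : ∀ x ∈ M, ∃ c ∈ C, ∃ b ∈ D.P.B, x = c * b := by
    intro x hx
    have hx' : x ∈ ((C ⊔ D.P.B : Subgroup G) : Set G) := hx
    rw [Subgroup.coe_mul_of_right_le_normalizer_left _ _ hBN] at hx'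
    obtain ⟨c, hc, b, hb, e⟩ := hx'
    exact ⟨c, hc, b, hb, e.symm⟩
  set K' : Set G := {s | s ∈ D.P.S ∧ s ∈ M} with hK'
  have hK'S : K' ⊆ D.P.S := fun s hs => hs.1
  have hK'K : ∀ s ∈ K', s ∈ K := fun s hs => mem_of_mem_parabolic hv.sub hs.1 (hMP hs.2)
  obtain ⟨s0, hs0⟩ : K'.Nonempty := by
    by_contra hne
    rw [Set.not_nonempty_iff_eq_empty] at hne
    refine hCB fun x hx => ?_
    have h1 : x ∈ D.P.parabolic K' := overgroup_eq hBM ▸ (Subgroup.mem_sup_left hx : x ∈ M)
    rw [hne] at h1
    exact (sup_le le_rfl (by simp) : D.P.parabolic (∅ : Set G) ≤ D.P.B) h1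
  obtain ⟨w0, hw⟩ := D.exists_isTop (K := D.P.S) subset_rfl
  have hrN := s_mem_N hr
  have hz0 := D.P.N.mul_mem hrN hw.mem
  have hQR : D.stabU (r * w0) ≤ D.stabU v :=
    hv.stabU_le hz0 fun s hs => descent_adj hw hr hs.1 hs.2
  have hcommr : ∀ s ∈ K', D.Comm s r := by
    intro s hs
    have hsr : s ≠ r := (hK'K s hs).2
    have hsN := s_mem_N hs.1
    obtain ⟨c, hc, b, hb, hscb⟩ := hdec s hs.2
    have hcC : c⁻¹ ∈ C := C.inv_mem hc
    have hz : s * (r * w0) ∈ D.P.N := D.P.N.mul_mem hsN hz0
    have hy : c⁻¹ * (r * w0) ∈ cell D.P (s * (r * w0)) := by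
      rw [show c⁻¹ * (r * w0) = b * (s⁻¹ * (r * w0)) by rw [hscb]; group,
        ← cell_eq_of_agree (agree_inv_s hs.1 hz0)]
      exact left_mul_mem_cell hb (self_mem_cell _)
    have hasc : ¬ len D.P (r * (s * (r * w0))) < len D.P (s * (r * w0)) := by
      intro hlt
      refine stabU_below_ne_bot hw hr ((Subgroup.eq_bot_iff_forall _).2 fun q hq => ?_)
      refine eq_one_of_fix hw hr hz hlt hy hq ?_
      have h1 := Subgroup.mem_centralizer_iff.1 (C.inv_mem hcC) q (hQR hq)
      have h2 := (D.mem_stabU.1 hq).2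
      unfold Fix at h2 ⊢
      rw [inv_inv] at h1
      rw [show (c⁻¹ * (r * w0))⁻¹ * q * (c⁻¹ * (r * w0)) = (r * w0)⁻¹ * (c * q * c⁻¹) * (r * w0) by
        group, ← h1, mul_inv_cancel_right]
      exact h2
    have hl1 := len_mul_lt hr hw.mem (hw.left r hr).le
    have hl2 := len_mul_lt hs.1 hz0 (descent_adj hw hr hs.1 hsr).le
    have hrz := D.P.N.mul_mem hrN hz
    have hl3 : len D.P (r * (s * (r * w0))) + 1 = len D.P w0 := by
      rcases D.len_left_cases hr hz with h | h <;> omega
    obtain ⟨t, ht, hlt⟩ := exists_leftAscent hw hrz (by omega)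
    have htN := s_mem_N ht
    have h3 := (top_agree hw (D.P.N.mul_mem htN hrz) (by omega)).right
      (D.P.N.mul_mem htN hrz) hw.mem (D.P.N.inv_mem hw.mem)
    have h4 : Agree D.P (t * (r * (s * r))) 1 := by simpa [mul_assoc] using h3
    have h5 : Agree D.P (t * (r * s)) r := by
      have h6 := h4.right (D.P.N.mul_mem htN (D.P.N.mul_mem hrN (D.P.N.mul_mem hsN hrN)))
        D.P.N.one_mem (D.P.N.inv_mem hrN)
      have h7 : Agree D.P (t * (r * s)) r⁻¹ := by simpa [mul_assoc] using h6
      exact h7.trans (by simpa using agree_right_inv (m := 1) hr)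
    have h6 : Agree D.P (r * s) (t * r) :=
      (agree_s_s ht (D.P.N.mul_mem hrN hsN)).symm.trans (h5.left t)
    have hle : len D.P s ≤ len D.P (r * s) := by
      by_contra hcon
      have h7 := len_mul_lt hr (s_mem_N hs.1) (not_le.1 hcon).le
      rw [len_s hs.1] at h7
      have h8 : r * s ∈ D.P.B := (len_eq_zero (D.P.N.mul_mem hrN hsN)).1 (by omega)
      have h9 : Agree D.P (r * s) (r * r) := by
        have := D.P.B.mul_mem (D.P.B.inv_mem h8) (D.P.sq_mem r hr)
        exact this
      exact hsr (eq_of_agree hs.1 hr (agree_of_left h9))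
    have hred : IsReduced D.P [r, s] := by
      refine ⟨by simp [IsWord, hr, hs.1], ?_⟩
      have h7 := len_mul_le hr hsN
      have h8 := len_mul_ne hr hsN
      have h9 := len_s (P := D.P) hs.1
      simp only [List.prod_cons, List.prod_nil, mul_one, List.length_cons, List.length_nil]
      omega
    have hmem := reduced_subset hred (l' := [t, r]) (by simp [IsWord, ht, hr])
      (by simpa using h6) s (by simp)
    simp only [List.mem_cons, List.not_mem_nil, or_false] at hmem
    rcases hmem with rfl | rfl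
    · exact h6.symm
    · exact absurd rfl hsr
  refine not_commuting hK'S hs0 hr (fun h => (hK'K r h).2 rfl) ?_
  intro s hs t ht
  by_cases htr : t = r
  · exact htr ▸ hcommr s hs
  · obtain ⟨c, hc, b, hb, hscb⟩ := hdec s hs.2
    refine comm_of_supplement hBM hs.1 ht.1 hb hs.2 (fun h => ht.2 ⟨ht.1, h⟩) hscb ?_
    exact Subgroup.mem_sup_left (hconj t (subset_parabolic _ ⟨ht.1, htr⟩) c hc)

/-- The centralizer of the radical of a maximal parabolic subgroup lies in that radical. -/
theorem centralizer_le_radical (hrig : SylowRigid p G) {r v : G} (hr : r ∈ D.P.S)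
    (hv : D.IsTop (D.P.S \ {r}) v) :
    Subgroup.centralizer (D.stabU v : Set G) ≤ D.stabU v := by
  set C := Subgroup.centralizer (D.stabU v : Set G) with hC
  have hCB : C ≤ D.P.B := centralizer_le_B hr hv
  have hconj : ∀ g ∈ D.P.parabolic (D.P.S \ {r}), ∀ c ∈ C, g * c * g⁻¹ ∈ C := fun g hg c hc =>
    (Subgroup.mem_normalizer_iff.1
      (normalizer_le_normalizer_cen _ (hv.parabolic_le_normalizer hg)) c).1 hc
  have hCU : ∀ x ∈ C, x ∈ D.U → x ∈ D.stabU v := fun x hx hxU => by
    refine D.mem_stabU.2 ⟨hxU, ?_⟩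
    have := hconj v⁻¹ (Subgroup.inv_mem _ hv.par) x hx
    rw [inv_inv] at this
    exact hCB this
  intro a ha
  refine hCU a ha ?_
  set kk := (orderOf a).factorization p with hk
  refine D.mem_U_of_pow (hCB ha) (k := kk) ?_
  set a' := a ^ p ^ kk with ha'
  set m := orderOf a / p ^ kk with hm
  have hm1 : a' ^ m = 1 := by
    rw [ha', ← pow_mul, hm, Nat.mul_div_cancel' (Nat.ordProj_dvd _ _), pow_orderOf_eq_one]
  have hpm : ¬ p ∣ m := Nat.not_dvd_ordCompl Fact.out (orderOf_pos a).ne'
  have ha'C : a' ∈ C := C.pow_mem ha _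
  have hcen : ∀ u ∈ D.U, a' * u * a'⁻¹ = u := by
    intro u hu
    set w := a' * u * a'⁻¹ * u⁻¹ with hw
    have hwU : w ∈ D.U := D.U.mul_mem (D.conj a' (hCB ha'C) u hu) (D.U.inv_mem hu)
    have hwC : w ∈ C := by
      rw [hw, show a' * u * a'⁻¹ * u⁻¹ = a' * (u * a'⁻¹ * u⁻¹) by group]
      exact C.mul_mem ha'C (hconj u (B_le_parabolic _ (D.U_le hu)) _ (C.inv_mem ha'C))
    have hwa : Commute a' w :=
      (Subgroup.mem_centralizer_iff.1 ha'C w (hCU w hwC hwU)).symm
    have hi : ∀ i : ℕ, a' ^ i * u * (a' ^ i)⁻¹ = w ^ i * u := by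
      intro i
      induction i with
      | zero => simp
      | succ i ih =>
        have h1 : a' * w ^ i = w ^ i * a' := hwa.pow_right i
        rw [pow_succ', show a' * a' ^ i * u * (a' * a' ^ i)⁻¹ =
          a' * (a' ^ i * u * (a' ^ i)⁻¹) * a'⁻¹ by group, ih,
          show a' * (w ^ i * u) * a'⁻¹ = a' * w ^ i * (u * a'⁻¹) by group, h1, pow_succ, hw]
        group
    have h1 := hi m
    rw [hm1, inv_one, mul_one, one_mul] at h1
    replace h1 : w ^ m = 1 := mul_eq_right.1 h1.symm
    obtain ⟨j, hj⟩ := D.pGroup ⟨w, hwU⟩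
    have hj' : w ^ p ^ j = 1 := congrArg Subtype.val hj
    have hw1 : w = 1 := by
      rw [← orderOf_eq_one_iff]
      exact Nat.eq_one_of_dvd_coprimes
        (((Fact.out : p.Prime).coprime_iff_not_dvd.2 hpm).pow_left j)
        (orderOf_dvd_of_pow_eq_one hj') (orderOf_dvd_of_pow_eq_one h1)
    rw [hw, mul_inv_eq_one] at hw1
    exact hw1
  have hα : ¬ p ∣ orderOf (MulAut.conj a') := fun h =>
    hpm (h.trans ((orderOf_map_dvd MulAut.conj a').trans (orderOf_dvd_of_pow_eq_one hm1)))
  have h1 := hrig (MulAut.conj a') hα (D.pGroup.toSylow D.index) fun x hx => hcen x hx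
  have hz : a' ∈ Subgroup.center G := Subgroup.mem_center_iff.2 fun g => by
    have h2 : a' * g * a'⁻¹ = g := by
      simpa [MulAut.conj_apply] using congrArg (fun f : MulAut G => f g) h1
    conv_lhs => rw [← h2]
    group
  rcases IsSimpleGroup.eq_bot_or_eq_top_of_normal (Subgroup.center G) inferInstance with h | h
  · rw [h, Subgroup.mem_bot] at hz
    exact hz
  · refine absurd ?_ (D.conj_ne_B hr)
    refine ⟨fun x hx g => ?_⟩
    have h2 : x ∈ Subgroup.center G := by rw [h]; trivial
    rw [Subgroup.mem_center_iff.1 h2 g, mul_inv_cancel_right]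
    exact hx

variable (D) {k : Type*} [Field k]

/-- Sums of the coefficients over the cosets of `U`. -/
def uSum (e : MonoidAlgebra k G) (g : G) : k :=
  letI := Fintype.ofFinite G
  ∑ x : G, {x : G | g⁻¹ * x ∈ D.U}.indicator (fun x => e.coeff x) x

omit [IsSimpleGroup G] in
theorem uSum_eq [Fintype G] (e : MonoidAlgebra k G) (g : G) :
    D.uSum e g = ∑ x : G, {x : G | g⁻¹ * x ∈ D.U}.indicator (fun x => e.coeff x) x := by
  unfold uSum
  exact Finset.sum_congr (by ext; simp) fun _ _ => rfl

/-- The Brauer map at the radical of a maximal parabolic subgroup kills the idempotent. -/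
theorem brau_radical [CharP k p] (hrig : SylowRigid p G) {e : MonoidAlgebra k G}
    (he : e ∈ fixedBy k (⊤ : Subgroup G)) (hee : e * e = e) (hU : brau D.U e = 0) {r v : G}
    (hr : r ∈ D.P.S) (hv : D.IsTop (D.P.S \ {r}) v) : brau (D.stabU v) e = 0 := by
  have hC := centralizer_le_radical hrig hr hv
  have hR : IsPGroup p (D.stabU v) := D.pGroup.to_le inf_le_left
  have hfix : e ∈ fixedBy k (D.stabU v) := fixedBy_anti le_top he
  refine eq_zero_of_supp_pGroup (p := p) (hR.to_le hC) (fun a ha b hb => ?_) (trunc_mem_supp _ _)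
    ?_ ?_
  · exact (Subgroup.mem_centralizer_iff.1 ha b (hC hb)).symm
  · show trunc _ e * trunc _ e = trunc _ e
    rw [← trunc_centralizer_mul (p := p) hR hfix hfix, hee]
  · show (trunc _ e).coeff 1 = 0
    rw [coeff_trunc_of_mem (Subgroup.one_mem _),
      ← coeff_trunc_of_mem (Subgroup.one_mem (Subgroup.centralizer (D.U : Set G))) e,
      show trunc (Subgroup.centralizer (D.U : Set G)) e = 0 from hU]
    simp

/-- The sums over the cosets of `U` vanish on the maximal parabolic subgroups. -/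
theorem uSum_eq_zero_of_parabolic [CharP k p] (hrig : SylowRigid p G) {e : MonoidAlgebra k G}
    (he : e ∈ fixedBy k (⊤ : Subgroup G)) (hee : e * e = e) (hU : brau D.U e = 0) {r g : G}
    (hr : r ∈ D.P.S) (hg : g ∈ D.P.parabolic (D.P.S \ {r})) : D.uSum e g = 0 := by
  classical
  haveI := Fintype.ofFinite G
  obtain ⟨v, hv⟩ := D.exists_isTop (K := D.P.S \ {r}) Set.sdiff_subset
  have hb := D.brau_radical hrig he hee hU hr hv
  have hR : IsPGroup p (D.stabU v) := D.pGroup.to_le inf_le_left
  letI : MulAction (D.stabU v) G :=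
    MulAction.compHom G ((MulAut.conj (G := G)).comp (D.stabU v).subtype)
  have hsmul : ∀ (a : D.stabU v) (x : G), a • x = (a : G) * x * (a : G)⁻¹ := fun a x => rfl
  rw [D.uSum_eq, sum_eq_sum_fixedPoints (R := k) hR]
  · refine Finset.sum_eq_zero fun x hx => ?_
    have hxC : x ∈ Subgroup.centralizer (D.stabU v : Set G) := by
      rw [Subgroup.mem_centralizer_iff]
      intro a ha
      have h1 := (Finset.mem_filter.1 hx).2 ⟨a, ha⟩
      rw [hsmul] at h1
      exact mul_inv_eq_iff_eq_mul.1 h1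
    have h0 : e.coeff x = 0 := by
      rw [← coeff_trunc_of_mem hxC e, show trunc _ e = 0 from hb]
      simp
    simp [Set.indicator_apply, h0]
  · rintro ⟨a, ha⟩ x
    rw [hsmul]
    have hn := hv.parabolic_le_normalizer hg
    have ha' : g⁻¹ * a * g ∈ D.U := by
      have := (Subgroup.mem_normalizer_iff.1 (Subgroup.inv_mem _ hn) a).1 ha
      rw [inv_inv] at this
      exact (D.mem_stabU.1 this).1
    have haU : a ∈ D.U := (D.mem_stabU.1 ha).1
    have hiff : g⁻¹ * (a * x * a⁻¹) ∈ D.U ↔ g⁻¹ * x ∈ D.U := by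
      rw [show g⁻¹ * (a * x * a⁻¹) = g⁻¹ * a * g * (g⁻¹ * x) * a⁻¹ by group,
        Subgroup.mul_mem_cancel_right _ (D.U.inv_mem haU), Subgroup.mul_mem_cancel_left _ ha']
    have hc : e.coeff (a * x * a⁻¹) = e.coeff x :=
      mem_fixedBy_coeff.1 he a (Subgroup.mem_top a) x
    simp only [Set.indicator_apply, Set.mem_setOf_eq]
    exact if_congr hiff hc rfl

end SplitData

end CfsgLib.LieBlocks
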