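import Cfsg.Agent.Lib.LieBlocks.Conv
import Cfsg.Agent.Lib.LieBlocks.Vanish
import Cfsg.Agent.Lib.BrauerPairs.BridgeDefect
import Cfsg.Agent.Lib.Jordan.DefectHeight

/-!
In a simple group with a split (B,N)-pair and rigid Sylow subgroups, every block has defect zero or
full defect.
-/

set_option autoImplicit false
set_option linter.unusedSectionVars false
set_option linter.style.haveILetI false

noncomputable section

namespace CfsgLib.LieBlocks

open CfsgLib.BNPair CfsgLib.BrauerPairs MonoidAlgebra

namespace SplitData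

variable {G : Type*} [Group G] [Finite G] {p : ℕ} [Fact p.Prime] (D : SplitData G p)
  {k : Type*} [Field k]

variable {D}

theorem bi_uSum {e : MonoidAlgebra k G} (he : e ∈ fixedBy k (⊤ : Subgroup G)) :
    D.Bi (D.uSum e) := by
  classical
  haveI := Fintype.ofFinite G
  rw [mem_fixedBy_coeff] at he
  refine ⟨fun u hu g => ?_, fun u hu g => ?_⟩
  · rw [D.uSum_eq, D.uSum_eq]
    refine Fintype.sum_equiv (MulAut.conj u⁻¹).toEquiv _ _ fun x => ?_
    simp only [MulEquiv.toEquiv_eq_coe, MulEquiv.coe_toEquiv, MulAut.conj_apply, inv_inv,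
      Set.indicator_apply, Set.mem_setOf_eq]
    refine if_congr ?_ ?_ rfl
    · rw [show g⁻¹ * (u⁻¹ * x * u) = (u * g)⁻¹ * x * u by group,
        Subgroup.mul_mem_cancel_right _ hu]
    · have := he u⁻¹ (Subgroup.mem_top _) x
      rw [inv_inv] at this
      exact this.symm
  · rw [D.uSum_eq, D.uSum_eq]
    refine Fintype.sum_congr _ _ fun x => ?_
    simp only [Set.indicator_apply, Set.mem_setOf_eq]
    refine if_congr ?_ rfl rfl
    rw [show (g * u)⁻¹ * x = u⁻¹ * (g⁻¹ * x) by group,
      Subgroup.mul_mem_cancel_left _ (D.U.inv_mem hu)]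

/-- The sums of an idempotent form an idempotent for convolution. -/
theorem conv_uSum {e : MonoidAlgebra k G} (he : e ∈ fixedBy k (⊤ : Subgroup G)) (hee : e * e = e)
    (g : G) : D.conv (D.uSum e) (D.uSum e) g = D.uSum e g := by
  classical
  haveI := Fintype.ofFinite G
  haveI := Fintype.ofFinite (G ⧸ D.U)
  have hφ := bi_uSum (D := D) he
  set φ := D.uSum e with hφdef
  have hmul : ∀ x : G, e.coeff x = ∑ h : G, e.coeff h * e.coeff (h⁻¹ * x) := by
    intro x
    conv_lhs => rw [← hee]
    rw [MonoidAlgebra.coeff_mul_antidiag e e x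
      ((Finset.univ : Finset G).image fun h => (h, h⁻¹ * x))]
    · rw [Finset.sum_image]
      intro u _ v _ huv
      exact (Prod.ext_iff.1 huv).1
    · intro q
      simp only [Finset.mem_image, Finset.mem_univ, true_and]
      constructor
      · rintro ⟨h, rfl⟩
        simp
      · intro hq
        exact ⟨q.1, by rw [← hq]; simp⟩
  have h1 : φ g = ∑ h : G, e.coeff h * φ (h⁻¹ * g) := by
    simp only [hφdef, D.uSum_eq, Finset.mul_sum]
    rw [Finset.sum_congr rfl (g := fun x => ∑ h : G,
      {x : G | g⁻¹ * x ∈ D.U}.indicator (fun x => e.coeff h * e.coeff (h⁻¹ * x)) x) (fun x _ => by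
        by_cases hx : x ∈ {x : G | g⁻¹ * x ∈ D.U}
        · simp only [Set.indicator_of_mem hx]; exact hmul x
        · simp only [Set.indicator_of_notMem hx, Finset.sum_const_zero])]
    rw [Finset.sum_comm]
    refine Fintype.sum_congr _ _ fun h => ?_
    refine Fintype.sum_equiv (Equiv.mulLeft h⁻¹) _ _ fun x => ?_
    simp only [Equiv.coe_mulLeft, Set.indicator_apply, Set.mem_setOf_eq, mul_ite, mul_zero]
    refine if_congr ?_ rfl rfl
    rw [show (h⁻¹ * g)⁻¹ * (h⁻¹ * x) = g⁻¹ * x by group]
  rw [h1, D.conv_eq,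
    ← Finset.sum_fiberwise_of_maps_to (g := fun h : G => (h : G ⧸ D.U)) (t := Finset.univ)
      (fun _ _ => Finset.mem_univ _) (f := fun h => e.coeff h * φ (h⁻¹ * g))]
  refine Fintype.sum_congr _ _ fun q => ?_
  rw [Finset.sum_congr rfl (g := fun h => e.coeff h * φ (q.out⁻¹ * g)) (fun h hh => by
    rw [← (Finset.mem_filter.1 hh).2, hφ.arg_out]), ← Finset.sum_mul]
  congr 1
  rw [hφdef, D.uSum_eq, Finset.sum_filter]
  refine Fintype.sum_congr _ _ fun h => ?_
  simp only [Set.indicator_apply, Set.mem_setOf_eq]
  refine if_congr ?_ rfl rfl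
  conv_rhs => rw [← QuotientGroup.out_eq' q, eq_comm, QuotientGroup.eq]

variable (D) [IsSimpleGroup G]

/-- Off full defect the Brauer map kills the idempotent at every nontrivial subgroup of `U`. -/
theorem brau_eq_zero [CharP k p] (hrig : SylowRigid p G) {e : MonoidAlgebra k G}
    (he : e ∈ fixedBy k (⊤ : Subgroup G)) (hee : e * e = e) (hU : brau D.U e = 0) {P : Subgroup G}
    (hPU : P ≤ D.U) (hP : P ≠ ⊥) : brau P e = 0 := by
  classical
  haveI := Fintype.ofFinite G
  have hPp : IsPGroup p P := D.pGroup.to_le hPU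
  have hφ := bi_uSum (D := D) he
  have hsupp : ∀ g : G, P ≤ D.stabU g → D.uSum e g = 0 := fun g hg => by
    by_contra hne
    refine hP (le_bot_iff.1 ?_)
    rw [← D.stabU_eq_bot hφ (conv_uSum he hee)
      (fun r hr x hx => D.uSum_eq_zero_of_parabolic hrig he hee hU hr hx) hne]
    exact hg
  set C := Subgroup.centralizer (P : Set G) with hC
  set ε := trunc C e with hεdef
  set U' := D.U ⊓ C with hU'
  -- the sums of `ε` over the cosets of `U'` vanish
  have hzero : ∀ x : G, ∑ u : U', ε.coeff (x * u) = 0 := by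
    intro x
    by_cases hx : x ∈ C
    swap
    · refine Finset.sum_eq_zero fun u _ => coeff_trunc_of_not_mem (fun h => hx ?_) e
      simpa using C.mul_mem h (C.inv_mem u.2.2)
    have hcom : ∀ a ∈ P, x⁻¹ * a * x = a := fun a ha => by
      rw [mul_assoc, (Subgroup.mem_centralizer_iff.1 hx a ha), ← mul_assoc, inv_mul_cancel, one_mul]
    have hPx : P ≤ D.stabU x := fun a ha => D.mem_stabU.2 ⟨hPU ha, by
      show x⁻¹ * a * x ∈ D.P.B
      rw [hcom a ha]
      exact D.U_le (hPU ha)⟩
    have h0 := hsupp x hPx
    letI : MulAction P G := MulAction.compHom G ((MulAut.conj (G := G)).comp P.subtype)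
    have hsmul : ∀ (a : P) (y : G), a • y = (a : G) * y * (a : G)⁻¹ := fun a y => rfl
    rw [D.uSum_eq, sum_eq_sum_fixedPoints (R := k) hPp] at h0
    · rw [← h0]
      have hfixed : ∀ y : G, y ∈ MulAction.fixedPoints P G ↔ y ∈ C := fun y => by
        simp only [MulAction.mem_fixedPoints, hsmul, hC, Subgroup.mem_centralizer_iff,
          Subtype.forall, SetLike.mem_coe, mul_inv_eq_iff_eq_mul]
      rw [Finset.sum_filter]
      calc ∑ u : U', ε.coeff (x * u)
          = ∑ y ∈ Finset.univ.map ⟨fun u : U' => x * (u : G), fun u v h =>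
              Subtype.ext (mul_left_cancel h)⟩, ε.coeff y := by rw [Finset.sum_map]; rfl
        _ = ∑ y ∈ Finset.univ.filter (fun y => x⁻¹ * y ∈ U'), ε.coeff y := by
            refine Finset.sum_congr ?_ fun _ _ => rfl
            ext y
            simp only [Finset.mem_map, Finset.mem_univ, true_and, Function.Embedding.coeFn_mk,
              Finset.mem_filter]
            exact ⟨by
              rintro ⟨u, rfl⟩
              show x⁻¹ * (x * (u : G)) ∈ U'
              rw [inv_mul_cancel_left]
              exact u.2, fun h => ⟨⟨_, h⟩, mul_inv_cancel_left x y⟩⟩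
        _ = _ := by
            rw [Finset.sum_filter]
            refine Fintype.sum_congr _ _ fun y => ?_
            by_cases hy : y ∈ C
            · rw [if_pos ((hfixed y).2 hy), hεdef, coeff_trunc_of_mem hy, Set.indicator_apply]
              refine if_congr ?_ rfl rfl
              exact ⟨fun h => h.1, fun h => ⟨h, C.mul_mem (C.inv_mem hx) hy⟩⟩
            · rw [if_neg (fun h => hy ((hfixed y).1 h)), if_neg]
              intro h
              exact hy (by simpa using C.mul_mem hx h.2)
    · rintro ⟨a, ha⟩ y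
      rw [hsmul]
      simp only [Set.indicator_apply, Set.mem_setOf_eq]
      refine if_congr ?_ (mem_fixedBy_coeff.1 he a (Subgroup.mem_top a) y) rfl
      rw [show x⁻¹ * (a * y * a⁻¹) = x⁻¹ * a * x * (x⁻¹ * y) * a⁻¹ by group, hcom a ha,
        Subgroup.mul_mem_cancel_right _ (D.U.inv_mem (hPU ha)),
        Subgroup.mul_mem_cancel_left _ (hPU ha)]
  -- an element fixed by `U'` in the ideal of `ε`
  by_contra hne
  change ε ≠ 0 at hne
  have hεε : ε * ε = ε := by
    rw [hεdef, ← trunc_centralizer_mul (p := p) hPp (fixedBy_anti le_top he) (fixedBy_anti le_top he),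
      hee]
  have hεC : ε ∈ fixedBy k C := trunc_mem_fixedBy Subgroup.le_normalizer (fixedBy_anti le_top he)
  have hεcomm : ∀ u : U', Commute ε (single (u : G) (1 : k)) := fun u =>
    commute_of_fixedBy_of_supp hεC (single_mem_supp u.2.2 1)
  haveI : CharP (MonoidAlgebra k G) p := charP_of_injective_algebraMap' (R := k) p
  set V : AddSubgroup (MonoidAlgebra k G) :=
    AddSubgroup.closure (Set.range fun u : U' => single (u : G) (1 : k) * ε) with hV
  have hεV : ε ∈ V := AddSubgroup.subset_closure ⟨1, by
    show single ((1 : U') : G) (1 : k) * ε = ε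
    rw [Subgroup.coe_one, ← MonoidAlgebra.one_def, one_mul]⟩
  have hsmulV : ∀ (u : U') (m : MonoidAlgebra k G), m ∈ V → single (u : G) (1 : k) * m ∈ V := by
    intro u m hm
    refine AddSubgroup.closure_induction ?_ ?_ ?_ ?_ hm
    · rintro _ ⟨w, rfl⟩
      refine AddSubgroup.subset_closure ⟨u * w, ?_⟩
      show single (((u * w : U') : G)) (1 : k) * ε = _
      rw [← mul_assoc, single_mul_single, one_mul, Subgroup.coe_mul]
    · rw [mul_zero]; exact V.zero_mem
    · intro a b _ _ ha hb
      rw [mul_add]; exact V.add_mem ha hb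
    · intro a _ ha
      rw [mul_neg]; exact V.neg_mem ha
  have hεV' : ∀ m ∈ V, ε * m = m := by
    intro m hm
    refine AddSubgroup.closure_induction ?_ ?_ ?_ ?_ hm
    · rintro _ ⟨w, rfl⟩
      show ε * (single (w : G) (1 : k) * ε) = single (w : G) (1 : k) * ε
      rw [← mul_assoc, (hεcomm w).eq, mul_assoc, hεε]
    · rw [mul_zero]
    · intro a b _ _ ha hb
      rw [mul_add, ha, hb]
    · intro a _ ha
      rw [mul_neg, ha]
  haveI : Finite V := by
    letI : Module (ZMod p) (MonoidAlgebra k G) := (ZMod.algebra (MonoidAlgebra k G) p).toModule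
    let W := Submodule.span (ZMod p) (Set.range fun u : U' => single (u : G) (1 : k) * ε)
    haveI : Module.Finite (ZMod p) W := Module.Finite.span_of_finite _ (Set.finite_range _)
    haveI : Finite W := Module.finite_of_finite (ZMod p)
    have hVW : V ≤ W.toAddSubgroup := (AddSubgroup.closure_le _).2 Submodule.subset_span
    exact Finite.of_injective (fun m : V => (⟨m.1, hVW m.2⟩ : W)) fun a b h =>
      Subtype.ext (congrArg (fun z : W => (z : MonoidAlgebra k G)) h)
  letI : MulAction U' V :=
    { smul := fun u m => ⟨single (u : G) (1 : k) * m, hsmulV u m m.2⟩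
      one_smul := fun m => Subtype.ext (by
        show single ((1 : U') : G) (1 : k) * (m : MonoidAlgebra k G) = m
        rw [Subgroup.coe_one, ← MonoidAlgebra.one_def, one_mul])
      mul_smul := fun u w m => Subtype.ext (by
        show single (((u * w : U') : G)) (1 : k) * (m : MonoidAlgebra k G) =
          single (u : G) (1 : k) * (single (w : G) (1 : k) * m)
        rw [← mul_assoc, single_mul_single, one_mul, Subgroup.coe_mul]) }
  have hU'p : IsPGroup p U' := D.pGroup.to_le inf_le_left
  have hdvd : p ∣ Nat.card V := by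
    have h1 : addOrderOf (⟨ε, hεV⟩ : V) = p := by
      refine addOrderOf_eq_prime (Subtype.ext ?_) fun h => hne (congrArg Subtype.val h)
      show p • ε = 0
      rw [nsmul_eq_mul, CharP.cast_eq_zero, zero_mul]
    exact h1 ▸ addOrderOf_dvd_natCard _
  have h0 : (0 : V) ∈ MulAction.fixedPoints U' V := fun u => Subtype.ext (by
    show single (u : G) (1 : k) * (0 : MonoidAlgebra k G) = 0
    rw [mul_zero])
  obtain ⟨m, hm, hm0⟩ := hU'p.exists_fixed_point_of_prime_dvd_card_of_fixed_point V hdvd h0
  have hinv : ∀ (u : U') (y : G), (m : MonoidAlgebra k G).coeff ((u : G)⁻¹ * y) =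
      (m : MonoidAlgebra k G).coeff y := by
    intro u y
    have h2 : single (u : G) (1 : k) * (m : MonoidAlgebra k G) = m := congrArg Subtype.val (hm u)
    conv_rhs => rw [← h2]
    rw [MonoidAlgebra.coeff_single_mul_apply, one_mul]
  apply hm0
  refine Subtype.ext ?_
  show (0 : MonoidAlgebra k G) = m
  rw [← hεV' m m.2]
  ext y
  rw [MonoidAlgebra.coeff_mul_antidiag ε (m : MonoidAlgebra k G) y
    ((Finset.univ : Finset G).image fun h => (h, h⁻¹ * y))]
  · rw [Finset.sum_image (fun u _ v _ huv => (Prod.ext_iff.1 huv).1)]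
    haveI := Fintype.ofFinite (G ⧸ U')
    rw [← Finset.sum_fiberwise_of_maps_to (g := fun h : G => (h : G ⧸ U')) (t := Finset.univ)
      (fun _ _ => Finset.mem_univ _)]
    rw [Finset.sum_eq_zero fun q _ => ?_]
    · simp
    rw [Finset.sum_congr rfl (g := fun h => ε.coeff h * (m : MonoidAlgebra k G).coeff (q.out⁻¹ * y))
      (fun h hh => by
        have h3 := (Finset.mem_filter.1 hh).2
        rw [← QuotientGroup.out_eq' q, QuotientGroup.eq] at h3
        have h4 := hinv ⟨_, h3⟩ (h⁻¹ * y)
        show ε.coeff h * (m : MonoidAlgebra k G).coeff (h⁻¹ * y) = _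
        rw [← h4]
        congr 2
        group), ← Finset.sum_mul]
    suffices hs : ∑ h ∈ Finset.univ.filter (fun h : G => (h : G ⧸ U') = q), ε.coeff h = 0 by
      rw [hs, zero_mul]
    rw [← hzero q.out]
    refine (Finset.sum_bij (fun (u : U') _ => q.out * (u : G)) ?_ ?_ ?_ ?_).symm
    · intro u _
      rw [Finset.mem_filter]
      refine ⟨Finset.mem_univ _, ?_⟩
      conv_rhs => rw [← QuotientGroup.out_eq' q]
      rw [QuotientGroup.eq]
      simpa using U'.inv_mem u.2
    · intro u _ w _ h
      exact Subtype.ext (mul_left_cancel h)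
    · intro h hh
      have h3 := (Finset.mem_filter.1 hh).2
      rw [← QuotientGroup.out_eq' q, eq_comm, QuotientGroup.eq] at h3
      exact ⟨⟨_, h3⟩, Finset.mem_univ _, by simp⟩
    · intro u _; rfl
  · intro q
    simp only [Finset.mem_image, Finset.mem_univ, true_and]
    constructor
    · rintro ⟨h, rfl⟩
      simp
    · intro hq
      exact ⟨q.1, by rw [← hq]; simp⟩

end SplitData

open Cfsg in
/-- Every block of a simple group with a split (B,N)-pair and rigid Sylow subgroups has defect zero
or full defect. -/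
theorem defect_zero_or_full {G : Type*} [Group G] [Finite G] [IsSimpleGroup G] {p : ℕ}
    [Fact p.Prime] (D : SplitData G p) (hrig : SylowRigid p G) (M : Ideal AlgInt)
    (hM : IsPModular p M) (B : Set (IrrCharacter G)) (hB : IsPBlock M B) :
    blockDefect p B = 0 ∨ blockDefect p B = (Nat.card G).factorization p := by
  haveI : M.IsPrime := hM.2.1.isPrime
  haveI := Blocks.charP_res hM
  have hp : p.Prime := Fact.out
  have hb := isBlockIdem_redElem_blockCoeff (M := M) hB
  set e := redElem M (blockCoeff B)
  have he := (mem_ctr.1 hb.mem).2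
  obtain ⟨D0, hD0⟩ := exists_isDefectGroup hM hB
  have hcard := CfsgLib.Jordan.card_defectGroup hM hB hD0
  have hD := (isDefectGroup_iff hM hB).1 hD0
  have hUcard : Nat.card D.U = p ^ (Nat.card G).factorization p :=
    (D.pGroup.toSylow D.index).card_eq_multiplicity
  by_cases hU : brau D.U e = 0
  · left
    have hbot : D0 = ⊥ := by
      by_contra hne
      obtain ⟨S, hS⟩ := hD.2.1.exists_le_sylow
      obtain ⟨c, hc⟩ := MulAction.exists_smul_eq G S (D.pGroup.toSylow D.index)
      have hle : D0.map (MulAut.conj c).toMonoidHom ≤ D.U := by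
        have h1 : ((c • S : Sylow p G) : Subgroup G) = D.U := by rw [hc]; rfl
        rw [← h1, Sylow.coe_subgroup_smul]
        rintro _ ⟨x, hx, rfl⟩
        exact ⟨x, hS hx, rfl⟩
      have hne' : D0.map (MulAut.conj c).toMonoidHom ≠ ⊥ := fun h =>
        hne ((Subgroup.map_eq_bot_iff_of_injective _ (MulAut.conj c).injective).1 h)
      have h0 := D.brau_eq_zero hrig he hb.mul_self hU hle hne'
      refine hD.2.2.1 ?_
      ext g
      by_cases hg : g ∈ Subgroup.centralizer (D0 : Set G)
      · have hg' : c * g * c⁻¹ ∈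
            Subgroup.centralizer ((D0.map (MulAut.conj c).toMonoidHom : Subgroup G) : Set G) := by
          rw [Subgroup.mem_centralizer_iff]
          rintro _ ⟨x, hx, rfl⟩
          simp only [MulEquiv.coe_toMonoidHom, MulAut.conj_apply]
          calc c * x * c⁻¹ * (c * g * c⁻¹) = c * (x * g) * c⁻¹ := by group
            _ = c * (g * x) * c⁻¹ := by rw [Subgroup.mem_centralizer_iff.1 hg x hx]
            _ = _ := by group
        show (trunc _ e).coeff g = _
        rw [coeff_trunc_of_mem hg, ← mem_fixedBy_coeff.1 he c (Subgroup.mem_top c) g,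
          ← coeff_trunc_of_mem hg' e, show trunc _ e = 0 from h0]
        simp
      · show (trunc _ e).coeff g = _
        rw [coeff_trunc_of_not_mem hg]
        simp
    rw [hbot, Subgroup.card_bot] at hcard
    exact Nat.pow_right_injective hp.two_le (show p ^ blockDefect p B = p ^ 0 by rw [pow_zero]; exact hcard.symm)
  · right
    obtain ⟨c, -, hc⟩ := hD.exists_conj_le D.pGroup le_top hU
    have h1 := Subgroup.card_le_of_le (map_conj_inv_le hc)
    rw [Subgroup.card_map_of_injective (MulAut.conj c).injective, hcard, hUcard] at h1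
    have h2 : Nat.card D0 ∣ Nat.card G := Subgroup.card_subgroup_dvd_card D0
    rw [hcard, hp.pow_dvd_iff_le_factorization Nat.card_pos.ne'] at h2
    exact le_antisymm h2 ((Nat.pow_le_pow_iff_right hp.one_lt).1 h1)

end CfsgLib.LieBlocks
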