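import Cfsg.Agent.Lib.BrauerPairs.ChamberPolar

/-!
The apartment of a polar space: the flags of one level form an orbit of the unipotent subgroup, the
panels at the flags of the apartment, and the stabilizer of the apartment.
-/

set_option autoImplicit false
set_option linter.unusedSectionVars false
set_option linter.style.haveILetI false

namespace CfsgLib.LieBlocks.PolarBN

open Module CfsgLib.Generators.Steinberg CfsgLib.Generators.Steinberg.Polar CfsgLib.BrauerPairs

/-- Signed permutations. -/
abbrev WSigned (m : ℕ) : Type := Equiv.Perm (Fin m) × (Fin m → Bool)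

/-- The opposite signed permutation. -/
def wop {m : ℕ} (w : WSigned m) : WSigned m := (w.1, fun i => !(w.2 i))

theorem wlev_wop {m : ℕ} (w : WSigned m) (i : Fin m) : wlev (wop w) i = (wlev w i).rev := by
  cases h : w.2 i <;> simp [wlev, wop, h, rev_lo, rev_hi]

theorem wop_wop {m : ℕ} (w : WSigned m) : wop (wop w) = w := by
  simp [wop]

theorem wlev_inj {m : ℕ} {w w' : WSigned m} (h : wlev w = wlev w') : w = w' := by
  have key : ∀ i, w.1 i = w'.1 i ∧ w.2 i = w'.2 i := by
    intro i
    have hi' := congrFun h i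
    cases h1 : w.2 i <;> cases h2 : w'.2 i <;> simp [wlev, h1, h2] at hi'
    · exact ⟨lo_injective hi', rfl⟩
    · exact absurd hi' (lo_ne_hi _ _)
    · exact absurd hi'.symm (lo_ne_hi _ _)
    · exact ⟨hi_injective hi', rfl⟩
  exact Prod.ext (Equiv.ext fun i => (key i).1) (funext fun i => (key i).2)

theorem exists_wlev {m : ℕ} {l : Fin m → Fin (2 * m)} (hl : Function.Injective l)
    (hrev : ∀ i j, l i ≠ (l j).rev) : ∃ w : WSigned m, wlev w = l := by
  have h : ∀ i, ∃ (k : Fin m) (b : Bool), l i = if b then hi k else lo k := fun i => by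
    rcases eq_lo_or_hi (l i) with ⟨k, hk⟩ | ⟨k, hk⟩
    · exact ⟨k, false, by simpa using hk⟩
    · exact ⟨k, true, by simpa using hk⟩
  choose k b hkb using h
  have hinj : Function.Injective k := fun i j hij => by
    by_contra hne
    cases hb : b i <;> cases hb' : b j
    · exact hne (hl (by rw [hkb i, hkb j, hb, hb', hij]))
    · exact hrev i j (by rw [hkb i, hkb j, hb, hb', hij]; simp [rev_hi])
    · exact hrev i j (by rw [hkb i, hkb j, hb, hb', hij]; simp [rev_lo])
    · exact hne (hl (by rw [hkb i, hkb j, hb, hb', hij]))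
  refine ⟨(Equiv.ofBijective k (Finite.injective_iff_bijective.1 hinj), b), funext fun i => ?_⟩
  rw [hkb i]
  rfl

theorem wlev_flip_mid {m : ℕ} (w : WSigned m) {i j : Fin m} (hij : (j : ℕ) = i + 1) :
    wlev (wflip i w) = wlev w ∘ Equiv.swap i j := by
  have h : (i : ℕ) + 1 < m := hij ▸ j.2
  obtain rfl : j = ⟨i + 1, h⟩ := Fin.ext hij
  funext l
  simp [wlev, wflip, dif_pos h]

theorem wlev_flip_last {m : ℕ} (w : WSigned m) {z : Fin m} (hz : (z : ℕ) + 1 = m) :
    wlev (wflip z w) = Function.update (wlev w) z (wlev w z).rev := by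
  have h : ¬ ((z : ℕ) + 1 < m) := by omega
  funext l
  rcases eq_or_ne l z with rfl | hl
  · rw [Function.update_self]
    cases hb : w.2 l <;> simp [wlev, wflip, dif_neg h, hb, rev_lo, rev_hi]
  · rw [Function.update_of_ne hl]
    simp [wlev, wflip, dif_neg h, Function.update_of_ne hl]

variable {F : Type*} [Field F] [Finite F] {V : Type*} [AddCommGroup V] [Module F V] [Finite V]
  [FiniteDimensional F V] {m : ℕ} {P : Polar F V m}

theorem wcham_inj {w w' : WSigned m} (h : wcham P w = wcham P w') : w = w' :=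
  wlev_inj (funext fun i => by rw [← lev_wcham (P := P) w i, h, lev_wcham])

theorem lev_wcham' (w : WSigned m) : (wcham P w).lev = wlev w := funext (lev_wcham w)

theorem height_congr {x y : Cham P} (h : x.lev = y.lev) : x.height = y.height := by
  simp only [Cham.height, h]

theorem C0_eq : C0 P = wcham P (w1 (m := m)) := rfl

theorem D0_eq : D0 P = wcham P (w0 (m := m)) := rfl

theorem wop_w1 : wop (w1 (m := m)) = w0 := rfl

theorem exists_wcham (x : Cham P) : ∃ w : WSigned m, wlev w = x.lev :=
  exists_wlev x.lev_injective x.lev_ne_rev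

/-- The panel of type `i` at a flag of the apartment meets two levels. -/
theorem panel_lev (w : WSigned m) {i : Fin m} {y : Cham P} (hy : Cham.Adj i (wcham P w) y) :
    y.lev = wlev w ∨ y.lev = wlev (wflip i w) := by
  by_cases hyx : y = wcham P w
  · exact Or.inl (hyx ▸ lev_wcham' w)
  set x' := wcham P (wflip i w)
  have hadj : Cham.Adj i x' y := (adj_wflip P i w).symm.trans hy
  by_cases hyx' : y = x'
  · exact Or.inr (hyx' ▸ lev_wcham' _)
  have hne' : (wcham P w : Cham P) ≠ x' := fun e => wflip_ne i w (wcham_inj e).symm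
  have hback : Cham.Adj i x' (wcham P w) := (adj_wflip P i w).symm
  by_cases hi : (i : ℕ) + 1 < m
  · set j : Fin m := ⟨i + 1, hi⟩
    have hij : (j : ℕ) = i + 1 := rfl
    have hne : i ≠ j := fun e => by have := congrArg Fin.val e; omega
    rcases lt_or_gt_of_ne (fun e => hne (wlev_injective w e)) with h | h
    · right
      have h' : (wcham P w).lev i < (wcham P w).lev j := by rwa [lev_wcham', ]
      rw [(swap_asc (wcham P w) hij h' hy hyx).1, lev_wcham', wlev_flip_mid w hij]
    · left
      have h' : x'.lev i < x'.lev j := by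
        rw [lev_wcham', wlev_flip_mid w hij]
        simpa using h
      rw [(swap_asc x' hij h' hadj hyx').1, ← (swap_asc x' hij h' hback hne').1, lev_wcham']
  · have hz : (i : ℕ) + 1 = m := by have := i.2; omega
    by_cases h : (wlev w i : ℕ) < m
    · right
      have h' : ((wcham P w).lev i : ℕ) < m := by rwa [lev_wcham']
      rw [(last_asc (wcham P w) hz h' hy hyx).1, lev_wcham', wlev_flip_last w hz]
    · left
      have h' : (x'.lev i : ℕ) < m := by
        rw [lev_wcham', wlev_flip_last w hz, Function.update_self, Fin.val_rev]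
        omega
      rw [(last_asc x' hz h' hadj hyx').1, ← (last_asc x' hz h' hback hne').1, lev_wcham']

theorem eq_or_eq_flip {w w' : WSigned m} {i : Fin m} (h : Cham.Adj i (wcham P w) (wcham P w')) :
    w' = w ∨ w' = wflip i w := by
  rcases panel_lev w h with e | e <;> rw [lev_wcham'] at e
  · exact Or.inl (wlev_inj e)
  · exact Or.inr (wlev_inj e)

variable {G : Type*} [Group G] [Finite G] (A : Act P G) {p : ℕ}

theorem exists_asc {x : Cham P} (hx : ¬ x.IsOpp) : ∃ i, ∃ l : Fin m → Fin (2 * m),
    ∀ x' : Cham P, x'.lev = x.lev → ∀ y, Cham.Adj i x' y → y ≠ x' →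
      y.lev = l ∧ x'.height < y.height := by
  by_cases h1 : ∃ i j : Fin m, (j : ℕ) = i + 1 ∧ x.lev i < x.lev j
  · obtain ⟨i, j, hij, hlt⟩ := h1
    refine ⟨i, x.lev ∘ Equiv.swap i j, fun x' hx' y hy hne => ?_⟩
    rw [← hx'] at hlt ⊢
    exact swap_asc x' hij hlt hy hne
  · by_cases h2 : ∃ z : Fin m, (z : ℕ) + 1 = m ∧ (x.lev z : ℕ) < m
    · obtain ⟨z, hz, hzlt⟩ := h2
      refine ⟨z, Function.update x.lev z (x.lev z).rev, fun x' hx' y hy hne => ?_⟩
      rw [← hx'] at hzlt ⊢
      exact last_asc x' hz hzlt hy hne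
    · push Not at h1 h2
      exact absurd (isOpp_of_no_asc x (fun i j hij => not_lt.2 (h1 i j hij)) h2) hx

variable {A}

/-- The flags of one level form an orbit of the unipotent subgroup. -/
theorem exists_unip_of_lev (hA : A.Good p) :
    ∀ x y : Cham P, x.lev = y.lev → ∃ u ∈ A.unip, A.act u x = y := by
  suffices key : ∀ d : ℕ, ∀ x y : Cham P, m * (2 * m * m) - x.height = d → x.lev = y.lev →
      ∃ u ∈ A.unip, A.act u x = y from fun x y h => key _ x y rfl h
  intro d
  induction d using Nat.strong_induction_on with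
  | _ d ih =>
    intro x y hd he
    by_cases hx : x.IsOpp
    · obtain ⟨u, hu, hux⟩ := Act.exists_unip_opp hA hx
      obtain ⟨v, hv, hvy⟩ := Act.exists_unip_opp hA (x := y) fun i => by rw [← he]; exact hx i
      exact ⟨v⁻¹ * u, mul_mem (inv_mem hv) hu, by rw [A.act_mul, hux, A.act_inv_eq hvy]⟩
    obtain ⟨i, l, hil⟩ := exists_asc hx
    obtain ⟨x1, hx1, hx1ne⟩ := exists_adj_ne x i
    obtain ⟨y1, hy1, hy1ne⟩ := exists_adj_ne y i
    obtain ⟨hl1, hlt⟩ := hil x rfl x1 hx1 hx1ne
    obtain ⟨hl2, -⟩ := hil y he.symm y1 hy1 hy1ne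
    have hbound := Cham.height_le x1
    obtain ⟨u, hu, hu1⟩ := ih (m * (2 * m * m) - x1.height) (by omega) x1 y1 rfl (hl1.trans hl2.symm)
    refine ⟨u, hu, ?_⟩
    by_contra hne
    have hadj : Cham.Adj i y (A.act u x) := hy1.trans (hu1 ▸ (A.adj_act u hx1).symm)
    have hlev : (A.act u x).lev = x.lev := funext fun j => A.lev_borel (A.unip_le_borel hu) x j
    obtain ⟨-, h⟩ := hil y he.symm _ hadj hne
    rw [height_congr (hlev.trans he)] at h
    exact lt_irrefl _ h

theorem panel_cases (hA : A.Good p) (w : WSigned m) {i : Fin m} {y : Cham P}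
    (hy : Cham.Adj i (wcham P w) y) : ∃ u ∈ A.unip,
      y = A.act u (wcham P w) ∨ y = A.act u (wcham P (wflip i w)) := by
  rcases panel_lev w hy with e | e
  · obtain ⟨u, hu, h⟩ := exists_unip_of_lev hA (wcham P w) y (by rw [lev_wcham', e])
    exact ⟨u, hu, Or.inl h.symm⟩
  · obtain ⟨u, hu, h⟩ := exists_unip_of_lev hA (wcham P (wflip i w)) y (by rw [lev_wcham', e])
    exact ⟨u, hu, Or.inr h.symm⟩

/-! ### The stabilizer of the apartment -/

theorem act_inj {g : G} {x y : Cham P} (h : A.act g x = A.act g y) : x = y := by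
  rw [← A.act_inv_act g x, h, A.act_inv_act]

variable (A) in
/-- The stabilizer of the apartment. -/
def apN : Subgroup G where
  carrier := {g | ∀ w : WSigned m, ∃ w', A.act g (wcham P w) = wcham P w'}
  one_mem' := fun w => ⟨w, A.act_one _⟩
  mul_mem' := fun {g h} hg hh w => by
    obtain ⟨w', h1⟩ := hh w
    obtain ⟨w'', h2⟩ := hg w'
    exact ⟨w'', by rw [A.act_mul, h1, h2]⟩
  inv_mem' := fun {g} hg w => by
    choose f hf using hg
    have hinj : Function.Injective f := fun a b e => wcham_inj (act_inj (g := g) (by rw [hf, hf, e]))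
    obtain ⟨v, hv⟩ := (Finite.injective_iff_surjective.1 hinj) w
    exact ⟨v, A.act_inv_eq (hv ▸ hf v)⟩

theorem apN_flip {g : G} (hg : g ∈ apN A) {w w' : WSigned m} (h : A.act g (wcham P w) = wcham P w')
    (i : Fin m) : A.act g (wcham P (wflip i w)) = wcham P (wflip i w') := by
  obtain ⟨v, hv⟩ := hg (wflip i w)
  have hadj : Cham.Adj i (wcham P w') (wcham P v) := h ▸ hv ▸ A.adj_act g (adj_wflip P i w)
  rcases eq_or_eq_flip hadj with e | e
  · exact absurd (wcham_inj (act_inj (g := g) (hv.trans (e ▸ h.symm)))) (wflip_ne i w)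
  · rw [hv, e]

theorem fix_apartment {t : G} (htB : t ∈ A.borel) (htN : t ∈ apN A) (w : WSigned m) :
    A.act t (wcham P w) = wcham P w := by
  obtain ⟨v, hv⟩ := htN w
  rw [hv, wlev_inj (w := v) (w' := w) (funext fun i => ?_)]
  rw [← lev_wcham (P := P) v i, ← hv, A.lev_borel htB, lev_wcham]

/-! ### Frame lines -/

theorem c_wlev_eq_zero {w : WSigned m} {k : Fin (m + 1)} {v : V}
    (hv : v ∈ spanPre (F := F) (fun l => P.b (wlev w l)) k) {i : Fin m} (hi : (k : ℕ) ≤ i) :
    P.c (wlev w i) v = 0 := by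
  have hle : spanPre (F := F) (fun l => P.b (wlev w l)) k ≤ LinearMap.ker (P.c (wlev w i)) :=
    Submodule.span_le.2 (by
      rintro _ ⟨j, rfl⟩
      exact P.c_b_ne fun e => by
        have h1 : (i : ℕ) = j := congrArg Fin.val (wlev_injective w e)
        have := j.2
        omega)
  exact hle hv

theorem eq_zero_of_c {w : WSigned m} {k : Fin (m + 1)} {v : V}
    (hv : v ∈ spanPre (F := F) (fun l => P.b (wlev w l)) k)
    (h : ∀ j : Fin m, (j : ℕ) < k → P.c (wlev w j) v = 0) : v = 0 := by
  obtain ⟨g, rfl⟩ := (Submodule.mem_span_range_iff_exists_fun F).1 hv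
  refine Finset.sum_eq_zero fun j _ => ?_
  have h1 := h (Fin.castLE k.is_le j) j.2
  rw [map_sum, Finset.sum_eq_single j] at h1
  · rw [map_smul, smul_eq_mul, mul_eq_zero] at h1
    rw [h1.resolve_right (P.c_b_self _), zero_smul]
  · intro l _ hl
    rw [map_smul, P.c_b_ne fun e => hl (Fin.castLE_injective _ (wlev_injective w e)).symm, smul_zero]
  · exact fun hn => absurd (Finset.mem_univ j) hn

theorem mem_line {w : WSigned m} {i : Fin m} {v : V}
    (hv : v ∈ spanPre (F := F) (fun l => P.b (wlev w l)) i.succ)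
    (h : ∀ j : Fin m, j < i → P.c (wlev w j) v = 0) :
    v ∈ Submodule.span F {P.b (wlev w i)} := by
  set t := P.c (wlev w i) v * (P.c (wlev w i) (P.b (wlev w i)))⁻¹
  rw [Submodule.mem_span_singleton]
  refine ⟨t, (sub_eq_zero.1 (eq_zero_of_c (w := w) (k := i.succ)
    (sub_mem hv (Submodule.smul_mem _ t (mem_spanPre (B := fun l => P.b (wlev w l)) (by simp))))
    fun j hj => ?_)).symm⟩
  rw [map_sub, map_smul, smul_eq_mul]
  rcases eq_or_ne j i with rfl | hne
  · simp only [t]
    rw [mul_assoc, inv_mul_cancel₀ (P.c_b_self _), mul_one, sub_self]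
  · rw [h j (lt_of_le_of_ne (Fin.le_def.2 (by simp at hj; omega)) hne),
      P.c_b_ne (fun e => hne (wlev_injective w e)), mul_zero, sub_zero]

theorem line_map {g : G} {w w' : WSigned m} (h1 : A.act g (wcham P w) = wcham P w')
    (h2 : A.act g (wcham P (wop w)) = wcham P (wop w')) (i : Fin m) :
    A.ρ g (P.b (wlev w i)) ∈ Submodule.span F {P.b (wlev w' i)} := by
  have hmem : A.ρ g (P.b (wlev w i)) ∈ (wcham P w').toFun i.succ := by
    rw [← h1]
    exact Submodule.mem_map_of_mem (mem_spanPre (B := fun l => P.b (wlev w l)) (by simp))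
  refine mem_line hmem fun j hj => ?_
  rw [← K_b_rev_eq_zero_iff, ← wlev_wop]
  have hb : P.b (wlev (wop w') j) ∈ (wcham P (wop w')).toFun i.castSucc :=
    mem_spanPre (B := fun l => P.b (wlev (wop w') l)) (by simpa using hj)
  rw [← h2] at hb
  obtain ⟨u, hu, hue⟩ := hb
  rw [← hue]
  show P.K (A.ρ g u) (A.ρ g (P.b (wlev w i))) = 0
  rw [A.K_map]
  have hle : (wcham P (wop w)).toFun i.castSucc ≤ LinearMap.ker (P.kL (P.b (wlev w i))) :=
    Submodule.span_le.2 (by
      rintro _ ⟨l, rfl⟩
      refine P.K_b_eq_zero fun e => ?_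
      rw [wlev_wop, Fin.rev_rev] at e
      have h3 : (i : ℕ) = l := congrArg Fin.val (wlev_injective w e)
      have h4 : (l : ℕ) < (i.castSucc : ℕ) := l.2
      have h5 : (i.castSucc : ℕ) = i := rfl
      omega)
  exact hle hu

/-- An element mapping a pair of opposite flags of the apartment to such a pair stabilizes the
apartment. -/
theorem mem_apN_of_pair {g : G} {w w' : WSigned m} (h1 : A.act g (wcham P w) = wcham P w')
    (h2 : A.act g (wcham P (wop w)) = wcham P (wop w')) : g ∈ apN A := by
  classical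
  have hall : ∀ j : Fin (2 * m), ∃ i, j = wlev w i ∨ j = (wlev w i).rev := by
    intro j
    have hsurj : Function.Surjective (Sum.elim (wlev w) fun l => (wlev w l).rev) :=
      ((Fintype.bijective_iff_injective_and_card _).2 ⟨by
        refine Function.Injective.sumElim (wlev_injective w)
          (Fin.rev_injective.comp (wlev_injective w)) ?_
        exact fun a b => wlev_ne_rev w a b, by simp; omega⟩).2
    obtain ⟨i | i, hi⟩ := hsurj j
    · exact ⟨i, Or.inl hi.symm⟩
    · exact ⟨i, Or.inr hi.symm⟩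
  choose idx hidx using hall
  let π : Fin (2 * m) → Fin (2 * m) := fun j =>
    if j = wlev w (idx j) then wlev w' (idx j) else (wlev w' (idx j)).rev
  have hπ1 : ∀ i, π (wlev w i) = wlev w' i := fun i => by
    rcases hidx (wlev w i) with e | e
    · obtain h3 := wlev_injective w e
      simp only [π, ← h3, if_true]
    · exact absurd e (wlev_ne_rev w _ _)
  have hπ2 : ∀ i, π (wlev w i).rev = (wlev w' i).rev := fun i => by
    rcases hidx (wlev w i).rev with e | e
    · exact absurd e.symm (wlev_ne_rev w _ _)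
    · have h3 := wlev_injective w (Fin.rev_injective e)
      simp only [π, ← h3, if_neg (fun h : (wlev w i).rev = wlev w i => wlev_ne_rev w i i h.symm)]
  have hline : ∀ j, A.ρ g (P.b j) ∈ Submodule.span F {P.b (π j)} := by
    intro j
    rcases hidx j with e | e
    · rw [e, hπ1]
      exact line_map h1 h2 _
    · rw [e, hπ2]
      have := line_map h2 (by rw [wop_wop, wop_wop]; exact h1) (idx j)
      rwa [wlev_wop, wlev_wop] at this
  have hπinj : Function.Injective π := by
    intro a b e
    rcases hidx a with ea | ea <;> rcases hidx b with eb | eb <;> rw [ea, eb] at e ⊢ <;>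
      simp only [hπ1, hπ2] at e
    · rw [wlev_injective w' e]
    · exact absurd e (wlev_ne_rev w' _ _)
    · exact absurd e.symm (wlev_ne_rev w' _ _)
    · rw [wlev_injective w' (Fin.rev_injective e)]
  have hπrev : ∀ j, π j.rev = (π j).rev := by
    intro j
    rcases hidx j with e | e
    · rw [e, hπ1, hπ2]
    · rw [e, Fin.rev_rev, hπ1, hπ2, Fin.rev_rev]
  intro v
  obtain ⟨v', hv'⟩ := exists_wlev (l := π ∘ wlev v) (hπinj.comp (wlev_injective v)) fun i j e =>
    wlev_ne_rev v i j (hπinj (by rw [hπrev]; exact e))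
  refine ⟨v', Cham.ext (funext fun k => Submodule.eq_of_le_of_finrank_le ?_
    (by rw [Cham.finrank', Cham.finrank']))⟩
  show ((wcham P v).toFun k).map (A.ρ g : V →ₗ[F] V) ≤ _
  show (spanPre (F := F) (fun l => P.b (wlev v l)) k).map (A.ρ g : V →ₗ[F] V) ≤ _
  rw [spanPre, Submodule.map_span_le]
  rintro _ ⟨l, rfl⟩
  refine (Submodule.span_le.2 (Set.singleton_subset_iff.2 ?_)) (hline _)
  show P.b (π (wlev v _)) ∈ _
  rw [← Function.comp_apply (f := π), ← hv']
  exact mem_spanPre (B := fun l => P.b (wlev v' l)) (k := k) l.2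

/-! ### Opposition -/

/-- Opposition of two flags. -/
def Opp (x y : Cham P) : Prop :=
  ∀ k, ∀ v ∈ x.toFun k, (∀ u ∈ y.toFun k, P.K v u = 0) → v = 0

theorem opp_act {g : G} {x y : Cham P} (h : Opp x y) : Opp (A.act g x) (A.act g y) := by
  rintro k _ ⟨v, hv, rfl⟩ hu
  rw [h k v hv fun u hu' => by
    have := hu _ (Submodule.mem_map_of_mem hu')
    rwa [show (A.ρ g : V →ₗ[F] V) v = A.ρ g v from rfl,
      show (A.ρ g : V →ₗ[F] V) u = A.ρ g u from rfl, A.K_map] at this]
  exact map_zero _

theorem opp_wop (w : WSigned m) : Opp (wcham P (wop w)) (wcham P w) := by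
  intro k v hv hu
  refine eq_zero_of_c hv fun j hj => ?_
  rw [← K_b_rev_eq_zero_iff, wlev_wop, Fin.rev_rev]
  exact P.K_eq_zero_symm (hu _ (mem_spanPre (B := fun l => P.b (wlev w l)) hj))

theorem isOpp_of_opp {x : Cham P} (h : Opp x (C0 P)) : x.IsOpp := by
  classical
  have hlow : ∀ (k : Fin (m + 1)) (j : Fin (2 * m)), j ∈ P.piv (x.toFun k) →
      2 * m ≤ (j : ℕ) + k := by
    intro k j hj
    obtain ⟨v, hv, hl⟩ := mem_piv.1 hj
    obtain ⟨l, hl', hne⟩ : ∃ l : Fin m, (l : ℕ) < k ∧ P.K v (P.e l) ≠ 0 := by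
      by_contra hcon
      push Not at hcon
      refine hl.ne_zero (h k v hv fun u hu => ?_)
      rw [C0_toFun] at hu
      have hle : spanPre (F := F) P.e k ≤ LinearMap.ker (P.kL v) := Submodule.span_le.2 (by
        rintro _ ⟨a, rfl⟩
        exact P.K_eq_zero_symm (hcon _ a.2))
      exact P.K_eq_zero_symm (hle hu)
    have hle : hi l ≤ j := not_lt.1 fun hlt => hne (by rw [← c_hi]; exact hl.2 _ hlt)
    have := Fin.le_def.1 hle
    rw [hi_val] at this
    omega
  intro i
  induction hin : (i : ℕ) using Nat.strong_induction_on generalizing i with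
  | _ n ih =>
    subst hin
    have h1 := hlow i.succ _ (x.lev_mem_piv (k := i.succ) (i := i) (by simp))
    simp only [Fin.val_succ] at h1
    by_contra hne
    have hlt := (x.lev i).2
    have h2 : (x.lev i : ℕ) ≠ 2 * m - 1 - i := fun e => hne (Fin.ext (by rw [hi_val, e]))
    set a : ℕ := 2 * m - 1 - (x.lev i : ℕ) with ha
    have ha' : a < i := by omega
    have h3 := ih a ha' ⟨a, by have := i.2; omega⟩ rfl
    have h4 : x.lev i = x.lev ⟨a, by have := i.2; omega⟩ := by
      rw [h3]
      exact Fin.ext (by rw [hi_val]; simp [ha]; omega)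
    have := congrArg Fin.val (x.lev_injective h4)
    simp at this
    omega

/-- A flag of the apartment in the orbit of the standard one is reached by the stabilizer of the
apartment. -/
theorem exists_apN (hA : A.Good p) {g : G} {w : WSigned m} (hg : A.act g (C0 P) = wcham P w) :
    ∃ n ∈ apN A, A.act n (C0 P) = wcham P w := by
  set x := A.act g⁻¹ (wcham P (wop w)) with hx
  have hopp : Opp x (C0 P) := by
    have := opp_act (A := A) (g := g⁻¹) (opp_wop (P := P) w)
    rwa [A.act_inv_eq hg] at this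
  obtain ⟨u, hu, hux⟩ := Act.exists_unip_opp hA (isOpp_of_opp hopp)
  have h1 : A.act (g * u⁻¹) (C0 P) = wcham P w := by
    rw [A.act_mul, A.mem_borel.1 (inv_mem (A.unip_le_borel hu)), hg]
  refine ⟨g * u⁻¹, mem_apN_of_pair (w := w1) h1 ?_, h1⟩
  rw [wop_w1, ← D0_eq, A.act_mul, A.act_inv_eq hux, hx, A.act_act_inv]

end CfsgLib.LieBlocks.PolarBN
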