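import Cfsg.Agent.Lib.LieBlocks.PolarApartment
import Cfsg.Agent.Lib.LieBlocks.Image

/-!
The split (B,N)-pair of a group of isometries of a polar space with the hypotheses `Good`.  When the
last panels have two flags only, the last generator is the composite `z j z` of three reflections.
-/

set_option autoImplicit false
set_option linter.unusedSectionVars false
set_option linter.style.haveILetI false

noncomputable section

namespace CfsgLib.LieBlocks.PolarBN

open Module CfsgLib.Generators.Steinberg CfsgLib.Generators.Steinberg.Polar CfsgLib.BrauerPairs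

variable {F : Type*} [Field F] [Finite F] {V : Type*} [AddCommGroup V] [Module F V] [Finite V]
  [FiniteDimensional F V] {m : ℕ} {P : Polar F V m} {G : Type*} [Group G] [Finite G] {A : Act P G}
  {p : ℕ}

variable (A) in
/-- The flags of the apartment in the orbit of the standard one. -/
def InOrb (w : WSigned m) : Prop := ∃ n ∈ apN A, A.act n (C0 P) = wcham P w

variable (P) in
/-- The last panels have two flags. -/
def Thin : Prop :=
  ∀ z : Fin m, (z : ℕ) + 1 = m → ∀ y, Cham.Adj z (C0 P) y →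
    y = C0 P ∨ y = wcham P (wflip z w1)

theorem flip_C0_ne (i : Fin m) : wcham P (wflip i w1) ≠ C0 P := fun e => wflip_ne i w1 (wcham_inj e)

theorem exists_cell (hA : A.Good p) (g : G) :
    ∃ u ∈ A.unip, ∃ w, InOrb A w ∧ A.act g (C0 P) = A.act u (wcham P w) := by
  obtain ⟨w, hw⟩ := exists_wcham (A.act g (C0 P))
  obtain ⟨u, hu, h⟩ := exists_unip_of_lev hA (wcham P w) (A.act g (C0 P)) (by rw [lev_wcham', hw])
  exact ⟨u, hu, w, exists_apN hA (g := u⁻¹ * g) (by rw [A.act_mul, A.act_inv_eq h]), h.symm⟩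

theorem inOrb_of (hA : A.Good p) {g h : G} {w : WSigned m}
    (e : A.act g (C0 P) = A.act h (wcham P w)) : InOrb A w :=
  exists_apN hA (g := h⁻¹ * g) (by rw [A.act_mul, e, A.act_inv_act])

/-- A flag beside one in the orbit, of the same level, puts the reflection in the orbit. -/
theorem orb_of_panel (hA : A.Good p) {w : WSigned m} (hw : InOrb A w) {i : Fin m} {y : Cham P}
    (hy : Cham.Adj i (wcham P w) y) (hne : y ≠ wcham P w) (hlev : y.lev = wlev w)
    (hfix : ∀ u ∈ A.unip, A.act u (C0 P) = C0 P) : InOrb A (wflip i w1) := by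
  obtain ⟨n, hn, hnw⟩ := hw
  obtain ⟨u', hu', hy'⟩ := exists_unip_of_lev hA (wcham P w) y (by rw [lev_wcham', hlev])
  have hz : Cham.Adj i (C0 P) (A.act n⁻¹ y) := by
    have := A.adj_act n⁻¹ hy
    rwa [← hnw, A.act_inv_act] at this
  obtain ⟨u, hu, h | h⟩ := panel_cases hA w1 hz
  · refine absurd ?_ hne
    rw [← A.act_act_inv n y, h]
    show A.act n (A.act u (C0 P)) = _
    rw [hfix u hu, hnw]
  · refine inOrb_of hA (g := n⁻¹ * u' * n) (h := u) ?_
    rw [A.act_mul, A.act_mul, hnw, hy', h]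

theorem unip_fix_C0 {u : G} (hu : u ∈ A.unip) : A.act u (C0 P) = C0 P :=
  A.mem_borel.1 (A.unip_le_borel hu)

theorem w0_desc {i j : Fin m} (hij : (j : ℕ) = i + 1) : wlev (w0 (m := m)) j < wlev w0 i := by
  rw [wlev_w0, wlev_w0]
  exact Fin.lt_def.2 (by rw [hi_val, hi_val]; have := j.2; omega)

theorem flip_w0_desc {i j z : Fin m} (hij : (j : ℕ) = i + 1) (hz : (z : ℕ) + 1 = m) :
    wlev (wflip z (w0 (m := m))) j < wlev (wflip z w0) i := by
  have hiz : i ≠ z := fun e => by subst e; have := j.2; omega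
  rw [wlev_flip_last w0 hz, Function.update_of_ne hiz]
  by_cases hjz : j = z
  · subst hjz
    rw [Function.update_self, wlev_w0, wlev_w0, rev_hi]
    exact Fin.lt_def.2 (by rw [lo_val, hi_val]; have := i.2; omega)
  · rw [Function.update_of_ne hjz]
    exact w0_desc hij

theorem exists_top (hA : A.Good p) : ∃ w, InOrb A w ∧ (w = w0 ∨
    ∃ z : Fin m, (z : ℕ) + 1 = m ∧ w = wflip z w0 ∧
      ∀ y, Cham.Adj z (D0 P) y → y = D0 P ∨ y = wcham P (wflip z w0)) := by
  obtain ⟨g, h | ⟨i, h, hall⟩⟩ := hA.longest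
  · exact ⟨w0, exists_apN hA h, Or.inl rfl⟩
  · refine ⟨_, exists_apN hA h, Or.inr ⟨i, ?_, rfl, hall⟩⟩
    by_contra hc
    obtain ⟨y, y', hy, hne, hy', hne', hyy⟩ :=
      exists_two_adj (D0 P) (i := i) (by have := i.2; omega)
    exact hyy (((hall y hy).resolve_left hne).trans ((hall y' hy').resolve_left hne').symm)

theorem desc_top (hA : A.Good p) : ∃ w, InOrb A w ∧
    (w = w0 ∨ ∃ z : Fin m, (z : ℕ) + 1 = m ∧ w = wflip z w0) ∧
    ∀ i j : Fin m, (j : ℕ) = i + 1 → wlev w j < wlev w i := by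
  obtain ⟨w, hw, rfl | ⟨z, hz, rfl, -⟩⟩ := exists_top hA
  · exact ⟨_, hw, Or.inl rfl, fun i j hij => w0_desc hij⟩
  · exact ⟨_, hw, Or.inr ⟨z, hz, rfl⟩, fun i j hij => flip_w0_desc hij hz⟩

/-- A third flag in a panel at a descent has the level of the upper flag. -/
theorem exists_third {w : WSigned m} {i j : Fin m} (hij : (j : ℕ) = i + 1)
    (hd : wlev w j < wlev w i) :
    ∃ y, Cham.Adj i (wcham P w) y ∧ y ≠ wcham P w ∧ y ≠ wcham P (wflip i w) ∧ y.lev = wlev w := by
  obtain ⟨a, b, ha, hane, hb, hbne, hab⟩ := exists_two_adj (wcham P w) (i := i) (hij ▸ j.2)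
  obtain ⟨y, hy, hne, hne'⟩ : ∃ y, Cham.Adj i (wcham P w) y ∧ y ≠ wcham P w ∧
      y ≠ wcham P (wflip i w) := by
    by_cases hc : a = wcham P (wflip i w)
    · exact ⟨b, hb, hbne, fun e => hab (hc.trans e.symm)⟩
    · exact ⟨a, ha, hane, hc⟩
  refine ⟨y, hy, hne, hne', ?_⟩
  have hasc : (wcham P (wflip i w)).lev i < (wcham P (wflip i w)).lev j := by
    rw [lev_wcham', wlev_flip_mid w hij]
    simpa using hd
  rw [(swap_asc _ hij hasc ((adj_wflip P i w).symm.trans hy) hne').1,
    ← (swap_asc _ hij hasc (adj_wflip P i w).symm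
      (fun e => wflip_ne i w (wcham_inj e).symm)).1, lev_wcham']

/-- The middle reflections are realized. -/
theorem orb_mid (hA : A.Good p) {i : Fin m} (hi : (i : ℕ) + 1 < m) : InOrb A (wflip i w1) := by
  obtain ⟨w, hw, -, hd⟩ := desc_top hA
  obtain ⟨y, hy, hne, -, hlev⟩ := exists_third (P := P) (i := i) (j := ⟨i + 1, hi⟩) rfl (hd i ⟨i + 1, hi⟩ rfl)
  exact orb_of_panel hA hw hy hne hlev fun u hu => unip_fix_C0 hu

theorem thin_not_orb (hA : A.Good p) (hT : Thin P) {z : Fin m} (hz : (z : ℕ) + 1 = m) :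
    ¬ InOrb A (wflip z w1) := by
  rintro ⟨n, -, hn⟩
  refine flip_C0_ne z (hn.symm.trans (Act.fixed_unip_eq hA fun u hu => ?_))
  rw [hn]
  have h1 : Cham.Adj z (C0 P) (A.act u (wcham P (wflip z w1))) := by
    have := A.adj_act u (adj_wflip P z w1)
    rwa [← C0_eq, unip_fix_C0 hu] at this
  refine (hT z hz _ h1).resolve_left fun e => flip_C0_ne (P := P) z ?_
  exact act_inj (A := A) (e.trans (unip_fix_C0 hu).symm)

/-- In the thin case a flag of the orbit has one neighbour in its last panel. -/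
theorem thin_unique (hT : Thin P) {z : Fin m} (hz : (z : ℕ) + 1 = m) {g : G} {y y' : Cham P}
    (h : Cham.Adj z (A.act g (C0 P)) y) (hne : y ≠ A.act g (C0 P))
    (h' : Cham.Adj z (A.act g (C0 P)) y') (hne' : y' ≠ A.act g (C0 P)) : y = y' := by
  have key : ∀ y, Cham.Adj z (A.act g (C0 P)) y → y ≠ A.act g (C0 P) →
      y = A.act g (wcham P (wflip z w1)) := by
    intro y h hne
    have h1 := A.adj_act g⁻¹ h
    rw [A.act_inv_act] at h1
    rcases hT z hz _ h1 with e | e
    · exact absurd (by rw [← A.act_act_inv g y, e]) hne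
    · rw [← e, A.act_act_inv]
  rw [key y h hne, key y' h' hne']

theorem thick_orb (hA : A.Good p) (hT : ¬ Thin P) {z : Fin m} (hz : (z : ℕ) + 1 = m) :
    InOrb A (wflip z w1) := by
  obtain ⟨y, hy, hne, hne'⟩ : ∃ y, Cham.Adj z (C0 P) y ∧ y ≠ C0 P ∧ y ≠ wcham P (wflip z w1) := by
    by_contra hc
    push Not at hc
    refine hT fun z' hz' y hy => ?_
    obtain rfl : z' = z := Fin.ext (by omega)
    by_cases h : y = C0 P
    · exact Or.inl h
    · exact Or.inr (hc y hy h)
  obtain ⟨w, ⟨n, hn, hnw⟩, hw⟩ := exists_top hA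
  have hflip := apN_flip hn hnw z
  rcases hw with rfl | ⟨z', hz', rfl, hall⟩
  swap
  · exfalso
    obtain rfl : z' = z := Fin.ext (by omega)
    rw [wflip_wflip] at hflip
    have h1 : Cham.Adj z' (D0 P) (A.act n y) := by
      have := A.adj_act n hy
      rw [hnw] at this
      exact (adj_wflip P z' w0).trans this
    rcases hall _ h1 with e | e
    · exact hne' (act_inj (A := A) (g := n) (e.trans hflip.symm))
    · exact hne (act_inj (A := A) (g := n) (e.trans hnw.symm))
  have hadj : Cham.Adj z (wcham P w0) (A.act n y) := hnw ▸ A.adj_act n hy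
  have hne1 : A.act n y ≠ wcham P w0 := fun e => hne (act_inj (A := A) (g := n) (e.trans hnw.symm))
  have hne2 : A.act n y ≠ wcham P (wflip z w0) := fun e =>
    hne' (act_inj (A := A) (g := n) (e.trans hflip.symm))
  have hlt : ((wcham P (wflip z w0)).lev z : ℕ) < m := by
    rw [lev_wcham', wlev_flip_last _ hz, Function.update_self, wlev_w0, rev_hi, lo_val]
    exact z.2
  refine orb_of_panel hA ⟨n, hn, hnw⟩ hadj hne1 ?_ fun u hu => unip_fix_C0 hu
  rw [(last_asc _ hz hlt ((adj_wflip P z w0).symm.trans hadj) hne2).1,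
    ← (last_asc _ hz hlt (adj_wflip P z w0).symm (fun e => wflip_ne z w0 (wcham_inj e).symm)).1,
    lev_wcham']

/-- The last generator in the thin case. -/
def comp (j z : Fin m) (w : WSigned m) : WSigned m := wflip z (wflip j (wflip z w))

theorem comp_ne (j z : Fin m) (w : WSigned m) : comp j z w ≠ w := by
  intro e
  have h1 := congrArg (wflip z) e
  rw [comp, wflip_wflip] at h1
  exact wflip_ne j _ h1

theorem borel_fix_partner (hT : Thin P) {z : Fin m} (hz : (z : ℕ) + 1 = m) {b : G}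
    (hb : b ∈ A.borel) : A.act b (wcham P (wflip z w1)) = wcham P (wflip z w1) := by
  have h1 : Cham.Adj z (C0 P) (A.act b (wcham P (wflip z w1))) := by
    have := A.adj_act b (adj_wflip P z w1)
    rwa [← C0_eq, A.mem_borel.1 hb] at this
  refine (hT z hz _ h1).resolve_left fun e => flip_C0_ne (P := P) z ?_
  exact act_inj (A := A) (e.trans (A.mem_borel.1 hb).symm)

theorem orb_comp (hA : A.Good p) (hT : Thin P) {j z : Fin m} (hjz : (z : ℕ) = j + 1)
    (hz : (z : ℕ) + 1 = m) : InOrb A (comp j z w1) := by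
  obtain ⟨w, ⟨n, hn, hnw⟩, hw, -⟩ := desc_top hA
  have hd : wlev (wflip z w) z < wlev (wflip z w) j := by
    rcases hw with rfl | ⟨z', hz', rfl⟩
    · exact flip_w0_desc hjz hz
    · obtain rfl : z' = z := Fin.ext (by omega)
      rw [wflip_wflip]
      exact w0_desc hjz
  obtain ⟨y1, hy1, hy1ne, -, hlev⟩ := exists_third (P := P) hjz hd
  obtain ⟨u, hu, hu1⟩ := exists_unip_of_lev hA (wcham P (wflip z w)) y1 (by rw [lev_wcham', hlev])
  set y := A.act u (wcham P w) with hy
  have hy1y : Cham.Adj z y1 y := hu1 ▸ A.adj_act u (adj_wflip P z w).symm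
  have hyne : y ≠ y1 := fun e =>
    wflip_ne z w (wcham_inj (act_inj (A := A) (g := u) (hu1.trans e.symm)))
  -- translate back to the standard flag
  set z1 := A.act n⁻¹ y1 with hz1
  have hc0 : A.act n⁻¹ (wcham P (wflip z w)) = wcham P (wflip z w1) :=
    A.act_inv_eq (apN_flip hn hnw z)
  have hz1adj : Cham.Adj j (wcham P (wflip z w1)) z1 := hc0 ▸ A.adj_act n⁻¹ hy1
  have hz1ne : z1 ≠ wcham P (wflip z w1) := fun e =>
    hy1ne (act_inj (A := A) (g := n⁻¹) (e.trans hc0.symm))
  obtain ⟨v, hv, h | h⟩ := panel_cases hA (wflip z w1) hz1adj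
  · exact absurd (h.trans (borel_fix_partner hT hz (A.unip_le_borel hv))) hz1ne
  set g := v⁻¹ * (n⁻¹ * (u * n)) with hg
  have hgC : A.act g (C0 P) = A.act v⁻¹ (A.act n⁻¹ y) := by
    rw [hg, A.act_mul, A.act_mul, A.act_mul, hnw]
  have ha : A.act v⁻¹ z1 = wcham P (wflip j (wflip z w1)) := A.act_inv_eq h.symm
  have hadj : Cham.Adj z (A.act g (C0 P)) (wcham P (wflip j (wflip z w1))) := by
    rw [hgC, ← ha, hz1]
    exact A.adj_act _ (A.adj_act _ hy1y.symm)
  have hane : wcham P (wflip j (wflip z w1)) ≠ A.act g (C0 P) := fun e => hyne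
    (act_inj (A := A) (g := n⁻¹) (act_inj (A := A) (g := v⁻¹) (hgC.symm.trans (e.symm.trans ha.symm))))
  by_cases ht : A.act g (C0 P) = wcham P (comp j z w1)
  · exact exists_apN hA ht
  · exfalso
    have h2 : Cham.Adj z (A.act g (C0 P)) (wcham P (comp j z w1)) :=
      hadj.trans (adj_wflip P z _)
    have h3 := thin_unique hT hz hadj hane h2 (Ne.symm ht)
    exact wflip_ne z _ (wcham_inj h3).symm

variable (P) in
/-- The flags next to the standard one that define the generators. -/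
def IsTarget (t : WSigned m) : Prop :=
  (∃ i : Fin m, (i : ℕ) + 1 < m ∧ t = wflip i w1) ∨
  (∃ z : Fin m, (z : ℕ) + 1 = m ∧ ¬ Thin P ∧ t = wflip z w1) ∨
  ∃ j z : Fin m, (z : ℕ) = j + 1 ∧ (z : ℕ) + 1 = m ∧ Thin P ∧ t = comp j z w1

theorem target_orb (hA : A.Good p) {t : WSigned m} (ht : IsTarget P t) : InOrb A t := by
  rcases ht with ⟨i, hi, rfl⟩ | ⟨z, hz, hT, rfl⟩ | ⟨j, z, hjz, hz, hT, rfl⟩
  · exact orb_mid hA hi
  · exact thick_orb hA hT hz
  · exact orb_comp hA hT hjz hz

theorem target_ne {t : WSigned m} (ht : IsTarget P t) : t ≠ w1 := by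
  rcases ht with ⟨i, -, rfl⟩ | ⟨z, -, -, rfl⟩ | ⟨j, z, -, -, -, rfl⟩
  · exact wflip_ne i w1
  · exact wflip_ne z w1
  · exact comp_ne j z w1

theorem flip_cases (hA : A.Good p) {i : Fin m} {n b s : G} (hn : n ∈ apN A) (hb : b ∈ A.borel)
    (hsC : A.act s (C0 P) = wcham P (wflip i w1)) :
    ∃ u ∈ A.unip, A.act (n * b * s) (C0 P) = A.act (u * n) (C0 P) ∨
      A.act (n * b * s) (C0 P) = A.act (u * (n * s)) (C0 P) := by
  obtain ⟨w, hw⟩ := hn w1
  have hwi := apN_flip hn hw i
  have hadj : Cham.Adj i (wcham P w) (A.act (n * b * s) (C0 P)) := by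
    have h1 := A.adj_act n (A.adj_act b (adj_wflip P i w1))
    rw [← C0_eq, A.mem_borel.1 hb] at h1
    rw [← C0_eq] at hw
    rw [hw] at h1
    rwa [A.act_mul, A.act_mul, hsC]
  rw [← C0_eq] at hw
  obtain ⟨u, hu, h | h⟩ := panel_cases hA w hadj
  · exact ⟨u, hu, Or.inl (by rw [h, A.act_mul, hw])⟩
  · exact ⟨u, hu, Or.inr (by rw [h, A.act_mul u, A.act_mul n, hsC, hwi])⟩

theorem comp_cases (hA : A.Good p) (hT : Thin P) {j z : Fin m}
    (hz : (z : ℕ) + 1 = m) {n b s : G} (hn : n ∈ apN A) (hb : b ∈ A.borel)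
    (hsC : A.act s (C0 P) = wcham P (comp j z w1)) :
    ∃ u ∈ A.unip, A.act (n * b * s) (C0 P) = A.act (u * n) (C0 P) ∨
      A.act (n * b * s) (C0 P) = A.act (u * (n * s)) (C0 P) := by
  obtain ⟨w, hw⟩ := hn w1
  have h1 := apN_flip hn hw z
  have h2 := apN_flip hn h1 j
  have h3 := apN_flip hn h2 z
  set wt := wflip j (wflip z w1)
  set q := A.act n (A.act b (wcham P wt)) with hq
  set y := A.act (n * b * s) (C0 P) with hy
  have hqy : Cham.Adj z y q := by
    rw [hy, A.act_mul, A.act_mul, hsC, hq]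
    exact A.adj_act _ (A.adj_act _ (adj_wflip P z wt).symm)
  have hyq : q ≠ y := by
    rw [hy, A.act_mul, A.act_mul, hsC, hq]
    exact fun e => wflip_ne z wt (wcham_inj (act_inj (act_inj e))).symm
  have hqadj : Cham.Adj j (wcham P (wflip z w)) q := by
    have h4 := A.adj_act n (A.adj_act b (adj_wflip P j (wflip z w1)))
    rw [borel_fix_partner hT hz hb, h1] at h4
    exact h4
  rw [← C0_eq] at hw
  have key : ∀ (u : G) (v : WSigned m), q = A.act u (wcham P (wflip z v)) →
      y = A.act u (wcham P v) := by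
    intro u v he
    by_contra hne
    refine wflip_ne z v (wcham_inj (act_inj (A := A) (g := u) ?_))
    rw [← he]
    refine thin_unique hT hz hqy hyq (hqy.trans (he ▸ A.adj_act u (adj_wflip P z v).symm)) ?_
    exact Ne.symm hne
  obtain ⟨u, hu, h | h⟩ := panel_cases hA (wflip z w) hqadj
  · exact ⟨u, hu, Or.inl (by rw [key u w h, A.act_mul, hw])⟩
  · refine ⟨u, hu, Or.inr ?_⟩
    rw [key u (wflip z (wflip j (wflip z w))) (by rwa [wflip_wflip]), A.act_mul u, A.act_mul n, hsC,
      comp, h3]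

theorem right_cases (hA : A.Good p) {t : WSigned m} (ht : IsTarget P t) {n b s : G}
    (hn : n ∈ apN A) (hb : b ∈ A.borel) (hsC : A.act s (C0 P) = wcham P t) :
    ∃ u ∈ A.unip, A.act (n * b * s) (C0 P) = A.act (u * n) (C0 P) ∨
      A.act (n * b * s) (C0 P) = A.act (u * (n * s)) (C0 P) := by
  rcases ht with ⟨i, -, rfl⟩ | ⟨z, -, -, rfl⟩ | ⟨j, z, -, hz, hT, rfl⟩
  · exact flip_cases hA hn hb hsC
  · exact flip_cases hA hn hb hsC
  · exact comp_cases hA hT hz hn hb hsC

/-! ### Descents -/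

variable (P) in
/-- The measure decreased by the descents. -/
def meas (w : WSigned m) : ℕ := by
  classical
  exact if Thin P then ∑ i : Fin m, (wlev w i : ℕ) * (m - 1 - i) else (wcham P w).height

theorem mu_flip_last (w : WSigned m) {z : Fin m} (hz : (z : ℕ) + 1 = m) :
    ∑ i : Fin m, (wlev (wflip z w) i : ℕ) * (m - 1 - i) =
      ∑ i : Fin m, (wlev w i : ℕ) * (m - 1 - i) := by
  refine Finset.sum_congr rfl fun i _ => ?_
  rcases eq_or_ne i z with rfl | h
  · rw [show m - 1 - (i : ℕ) = 0 by omega, mul_zero, mul_zero]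
  · rw [wlev_flip_last w hz, Function.update_of_ne h]

theorem mu_flip_mid (w : WSigned m) {i j : Fin m} (hij : (j : ℕ) = i + 1)
    (hd : wlev w j < wlev w i) :
    ∑ l : Fin m, (wlev (wflip i w) l : ℕ) * (m - 1 - l) <
      ∑ l : Fin m, (wlev w l : ℕ) * (m - 1 - l) := by
  classical
  have hne : i ≠ j := fun e => by rw [e] at hij; omega
  rw [← Finset.sum_add_sum_compl ({i, j} : Finset (Fin m)),
    ← Finset.sum_add_sum_compl ({i, j} : Finset (Fin m)) (fun l => (wlev w l : ℕ) * (m - 1 - l))]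
  refine Nat.add_lt_add_of_lt_of_le ?_ (le_of_eq (Finset.sum_congr rfl fun l hl => ?_))
  · rw [Finset.sum_pair hne, Finset.sum_pair hne, wlev_flip_mid w hij, Function.comp_apply,
      Function.comp_apply, Equiv.swap_apply_left, Equiv.swap_apply_right,
      show m - 1 - (i : ℕ) = (m - 1 - j) + 1 by have := j.2; omega]
    have : (wlev w j : ℕ) < wlev w i := hd
    nlinarith
  · simp only [Finset.mem_compl, Finset.mem_insert, Finset.mem_singleton, not_or] at hl
    rw [wlev_flip_mid w hij, Function.comp_apply, Equiv.swap_apply_of_ne_of_ne hl.1 hl.2]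

theorem eq_w1_of_asc {w : WSigned m}
    (h1 : ∀ i j : Fin m, (j : ℕ) = i + 1 → wlev w i < wlev w j)
    (h2 : ∀ z : Fin m, (z : ℕ) + 1 = m → (wlev w z : ℕ) < m) : w = w1 := by
  refine wlev_inj (funext fun i => ?_)
  have hm : 0 < m := by have := i.2; omega
  have hmono : ∀ a b : Fin m, a ≤ b → (wlev w a : ℕ) + (b - a) ≤ wlev w b := by
    intro a b hab
    induction hk : (b : ℕ) - a generalizing b with
    | zero => rw [show b = a from Fin.ext (by have := Fin.le_def.1 hab; omega)]; rfl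
    | succ k ih =>
      have hb : (b : ℕ) - 1 < m := by have := b.2; omega
      have e1 := ih ⟨b - 1, hb⟩ (Fin.le_def.2 (by simp; omega)) (by simp; omega)
      have e2 : (wlev w ⟨b - 1, hb⟩ : ℕ) < wlev w b := h1 ⟨b - 1, hb⟩ b (by simp; omega)
      omega
  have e1 := hmono i ⟨m - 1, by omega⟩ (Fin.le_def.2 (by simp; omega))
  have e2 := hmono ⟨0, hm⟩ i (Fin.le_def.2 (by simp))
  have e3 := h2 ⟨m - 1, by omega⟩ (by simp; omega)
  simp at e1 e2
  rw [wlev_w1]
  exact Fin.ext (by rw [lo_val]; omega)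

theorem exists_descent (hA : A.Good p) {w : WSigned m} (hw : InOrb A w) (hne : w ≠ w1) :
    ∃ t, IsTarget P t ∧ ∃ w', meas P w' < meas P w ∧ ∀ n ∈ apN A, A.act n (C0 P) = wcham P w →
      A.act n (wcham P t) = wcham P w' := by
  by_cases hmid : ∃ i j : Fin m, (j : ℕ) = i + 1 ∧ wlev w j < wlev w i
  · obtain ⟨i, j, hij, hd⟩ := hmid
    refine ⟨_, Or.inl ⟨i, hij ▸ j.2, rfl⟩, wflip i w, ?_, fun n hn hnw => apN_flip hn hnw i⟩
    unfold meas
    split_ifs
    · exact mu_flip_mid w hij hd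
    · have hasc : (wcham P (wflip i w)).lev i < (wcham P (wflip i w)).lev j := by
        rw [lev_wcham', wlev_flip_mid w hij]
        simpa using hd
      exact (swap_asc _ hij hasc (adj_wflip P i w).symm
        (fun e => wflip_ne i w (wcham_inj e).symm)).2
  push Not at hmid
  have hasc : ∀ i j : Fin m, (j : ℕ) = i + 1 → wlev w i < wlev w j := fun i j hij =>
    lt_of_le_of_ne (hmid i j hij) fun e => by
      have := congrArg Fin.val (wlev_injective w e)
      omega
  obtain ⟨z, hz, hzge⟩ : ∃ z : Fin m, (z : ℕ) + 1 = m ∧ m ≤ (wlev w z : ℕ) := by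
    by_contra hc
    push Not at hc
    exact hne (eq_w1_of_asc hasc hc)
  by_cases hT : Thin P
  swap
  · refine ⟨_, Or.inr (Or.inl ⟨z, hz, hT, rfl⟩), wflip z w, ?_, fun n hn hnw => apN_flip hn hnw z⟩
    unfold meas
    rw [if_neg hT, if_neg hT]
    have hlt : ((wcham P (wflip z w)).lev z : ℕ) < m := by
      rw [lev_wcham', wlev_flip_last w hz, Function.update_self, Fin.val_rev]
      omega
    exact (last_asc _ hz hlt (adj_wflip P z w).symm (fun e => wflip_ne z w (wcham_inj e).symm)).2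
  by_cases hc : wflip z w = w1
  · exact absurd (by rw [← wflip_wflip z w, hc] at hw; exact hw) (thin_not_orb hA hT hz)
  obtain ⟨i, j, hij, hd⟩ :
      ∃ i j : Fin m, (j : ℕ) = i + 1 ∧ wlev (wflip z w) j < wlev (wflip z w) i := by
    by_contra h
    push Not at h
    refine hc (eq_w1_of_asc (fun i j hij => lt_of_le_of_ne (h i j hij) fun e => by
      have := congrArg Fin.val (wlev_injective (wflip z w) e)
      omega) fun z' hz' => ?_)
    obtain rfl : z' = z := Fin.ext (by omega)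
    rw [wlev_flip_last w hz, Function.update_self, Fin.val_rev]
    omega
  have hiz : i ≠ z := fun e => by subst e; have := j.2; omega
  have hjz : j = z := by
    by_contra hjz
    rw [wlev_flip_last w hz, Function.update_of_ne hiz, Function.update_of_ne hjz] at hd
    exact lt_asymm hd (hasc i j hij)
  subst hjz
  refine ⟨_, Or.inr (Or.inr ⟨i, j, hij, hz, hT, rfl⟩), comp i j w, ?_,
    fun n hn hnw => apN_flip hn (apN_flip hn (apN_flip hn hnw j) i) j⟩
  unfold meas
  rw [if_pos hT, if_pos hT, comp, mu_flip_last _ hz]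
  exact (mu_flip_mid _ hij hd).trans_eq (mu_flip_last w hz)

/-! ### The (B,N)-pair -/

variable (hA : A.Good p)

/-- A representative of a target. -/
def rep (t : {t : WSigned m // IsTarget P t}) : G := (target_orb hA t.2).choose

theorem rep_spec (t : {t : WSigned m // IsTarget P t}) :
    rep hA t ∈ apN A ∧ A.act (rep hA t) (C0 P) = wcham P t.1 :=
  (target_orb hA t.2).choose_spec

theorem rep_sq (t : {t : WSigned m // IsTarget P t}) : rep hA t * rep hA t ∈ A.borel := by
  obtain ⟨hs, hsC⟩ := rep_spec hA t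
  rw [A.mem_borel, A.act_mul, hsC]
  have h0 : A.act (rep hA t) (wcham P w1) = wcham P t.1 := hsC
  rcases t.2 with ⟨i, -, e⟩ | ⟨z, -, -, e⟩ | ⟨j, z, -, -, -, e⟩
  · rw [e, apN_flip hs h0 i, e, wflip_wflip]; rfl
  · rw [e, apN_flip hs h0 z, e, wflip_wflip]; rfl
  · rw [e, comp, apN_flip hs (apN_flip hs (apN_flip hs h0 z) j) z, e, comp]
    simp only [wflip_wflip]
    rfl

theorem mem_cell_of_act {g n u : G} (hu : u ∈ A.unip)
    (h : A.act g (C0 P) = A.act (u * n) (C0 P)) :
    g ∈ DoubleCoset.doubleCoset n (A.borel : Set G) A.borel := by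
  refine DoubleCoset.mem_doubleCoset.2 ⟨u, A.unip_le_borel hu, (u * n)⁻¹ * g, ?_, by group⟩
  rw [SetLike.mem_coe, A.mem_borel, A.act_mul, h, A.act_inv_act]

/-- The (B,N)-pair. -/
def pair : Cfsg.BNPair G where
  B := A.borel
  N := apN A
  S := Set.range (rep hA)
  sup_eq_top := eq_top_iff.2 fun g _ => by
    obtain ⟨u, hu, w, ⟨n, hn, hnw⟩, h⟩ := exists_cell hA g
    rw [← hnw, ← A.act_mul] at h
    obtain ⟨x, hx, y, hy, rfl⟩ := DoubleCoset.mem_doubleCoset.1 (mem_cell_of_act hu h)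
    exact mul_mem (mul_mem (Subgroup.mem_sup_left hx) (Subgroup.mem_sup_right hn))
      (Subgroup.mem_sup_left hy)
  conj_mem := fun n hn t ht => by
    obtain ⟨w, hw⟩ := (apN A).inv_mem hn w1
    rw [A.mem_borel, A.act_mul, A.act_mul]
    show A.act n (A.act t (A.act n⁻¹ (wcham P w1))) = _
    rw [hw, fix_apartment ht.1 ht.2, ← hw, A.act_act_inv]
    rfl
  subset := by rintro _ ⟨t, rfl⟩; exact (rep_spec hA t).1
  sq_mem := by rintro _ ⟨t, rfl⟩; exact rep_sq hA t
  inj := by
    rintro _ ⟨t, rfl⟩ _ ⟨t', rfl⟩ h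
    have h1 : A.act (rep hA t') (C0 P) = A.act (rep hA t) (C0 P) := by
      have h2 := congrArg (A.act (rep hA t)) (A.mem_borel.1 h)
      rwa [← A.act_mul, mul_inv_cancel_left] at h2
    rw [(rep_spec hA t).2, (rep_spec hA t').2] at h1
    rw [Subtype.ext (wcham_inj h1)]
  closure_sup := by
    refine le_antisymm (sup_le ((Subgroup.closure_le _).2 ?_) inf_le_right) ?_
    · rintro _ ⟨t, rfl⟩; exact (rep_spec hA t).1
    suffices key : ∀ d : ℕ, ∀ w, meas P w = d → ∀ n ∈ apN A, A.act n (C0 P) = wcham P w →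
        n ∈ Subgroup.closure (Set.range (rep hA)) ⊔ (A.borel ⊓ apN A) by
      intro n hn
      obtain ⟨w, hw⟩ := hn w1
      exact key _ w rfl n hn hw
    intro d
    induction d using Nat.strong_induction_on with
    | _ d ih =>
      intro w hd n hn hnw
      by_cases hw : w = w1
      · exact Subgroup.mem_sup_right ⟨A.mem_borel.2 (by rw [hnw, hw]; rfl), hn⟩
      obtain ⟨t, ht, w', hlt, h'⟩ := exists_descent hA ⟨n, hn, hnw⟩ hw
      obtain ⟨hs, hsC⟩ := rep_spec hA ⟨t, ht⟩
      have h1 := ih _ (hd ▸ hlt) w' rfl (n * rep hA ⟨t, ht⟩) (mul_mem hn hs)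
        (by rw [A.act_mul, hsC]; exact h' n hn hnw)
      have h2 : rep hA ⟨t, ht⟩ ∈ Subgroup.closure (Set.range (rep hA)) ⊔ (A.borel ⊓ apN A) :=
        Subgroup.mem_sup_left (Subgroup.subset_closure ⟨_, rfl⟩)
      simpa using mul_mem h1 (inv_mem h2)
  mul_mem_union := by
    rintro _ ⟨t, rfl⟩ n hn b hb
    obtain ⟨hs, hsC⟩ := rep_spec hA t
    set s := rep hA t
    have hq : s * s ∈ A.borel := rep_sq hA t
    obtain ⟨u, hu, h | h⟩ := right_cases hA t.2 (inv_mem hn)
      (mul_mem (inv_mem hb) (inv_mem hq)) hsC <;>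
    · obtain ⟨x, hx, y, hy, e⟩ := DoubleCoset.mem_doubleCoset.1 (mem_cell_of_act hu h)
      have e' := congrArg (·⁻¹) e
      simp only [mul_inv_rev, inv_inv] at e'
      first
        | refine Or.inr (DoubleCoset.mem_doubleCoset.2 ⟨y⁻¹, inv_mem hy, x⁻¹, inv_mem hx, ?_⟩)
          rw [show s * b * n = s⁻¹ * (s * s * b * n) by group]
          simpa [mul_assoc] using e'
        | refine Or.inl (DoubleCoset.mem_doubleCoset.2 ⟨y⁻¹, inv_mem hy,
            n⁻¹ * (s * s)⁻¹ * n * x⁻¹, mul_mem ?_ (inv_mem hx), ?_⟩)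
          · obtain ⟨w, hw⟩ := hn w1
            rw [A.mem_borel, A.act_mul, A.act_mul]
            show A.act n⁻¹ (A.act (s * s)⁻¹ (A.act n (wcham P w1))) = _
            rw [hw, fix_apartment (inv_mem hq) (inv_mem (mul_mem hs hs)), A.act_inv_eq hw]
            rfl
          · rw [show s * b * n = s⁻¹ * (s * s * b * n) by group,
              show y⁻¹ * (s * n) * (n⁻¹ * (s * s)⁻¹ * n * x⁻¹) = y⁻¹ * (s⁻¹ * n) * x⁻¹ by group]
            simpa [mul_assoc] using e'
  conj_ne := by
    rintro _ ⟨t, rfl⟩ h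
    obtain ⟨hs, hsC⟩ := rep_spec hA t
    set s := rep hA t
    have hq : s * s ∈ A.borel := rep_sq hA t
    refine target_ne t.2 (wcham_inj (hsC.symm.trans (Act.fixed_unip_eq hA fun u hu => ?_)))
    have h1 : s * u * s ∈ A.borel := by
      rw [← SetLike.mem_coe, ← h]
      exact ⟨u, A.unip_le_borel hu, rfl⟩
    have h2 : s⁻¹ * u * s ∈ A.borel := by
      have := mul_mem (inv_mem hq) h1
      simpa [mul_assoc] using this
    rw [A.mem_borel, A.act_mul, A.act_mul] at h2
    have h3 := congrArg (A.act s) h2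
    rwa [A.act_act_inv] at h3

end CfsgLib.LieBlocks.PolarBN
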