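import Cfsg.Agent.Lib.LieBlocks.PolarBN

/-!
The panel condition for the (B,N)-pair of a polar space: an element of the unipotent subgroup fixing
two flags of a panel at the standard flag fixes the whole panel.
-/

set_option autoImplicit false
set_option linter.unusedSectionVars false
set_option linter.style.haveILetI false

noncomputable section

namespace CfsgLib.LieBlocks.PolarBN

open Module CfsgLib.Generators.Steinberg CfsgLib.Generators.Steinberg.Polar CfsgLib.BrauerPairs

variable {F : Type*} [Field F] [Finite F] {V : Type*} [AddCommGroup V] [Module F V] [Finite V]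
  [FiniteDimensional F V] {m : ℕ} {P : Polar F V m} {G : Type*} [Group G] [Finite G] {A : Act P G}
  {p : ℕ}

theorem exists_notMem {x y : Cham P} {i : Fin m} (hy : Cham.Adj i x y) (hne : y ≠ x) :
    ∃ v ∈ y.toFun i.succ, v ∉ x.toFun i.succ := by
  by_contra h
  push Not at h
  exact hne (hy.eq (Submodule.eq_of_le_of_finrank_le h (by rw [x.finrank', y.finrank'])))

theorem sup_span_eq (y : Cham P) {i : Fin m} {v : V} (hv : v ∈ y.toFun i.succ)
    (hvn : v ∉ y.toFun i.castSucc) :
    y.toFun i.succ = y.toFun i.castSucc ⊔ Submodule.span F {v} := by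
  refine (Submodule.eq_of_le_of_finrank_le (sup_le (y.castSucc_le i) (by simpa using hv)) ?_).symm
  have hlt : y.toFun i.castSucc < y.toFun i.castSucc ⊔ Submodule.span F {v} :=
    lt_of_le_of_ne le_sup_left fun e =>
      hvn (e ▸ le_sup_right (a := y.toFun i.castSucc) (Submodule.mem_span_singleton_self v))
  have := Submodule.finrank_lt_finrank_of_lt hlt
  rw [y.finrank'] at this ⊢
  simp at this ⊢
  omega

theorem act_eq_of_le {g : G} {x y y' : Cham P} {i : Fin m} (hy : Cham.Adj i x y)
    (hy' : Cham.Adj i x y') (hgy : A.act g y = y)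
    (h : ∀ w ∈ y'.toFun i.succ, A.ρ g w ∈ y'.toFun i.succ) : A.act g y' = y' := by
  refine Cham.ext (funext fun k => ?_)
  show (y'.toFun k).map (A.ρ g : V →ₗ[F] V) = y'.toFun k
  by_cases hk : k = i.succ
  · subst hk
    refine Submodule.eq_of_le_of_finrank_le (Submodule.map_le_iff_le_comap.2 h) ?_
    exact (congrArg id ((LinearEquiv.finrank_map_eq (A.ρ g) _).symm)).le
  · rw [hy' k hk, ← hy k hk]
    exact congrArg (fun c : Cham P => c.toFun k) hgy

theorem mem_of_fix {g : G} {y : Cham P} (hgy : A.act g y = y) {k : Fin (m + 1)} {v : V}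
    (hv : v ∈ y.toFun k) : A.ρ g v ∈ y.toFun k := by
  rw [← show (y.toFun k).map (A.ρ g : V →ₗ[F] V) = y.toFun k from
    congrArg (fun c : Cham P => c.toFun k) hgy]
  exact Submodule.mem_map_of_mem hv

/-- A middle panel. -/
theorem panel_mid {g : G} {x y y' : Cham P} {i j : Fin m} (hij : (j : ℕ) = i + 1)
    (h1 : ∀ v ∈ x.toFun i.succ, A.ρ g v - v ∈ x.toFun i.castSucc)
    (h2 : ∀ v ∈ x.toFun j.succ, A.ρ g v - v ∈ x.toFun i.succ)
    (hy : Cham.Adj i x y) (hne : y ≠ x) (hgy : A.act g y = y) (hy' : Cham.Adj i x y') :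
    A.act g y' = y' := by
  have hne' : j.succ ≠ i.succ := fun e => by
    have := congrArg Fin.val (Fin.succ_injective _ e); omega
  have hyj : y.toFun j.succ = x.toFun j.succ := hy _ hne'
  have hy'j : y'.toFun j.succ = x.toFun j.succ := hy' _ hne'
  have hyi : y.toFun i.castSucc = x.toFun i.castSucc := hy _ (ne_of_lt Fin.castSucc_lt_succ)
  have hy'i : y'.toFun i.castSucc = x.toFun i.castSucc := hy' _ (ne_of_lt Fin.castSucc_lt_succ)
  have hij' : i.succ ≤ j.succ := Fin.le_def.2 (by simp; omega)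
  obtain ⟨v, hv, hvn⟩ := exists_notMem hy hne
  have hinter : y.toFun i.succ ⊓ x.toFun i.succ ≤ x.toFun i.castSucc := by
    intro w hw
    by_contra hwn
    have e1 := sup_span_eq y hw.1 (by rwa [hyi])
    have e2 := sup_span_eq x hw.2 hwn
    rw [hyi, ← e2] at e1
    exact hvn (e1 ▸ hv)
  have hgv : A.ρ g v - v ∈ x.toFun i.castSucc :=
    hinter ⟨sub_mem (mem_of_fix hgy hv) hv, h2 v (hyj ▸ y.mono' hij' hv)⟩
  have hspan : x.toFun j.succ = x.toFun i.succ ⊔ Submodule.span F {v} := by
    have hjs : j.castSucc = i.succ := Fin.ext (by simp [hij])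
    have := sup_span_eq x (i := j) (hyj ▸ y.mono' hij' hv) (by rwa [hjs])
    rwa [hjs] at this
  refine act_eq_of_le hy hy' hgy fun w hw => ?_
  have hw' : w ∈ x.toFun i.succ ⊔ Submodule.span F {v} := by
    rw [← hspan, ← hy'j]; exact y'.mono' hij' hw
  obtain ⟨a, ha, b, hb, rfl⟩ := Submodule.mem_sup.1 hw'
  obtain ⟨c, rfl⟩ := Submodule.mem_span_singleton.1 hb
  have h3 : A.ρ g (a + c • v) - (a + c • v) ∈ x.toFun i.castSucc := by
    rw [map_add, map_smul, add_sub_add_comm, ← smul_sub]
    exact add_mem (h1 a ha) (Submodule.smul_mem _ _ hgv)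
  rw [← hy'i] at h3
  simpa using add_mem (y'.castSucc_le i h3) hw

theorem unip_graded {u : G} (hu : u ∈ A.unip) (i : Fin m) {v : V}
    (hv : v ∈ (C0 P).toFun i.succ) : A.ρ u v - v ∈ (C0 P).toFun i.castSucc := by
  rw [C0_toFun] at hv ⊢
  exact A.sub1_spanPre hu (k := (i : ℕ)) (by have := i.2; omega) hv

/-- The last panel at the standard flag. -/
theorem panel_last {u : G} (hu : u ∈ A.unip) {z : Fin m} (hz : (z : ℕ) + 1 = m) {y y' : Cham P}
    (hy : Cham.Adj z (C0 P) y) (hne : y ≠ C0 P) (huy : A.act u y = y)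
    (hy' : Cham.Adj z (C0 P) y') : A.act u y' = y' := by
  have hzs : z.succ = Fin.last m := Fin.ext (by simp; omega)
  set C := (C0 P).toFun z.castSucc with hC
  have hyC : y.toFun z.castSucc = C := hy _ (ne_of_lt Fin.castSucc_lt_succ)
  have hy'C : y'.toFun z.castSucc = C := hy' _ (ne_of_lt Fin.castSucc_lt_succ)
  obtain ⟨v, hv, hvn⟩ := exists_notMem hy hne
  have hez : P.e z ∈ (C0 P).toFun z.succ := by rw [C0_toFun]; exact mem_spanPre (by simp)
  have hperp : ∀ {w : V}, w ∈ y.toFun z.succ → ∀ a ∈ C, P.K w a = 0 := fun {w} hw a ha =>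
    (y.ts' z.succ w hw).2 a (y.castSucc_le z (hyC.symm ▸ ha))
  have hCC : ∀ a ∈ C, ∀ a' ∈ C, P.K a a' = 0 := fun a ha => ((C0 P).ts' z.castSucc a ha).2
  have heC : ∀ l : Fin m, l ≠ z → P.e l ∈ C := fun l hl => by
    rw [hC, C0_toFun]
    refine mem_spanPre ?_
    have : (l : ℕ) ≠ z := fun e => hl (Fin.ext e)
    have := l.2
    simp
    omega
  have hKve : P.K v (P.e z) ≠ 0 := fun h0 => hvn <| by
    rw [C0_toFun, hzs]
    refine Act.mem_spanPre_of_c (y.ts' _ v hv).1 fun l hl => ?_
    rcases eq_lo_or_hi l with ⟨r, rfl⟩ | ⟨r, rfl⟩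
    · simp [lo_val] at hl; omega
    · rw [c_hi]
      by_cases hr : r = z
      · rw [hr]; exact h0
      · exact hperp hv _ (heC r hr)
  have hue : A.ρ u⁻¹ (P.e z) - P.e z ∈ C := by
    rw [hC, C0_toFun]
    exact (inv_mem hu : u⁻¹ ∈ A.unip).2.1 z
  -- the second flag is moved inside `C`
  have huv : A.ρ u v - v ∈ C := by
    have hvC : v ∉ y.toFun z.castSucc := fun h =>
      hvn ((C0 P).castSucc_le z (show v ∈ C from hyC ▸ h))
    have h1 := mem_of_fix huy hv
    rw [sup_span_eq y hv hvC, hyC] at h1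
    obtain ⟨a, ha, b, hb, hab⟩ := Submodule.mem_sup.1 h1
    obtain ⟨t, rfl⟩ := Submodule.mem_span_singleton.1 hb
    have h2 : P.K (A.ρ u v) (P.e z) = t * P.K v (P.e z) := by
      rw [← hab, P.K_add, P.K_smul, ((C0 P).ts' _ a ((C0 P).castSucc_le z ha)).2 _ hez, zero_add]
    have h3 : P.K (A.ρ u v) (P.e z) = P.K v (P.e z) := by
      rw [A.K_move, ← sub_eq_zero, ← P.K_sub_right]
      exact hperp hv _ hue
    have ht : t = 1 := mul_right_cancel₀ hKve (by rw [one_mul, ← h2, h3])
    subst ht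
    rw [← hab, one_smul, add_sub_cancel_right]
    exact ha
  refine act_eq_of_le hy hy' huy fun w hw => ?_
  have hwC : ∀ a ∈ C, P.K w a = 0 := fun a ha =>
    (y'.ts' z.succ w hw).2 a (y'.castSucc_le z (hy'C.symm ▸ ha))
  suffices h : A.ρ u w - w ∈ C by
    rw [← hy'C] at h
    simpa using add_mem (y'.castSucc_le z h) hw
  set c := P.K w (P.e z) * (P.K v (P.e z))⁻¹
  set w' := w - c • v with hw'def
  have hw'e : P.K w' (P.e z) = 0 := by
    rw [hw'def, P.K_sub_left, P.K_smul]
    simp only [c]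
    rw [mul_assoc, inv_mul_cancel₀ hKve, mul_one, sub_self]
  have hw'C : ∀ a ∈ C, P.K w' a = 0 := fun a ha => by
    rw [hw'def, P.K_sub_left, P.K_smul, hwC a ha, hperp hv a ha, mul_zero, sub_self]
  suffices h : A.ρ u w' - w' ∈ C by
    have e : A.ρ u w - w = (A.ρ u w' - w') + c • (A.ρ u v - v) := by
      rw [hw'def, map_sub, map_smul, smul_sub]
      abel
    rw [e]
    exact add_mem h (Submodule.smul_mem _ _ huv)
  have h4 : A.ρ u w' - w' ∈ (C0 P).toFun z.succ := by
    rw [C0_toFun, hzs]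
    refine hu.2.2 w' fun l => ?_
    by_cases hl : l = z
    · rw [hl]; exact hw'e
    · exact hw'C _ (heC l hl)
  have hezC : P.e z ∉ C := fun h => hKve (hperp hv _ h)
  rw [sup_span_eq (C0 P) hez hezC] at h4
  obtain ⟨a, ha, b, hb, hab⟩ := Submodule.mem_sup.1 h4
  obtain ⟨r, rfl⟩ := Submodule.mem_span_singleton.1 hb
  have hr : r = 0 := by
    have hwv : A.ρ u w' = w' + (a + r • P.e z) := by rw [hab]; abel
    have hvv : A.ρ u v = v + (A.ρ u v - v) := by abel
    have h5 := A.K_map u w' v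
    rw [hwv, hvv] at h5
    simp only [P.K_add, P.K_add_right, P.K_smul] at h5
    rw [hw'C _ huv, hCC a ha _ huv, P.K_eq_zero_symm (hperp hv a ha),
      ((C0 P).ts' _ _ hez).2 _ ((C0 P).castSucc_le z huv)] at h5
    simp only [mul_zero, add_zero, zero_add] at h5
    have h6 : r * P.K (P.e z) v = 0 := by linear_combination h5
    exact (mul_eq_zero.1 h6).resolve_right fun h => hKve (P.K_eq_zero_symm h)
  rw [← hab, hr, zero_smul, add_zero]
  exact ha

/-- In the thin case the unipotent subgroup is trivial on the partner of the standard flag. -/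
theorem graded_partner (hT : Thin P) {u : G} (hu : u ∈ A.unip) {z : Fin m} (hz : (z : ℕ) + 1 = m)
    {v : V} (hv : v ∈ (wcham P (wflip z w1)).toFun z.succ) :
    A.ρ u v - v ∈ (C0 P).toFun z.castSucc := by
  set x := wcham P (wflip z w1)
  have hxC : x.toFun z.castSucc = (C0 P).toFun z.castSucc :=
    adj_wflip P z w1 _ (ne_of_lt Fin.castSucc_lt_succ)
  have hf : P.f z ∈ x.toFun z.succ := by
    have hb : P.b (wlev (wflip z w1) z) = P.f z := by
      rw [wlev_flip_last _ hz, Function.update_self, wlev_w1, rev_lo, b_hi]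
    rw [← hb]
    exact mem_spanPre (B := fun l => P.b (wlev (wflip z w1) l)) (by simp)
  have hKfe : P.K (P.f z) (P.e z) ≠ 0 := by rw [P.K_fe, if_pos rfl]; exact P.ε_ne
  have hez : P.e z ∈ (C0 P).toFun z.succ := by rw [C0_toFun]; exact mem_spanPre (by simp)
  have hfn : P.f z ∉ x.toFun z.castSucc := fun h => by
    rw [hxC] at h
    exact hKfe (((C0 P).ts' _ _ ((C0 P).castSucc_le z h)).2 _ hez)
  have hspan := sup_span_eq x hf hfn
  rw [hxC] at hspan
  have hfix : A.act u x = x := borel_fix_partner hT hz (A.unip_le_borel hu)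
  have hC : ∀ a ∈ (C0 P).toFun z.castSucc, A.ρ u a ∈ (C0 P).toFun z.castSucc := fun a ha =>
    mem_of_fix (unip_fix_C0 hu) ha
  have huf : A.ρ u (P.f z) - P.f z ∈ (C0 P).toFun z.castSucc := by
    have h1 := mem_of_fix hfix hf
    rw [hspan] at h1
    obtain ⟨a, ha, b, hb, hab⟩ := Submodule.mem_sup.1 h1
    obtain ⟨t, rfl⟩ := Submodule.mem_span_singleton.1 hb
    have h2 : P.K (A.ρ u (P.f z)) (P.e z) = t * P.K (P.f z) (P.e z) := by
      rw [← hab, P.K_add, P.K_smul, ((C0 P).ts' _ a ((C0 P).castSucc_le z ha)).2 _ hez, zero_add]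
    have h3 : P.K (A.ρ u (P.f z)) (P.e z) = P.K (P.f z) (P.e z) := by
      rw [A.K_move, ← sub_eq_zero, ← P.K_sub_right]
      refine (x.ts' z.succ _ hf).2 _ (x.castSucc_le z ?_)
      rw [hxC, C0_toFun]
      exact (inv_mem hu : u⁻¹ ∈ A.unip).2.1 z
    have ht : t = 1 := mul_right_cancel₀ hKfe (by rw [one_mul, ← h2, h3])
    subst ht
    rw [← hab, one_smul, add_sub_cancel_right]
    exact ha
  rw [hspan] at hv
  obtain ⟨a, ha, b, hb, rfl⟩ := Submodule.mem_sup.1 hv
  obtain ⟨c, rfl⟩ := Submodule.mem_span_singleton.1 hb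
  rw [map_add, map_smul, add_sub_add_comm, ← smul_sub]
  exact add_mem (sub_mem (hC a ha) ha) (Submodule.smul_mem _ _ huf)

theorem target_panel {t : WSigned m} (ht : IsTarget P t) {s b u : G}
    (hsC : A.act s (C0 P) = wcham P t) (hb : b ∈ A.borel) (hu : u ∈ A.unip)
    (h : A.act u (A.act s (C0 P)) = A.act s (C0 P)) :
    A.act u (A.act (b * s) (C0 P)) = A.act (b * s) (C0 P) := by
  have hflip : ∀ i : Fin m, Cham.Adj i (C0 P) (A.act b (wcham P (wflip i w1))) := fun i => by
    have := A.adj_act b (adj_wflip P i w1)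
    rwa [← C0_eq, A.mem_borel.1 hb] at this
  rw [A.act_mul, hsC]
  rw [hsC] at h
  rcases ht with ⟨i, hi, rfl⟩ | ⟨z, hz, -, rfl⟩ | ⟨j, z, hjz, hz, hT, rfl⟩
  · refine panel_mid (x := C0 P) (i := i) (j := ⟨i + 1, hi⟩) rfl (fun v hv => unip_graded hu i hv)
      (fun v hv => ?_) (adj_wflip P i w1) (flip_C0_ne i) h (hflip i)
    have := unip_graded hu ⟨i + 1, hi⟩ hv
    rwa [show (⟨i + 1, hi⟩ : Fin m).castSucc = i.succ from Fin.ext (by simp)] at this
  · exact panel_last hu hz (adj_wflip P z w1) (flip_C0_ne z) h (hflip z)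
  set c0 := wcham P (wflip z w1)
  set wt := wflip j (wflip z w1) with hwt
  have hadjz : Cham.Adj z (wcham P wt) (wcham P (comp j z w1)) := adj_wflip P z wt
  have hwtne : wcham P wt ≠ wcham P (comp j z w1) := fun e => wflip_ne z wt (wcham_inj e).symm
  have huwt : A.act u (wcham P wt) = wcham P wt := by
    have h1 : Cham.Adj z (A.act s (C0 P)) (A.act u (wcham P wt)) := by
      rw [hsC]
      conv => arg 2; rw [← h]
      exact A.adj_act u hadjz.symm
    refine thin_unique hT hz h1 ?_ (y' := wcham P wt) (by rw [hsC]; exact hadjz.symm)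
      (by rw [hsC]; exact hwtne)
    rw [hsC]
    exact fun e => hwtne (act_inj (A := A) (e.trans h.symm))
  have hjcs : z.castSucc = j.succ := Fin.ext (by simp [hjz])
  have hjz' : j ≠ z := fun e => by rw [e] at hjz; omega
  have hc0 : Cham.Adj z (C0 P) c0 := adj_wflip P z w1
  have hbwt : Cham.Adj j c0 (A.act b (wcham P wt)) := by
    have h4 := A.adj_act b (adj_wflip P j (wflip z w1))
    rwa [borel_fix_partner hT hz hb] at h4
  have hubwt : A.act u (A.act b (wcham P wt)) = A.act b (wcham P wt) := by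
    refine panel_mid (x := c0) (i := j) (j := z) hjz (fun v hv => ?_) (fun v hv => ?_)
      (adj_wflip P j _) (fun e => wflip_ne j _ (wcham_inj e)) huwt hbwt
    · rw [hc0 j.succ (fun e => hjz' (Fin.succ_injective _ e))] at hv
      rw [hc0 j.castSucc (fun e => by
        have := congrArg Fin.val e
        simp at this
        omega)]
      exact unip_graded hu j hv
    · rw [← hjcs, hc0 z.castSucc (ne_of_lt Fin.castSucc_lt_succ)]
      exact graded_partner hT hu hz hv
  -- the partner of a fixed flag is fixed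
  set y := A.act b (wcham P (comp j z w1))
  have hy : A.act (b * s) (C0 P) = y := by rw [A.act_mul, hsC]
  have hadj1 : Cham.Adj z (A.act (u * (b * s)) (C0 P)) (A.act b (wcham P wt)) := by
    rw [A.act_mul u, hy, ← hubwt]
    exact A.adj_act u (A.adj_act b hadjz.symm)
  have hne1 : A.act b (wcham P wt) ≠ A.act (u * (b * s)) (C0 P) := by
    rw [A.act_mul u, hy, ← hubwt]
    exact fun e => hwtne (act_inj (act_inj e))
  by_contra hne
  have hadj2 : Cham.Adj z (A.act (u * (b * s)) (C0 P)) y :=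
    hadj1.trans (A.adj_act b hadjz)
  have e := thin_unique hT hz hadj1 hne1 hadj2 (by rw [A.act_mul u, hy]; exact Ne.symm hne)
  exact hwtne (act_inj e)

variable [Fact p.Prime] [CharP F p]

/-- The split (B,N)-pair of a group of isometries of a polar space. -/
def splitData (hA : A.Good p) : SplitData G p where
  P := pair hA
  U := A.unip
  U_le := A.unip_le_borel
  pGroup := A.isPGroup_unip p
  index := Act.prime_not_dvd_index hA
  conj := fun _ hb _ hu => conj_mem_unip A hb hu
  dec := fun b hb => by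
    obtain ⟨u, hu, hub⟩ := Act.exists_unip_opp hA (A.isOpp_borel hb D0_isOpp)
    have hB : u * b ∈ A.borel := mul_mem (A.unip_le_borel hu) hb
    refine ⟨u⁻¹, inv_mem hu, u * b,
      ⟨hB, mem_apN_of_pair (w := w1) (w' := w1) (A.mem_borel.1 hB) ?_⟩, by group⟩
    rw [wop_w1, ← D0_eq, A.act_mul]
    exact hub
  UN := fun u hu huN => A.unip_free hu (fix_apartment (A.unip_le_borel hu) huN w0)
  opp := by
    obtain ⟨w, ⟨n, hn, hnw⟩, hw⟩ := exists_top hA
    refine ⟨n, hn, fun b hb hb' => ?_⟩
    have h1 : A.act b (wcham P w) = wcham P w := by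
      have h2 := congrArg (A.act n) (A.mem_borel.1 hb')
      rwa [A.act_mul, A.act_mul, A.act_act_inv, hnw] at h2
    have h0 : A.act b (D0 P) = D0 P := by
      rcases hw with rfl | ⟨z, hz, rfl, hall⟩
      · exact h1
      · have h2 : Cham.Adj z (D0 P) (A.act b (D0 P)) :=
          (adj_wflip P z w0).trans (h1 ▸ A.adj_act b (adj_wflip P z w0).symm)
        refine (hall _ h2).resolve_right fun e => ?_
        exact wflip_ne z w0 (wcham_inj (act_inj (A := A) (e.trans h1.symm))).symm
    exact mem_apN_of_pair (w := w1) (w' := w1) (A.mem_borel.1 hb) (by rw [wop_w1]; exact h0)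
  panel := by
    rintro _ ⟨t, rfl⟩ b hb u hu h
    have h1 : A.act u (A.act (rep hA t) (C0 P)) = A.act (rep hA t) (C0 P) := by
      have h2 := congrArg (A.act (rep hA t)) (A.mem_borel.1 h)
      rwa [A.act_mul, A.act_mul, A.act_act_inv] at h2
    have h3 := target_panel t.2 (rep_spec hA t).2 (inv_mem hb) hu h1
    show _ ∈ A.borel
    rw [A.mem_borel]
    simp only [A.act_mul] at h3 ⊢
    rw [h3, A.act_act_inv, A.act_inv_act]

theorem center_le_apN (hA : A.Good p) : Subgroup.center G ≤ apN A := fun z hz => by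
  obtain ⟨n, hn, h⟩ := (splitData hA).opp
  refine h z (center_le_borel_polar hA hz) ?_
  have e : n⁻¹ * z * n = z := by
    rw [Subgroup.mem_center_iff.1 hz n⁻¹, inv_mul_cancel_right]
  rw [e]
  exact center_le_borel_polar hA hz

/-- The split (B,N)-pair of a central quotient. -/
def splitDataQuot (hA : A.Good p) {H : Type*} [Group H] (π : G →* H) (hπ : Function.Surjective π)
    (hker : π.ker ≤ Subgroup.center G) : SplitData H p :=
  (splitData hA).map π hπ (hker.trans (center_le_borel_polar hA)) (hker.trans (center_le_apN hA))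

end CfsgLib.LieBlocks.PolarBN
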