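import Cfsg.Agent.Lib.LieBlocks.Split

/-!
The radical of a standard parabolic subgroup of a split (B,N)-pair: the elements of `U` fixing the
opposite chamber of its residue form a subgroup normalized by the parabolic subgroup.
-/

set_option autoImplicit false
set_option linter.unusedSectionVars false
set_option linter.style.haveILetI false

namespace CfsgLib.LieBlocks

open CfsgLib.BNPair CfsgLib.InvCentralizers.SteinbergChar CfsgLib.InvCentralizers.SteinbergCount

namespace SplitData

variable {G : Type*} [Group G] [Finite G] {p : ℕ} [Fact p.Prime] (D : SplitData G p)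

/-- `v` is a longest element of the parabolic subgroup on `K`. -/
structure IsTop (K : Set G) (v : G) : Prop where
  sub : K ⊆ D.P.S
  mem : v ∈ D.P.N
  par : v ∈ D.P.parabolic K
  right : Top D.P K v
  left : ∀ s ∈ K, len D.P (s * v) < len D.P v

theorem exists_isTop {K : Set G} (hK : K ⊆ D.P.S) : ∃ v, D.IsTop K v := by
  obtain ⟨v, h1, h2, h3, h4⟩ := exists_top_in (P := D.P) hK
  exact ⟨v, hK, h1, h2, h3, h4⟩

/-- An element of `U` fixing a second chamber of a panel fixes the whole panel. -/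
theorem panel_fix {t x y : G} (ht : t ∈ D.P.S) (hx : x ∈ D.U) (h : D.Fix x t)
    (hy : y ∈ D.P.parabolic {t}) : D.Fix x y := by
  rcases mem_parabolic_singleton ht hy with h1 | h1
  · exact D.fix_congr (g := 1) (by simpa using h1) (D.fix_one (D.U_le hx))
  · obtain ⟨b, hb, b', hb', rfl⟩ := mem_cell.1 h1
    have h2 := D.panel t ht b⁻¹ (D.P.B.inv_mem hb) x hx h
    refine D.fix_congr (g := b * t)
      (by rw [show (b * t)⁻¹ * (b * t * b') = b' by group]; exact hb') ?_
    simpa [Fix, mul_assoc] using h2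

theorem panel_conj {t x : G} (ht : t ∈ D.P.S) (hx : x ∈ D.U) (h : D.Fix x t) {y : G}
    (hy : y ∈ D.P.parabolic {t}) : y⁻¹ * x * y ∈ D.U :=
  D.conj_mem_U hx (D.panel_fix ht hx h hy)

variable {D} {K : Set G} {v : G}

/-- An element of the Weyl group all of whose `K`-generators descend dominates the residue. -/
theorem IsTop.stabU_le_of (hv : D.IsTop K v) {m z : G} (hm : m ∈ D.P.N)
    (hmK : m ∈ D.P.parabolic K) (hz : z ∈ D.P.N) (h : ∀ s ∈ K, len D.P (s * z) < len D.P z) :
    D.stabU z ≤ D.stabU m := by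
  obtain ⟨u, hu, hag, huK⟩ := exists_word_parabolic hv.sub hm hmK
  obtain ⟨a, hua, haga⟩ := exists_extension_of hz hu fun s hs => h s (huK s hs)
  intro x hx
  rw [D.mem_stabU] at hx ⊢
  refine ⟨hx.1, D.fix_congr hag ?_⟩
  exact conj_mem_left hua (D.U_le hx.1) (D.fix_congr (Agree.symm haga) hx.2)

theorem IsTop.stabU_le (hv : D.IsTop K v) {z : G} (hz : z ∈ D.P.N)
    (h : ∀ s ∈ K, len D.P (s * z) < len D.P z) : D.stabU z ≤ D.stabU v :=
  hv.stabU_le_of hv.mem hv.par hz h

theorem IsTop.agree_of_len (hv : D.IsTop K v) {m : G} (hm : m ∈ D.P.N)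
    (hmK : m ∈ D.P.parabolic K) (hlen : len D.P m = len D.P v) : Agree D.P m v := by
  obtain ⟨u, hu, hag, huK⟩ := exists_word_parabolic hv.sub hm hmK
  obtain ⟨a, hua, haga⟩ := exists_extension_of hv.mem hu fun s hs => hv.left s (huK s hs)
  have h1 := hua.2
  have h2 := hu.2
  rw [len_congr haga] at h1
  rw [len_congr hag] at h2
  simp only [List.length_append] at h1
  obtain rfl : a = [] := List.length_eq_zero_iff.1 (by omega)
  rw [List.append_nil] at haga
  exact hag.symm.trans haga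

theorem IsTop.conj_mem_of_N (hv : D.IsTop K v) {m x : G} (hm : m ∈ D.P.N)
    (hmK : m ∈ D.P.parabolic K) (hx : x ∈ D.stabU v) : m⁻¹ * x * m ∈ D.stabU v := by
  have h1 := (D.mem_stabU.1 (hv.stabU_le_of hm hmK hv.mem hv.left hx))
  have h2 := (D.mem_stabU.1 (hv.stabU_le_of (D.P.N.mul_mem hm hv.mem)
    (Subgroup.mul_mem _ hmK hv.par) hv.mem hv.left hx))
  refine D.mem_stabU.2 ⟨D.conj_mem_U h1.1 h1.2, ?_⟩
  have := h2.2
  simpa [Fix, mul_assoc] using this

theorem IsTop.mem_normalizer_of_N (hv : D.IsTop K v) {m : G} (hm : m ∈ D.P.N)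
    (hmK : m ∈ D.P.parabolic K) : m ∈ Subgroup.normalizer (D.stabU v : Set G) := by
  rw [Subgroup.mem_normalizer_iff]
  refine fun x => ⟨fun hx => ?_, fun hx => ?_⟩
  · simpa using hv.conj_mem_of_N (D.P.N.inv_mem hm) (Subgroup.inv_mem _ hmK) hx
  · have := hv.conj_mem_of_N hm hmK hx
    simpa [mul_assoc] using this

/-- The left generators act transitively enough: every element of `U` moves the chamber of `t` like
one normalizing the radical. -/
theorem IsTop.exists_normalizing (hv : D.IsTop K v) {t u : G} (ht : t ∈ K) (hu : u ∈ D.U) :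
    ∃ x, x ∈ Subgroup.normalizer (D.stabU v : Set G) ∧ t⁻¹ * (x⁻¹ * u) * t ∈ D.P.B := by
  have htS := hv.sub ht
  have htN := s_mem_N htS
  by_cases hcase : t⁻¹ * u * t ∈ D.P.B
  · exact ⟨1, Subgroup.one_mem _, by simpa using hcase⟩
  have hnN : t * v ∈ D.P.N := D.P.N.mul_mem htN hv.mem
  have hnK : t * v ∈ D.P.parabolic K := Subgroup.mul_mem _ (subset_parabolic K ht) hv.par
  have hlt : len D.P (t * v) < len D.P v := hv.left t ht
  have hlen : len D.P (t * v) + 1 = len D.P v := len_mul_lt htS hv.mem hlt.le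
  obtain ⟨t', ht', hasc⟩ : ∃ t' ∈ K, len D.P (t * v) < len D.P (t * v * t') := by
    by_contra hcon
    push Not at hcon
    have h1 : Top D.P K (t * v) := fun s hs =>
      lt_of_le_of_ne (hcon s hs) (len_mul_right_ne (hv.sub hs) hnN)
    have h2 := len_congr (top_unique_in hv.sub hnN hv.mem hnK hv.par h1 hv.right)
    omega
  have ht'S := hv.sub ht'
  have hnt : Agree D.P (t * v * t') v := by
    refine hv.agree_of_len (D.P.N.mul_mem hnN (s_mem_N ht'S))
      (Subgroup.mul_mem _ hnK (subset_parabolic K ht')) ?_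
    rcases D.len_right_cases ht'S hnN with h | h <;> omega
  have hss : Agree D.P (t * (t * v)) v := agree_s_s htS hv.mem
  have hle : len D.P (t * v) ≤ len D.P (t * (t * v)) := by
    rw [len_congr hss]
    exact hlt.le
  set y := t⁻¹ * u⁻¹ * t with hy
  have hyP : y ∈ D.P.parabolic {t} :=
    Subgroup.mul_mem _ (Subgroup.mul_mem _ (Subgroup.inv_mem _ (subset_parabolic _ rfl))
      (B_le_parabolic _ (D.P.B.inv_mem (D.U_le hu)))) (subset_parabolic _ rfl)
  have hyB : y ∉ D.P.B := fun h => hcase (by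
    have := D.P.B.inv_mem h
    simpa [hy, mul_assoc] using this)
  obtain ⟨b₀, hb₀, b₁, hb₁, hye⟩ := mem_cell.1 ((mem_parabolic_singleton htS hyP).resolve_left hyB)
  have hg : y * (t * v) ∈ cell D.P (t * (t * v)) := by
    rw [hye, show b₀ * t * b₁ * (t * v) = b₀ * (t * (b₁ * (t * v))) by group]
    exact left_mul_mem_cell hb₀
      (mul_cell_of_le htS hnN hle (left_mul_mem_cell hb₁ (self_mem_cell _)))
  rw [cell_eq_of_agree (hss.trans hnt.symm)] at hg
  obtain ⟨b, hb, b', hb', hge⟩ := mem_cell.1 hg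
  -- the chamber `c` lies in the cell of `v` and in the panel of type `t'` at it
  set c := u * t * b * (t * v) with hc
  have hcv : c ∈ cell D.P v := by
    have h1 := mul_cell_of_le htS hnN hle (left_mul_mem_cell hb (self_mem_cell (t * v)))
    rw [cell_eq_of_agree hss] at h1
    have h2 := left_mul_mem_cell (D.U_le hu) h1
    rwa [show u * (t * (b * (t * v))) = c by rw [hc]; group] at h2
  have hcn : c * t' * b' = t * (t * v) := by
    rw [hc, show u * t * b * (t * v) * t' * b' = u * t * (b * (t * v * t') * b') by group, ← hge, hy]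
    group
  have hcP : v⁻¹ * c ∈ D.P.parabolic {t'} := by
    have h1 : v⁻¹ * (t * (t * v)) ∈ D.P.parabolic {t'} := B_le_parabolic _ (Agree.symm hss)
    rw [show v⁻¹ * c = v⁻¹ * (c * t' * b') * (b'⁻¹ * t'⁻¹) by group, hcn]
    exact Subgroup.mul_mem _ h1 (Subgroup.mul_mem _ (B_le_parabolic _ (D.P.B.inv_mem hb'))
      (Subgroup.inv_mem _ (subset_parabolic _ rfl)))
  obtain ⟨x, hx, hxc⟩ := D.exists_U_rep hv.mem hcv
  have hxP : v⁻¹ * x * v ∈ D.P.parabolic {t'} := by
    have := Subgroup.mul_mem _ hcP (B_le_parabolic {t'} (D.P.B.inv_mem hxc))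
    simpa [mul_assoc] using this
  have hnorm : ∀ w ∈ D.U, v⁻¹ * w * v ∈ D.P.parabolic {t'} →
      ∀ r ∈ D.stabU v, w⁻¹ * r * w ∈ D.stabU v := by
    intro w hw hwP r hr
    have h1 := D.mem_stabU.1 hr
    have h2 := hv.conj_mem_of_N hv.mem hv.par hr
    have h3 := D.mem_stabU.1 (hv.stabU_le_of (s_mem_N ht'S) (subset_parabolic K ht') hv.mem hv.left h2)
    have h4 := D.panel_fix ht'S h3.1 h3.2 hwP
    refine D.mem_stabU.2 ⟨D.U.mul_mem (D.U.mul_mem (D.U.inv_mem hw) h1.1) hw, ?_⟩
    unfold Fix at h4 ⊢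
    simpa [mul_assoc] using h4
  refine ⟨x, ?_, ?_⟩
  · rw [Subgroup.mem_normalizer_iff]
    refine fun r => ⟨fun hr => ?_, fun hr => ?_⟩
    · have := hnorm x⁻¹ (D.U.inv_mem hx) (by
        have := Subgroup.inv_mem _ hxP
        simpa [mul_assoc] using this) r hr
      simpa using this
    · have := hnorm x hx hxP _ hr
      simpa [mul_assoc] using this
  · -- prefixes are unique
    set z := t⁻¹ * (x⁻¹ * u) * t with hz
    have hzP : z ∈ D.P.parabolic {t} :=
      Subgroup.mul_mem _ (Subgroup.mul_mem _ (Subgroup.inv_mem _ (subset_parabolic _ rfl))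
        (B_le_parabolic _ (D.P.B.mul_mem (D.P.B.inv_mem (D.U_le hx)) (D.U_le hu))))
        (subset_parabolic _ rfl)
    rcases mem_parabolic_singleton htS hzP with h1 | h1
    · exact h1
    exfalso
    obtain ⟨z₀, hz₀, z₁, hz₁, hze⟩ := mem_cell.1 h1
    have h2 : z * b * (t * v) ∈ cell D.P (t * (t * v)) := by
      rw [hze, show z₀ * t * z₁ * b * (t * v) = z₀ * (t * (z₁ * b * (t * v))) by group]
      exact left_mul_mem_cell hz₀
        (mul_cell_of_le htS hnN hle (left_mul_mem_cell (D.P.B.mul_mem hz₁ hb) (self_mem_cell _)))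
    have h3 : z * b * (t * v) ∈ cell D.P (t * v) := by
      have e : z * b * (t * v) = (t * v) * ((t * v)⁻¹ * (t⁻¹ * v) * ((x * v)⁻¹ * c)) := by
        rw [hz, hc]; group
      rw [e]
      refine right_mul_mem_cell ?_ (self_mem_cell _)
      exact D.P.B.mul_mem (Agree.symm (agree_inv_s htS hv.mem)) hxc
    have := agree_of_mem_cell (D.P.N.mul_mem htN hnN) hnN h2 h3
    have h4 := len_congr (hss.symm.trans this)
    omega

/-- The radical is normalized by `U`. -/
theorem IsTop.U_le_normalizer (hv : D.IsTop K v) :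
    D.U ≤ Subgroup.normalizer (D.stabU v : Set G) := by
  have key : ∀ l : List G, IsReduced D.P l → (∀ s ∈ l, s ∈ K) → ∀ u ∈ D.U,
      ∃ m ∈ Subgroup.normalizer (D.stabU v : Set G), m⁻¹ * (u * l.prod) ∈ D.P.B := by
    intro l
    induction l with
    | nil => exact fun _ _ u hu => ⟨1, Subgroup.one_mem _, by simpa using D.U_le hu⟩
    | cons t l ih =>
      intro hl hlK u hu
      have htK := hlK t (by simp)
      obtain ⟨x, hx, hz⟩ := hv.exists_normalizing htK hu
      obtain ⟨u', hu', τ, hτ, hze⟩ := D.dec _ hz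
      obtain ⟨m', hm', hmB⟩ := ih hl.tail (fun s hs => hlK s (List.mem_cons_of_mem t hs)) u' hu'
      refine ⟨x * t * m', Subgroup.mul_mem _ (Subgroup.mul_mem _ hx
        (hv.mem_normalizer_of_N (s_mem_N (hv.sub htK)) (subset_parabolic K htK))) hm', ?_⟩
      have h1 := D.P.B.mul_mem hmB (D.torus_conj hl.tail.1.prod_mem hτ).1
      have e : (x * t * m')⁻¹ * (u * (t :: l).prod) =
          m'⁻¹ * (t⁻¹ * (x⁻¹ * u) * t) * l.prod := by
        rw [List.prod_cons]
        group
      rw [e, hze]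
      simpa [mul_assoc] using h1
  obtain ⟨l, hl, hag, hlK⟩ := exists_word_parabolic hv.sub hv.mem hv.par
  have hconj : ∀ u ∈ D.U, ∀ r ∈ D.stabU v, u⁻¹ * r * u ∈ D.stabU v := by
    intro u hu r hr
    obtain ⟨m, hm, hmB⟩ := key l hl hlK u hu
    have h1 : D.Fix r m := by
      have := (Subgroup.mem_normalizer_iff.1 (Subgroup.inv_mem _ hm) r).1 hr
      simpa [Fix] using D.U_le (D.mem_stabU.1 this).1
    have h2 : D.Fix r (u * v) :=
      D.fix_congr (Agree.left hag u) (D.fix_congr hmB h1)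
    refine D.mem_stabU.2 ⟨D.U.mul_mem (D.U.mul_mem (D.U.inv_mem hu) (D.mem_stabU.1 hr).1) hu, ?_⟩
    simpa [Fix, mul_assoc] using h2
  intro u hu
  rw [Subgroup.mem_normalizer_iff]
  refine fun r => ⟨fun hr => ?_, fun hr => ?_⟩
  · simpa using hconj u⁻¹ (D.U.inv_mem hu) r hr
  · have := hconj u hu _ hr
    simpa [mul_assoc] using this

/-- The parabolic subgroup normalizes its radical. -/
theorem IsTop.parabolic_le_normalizer (hv : D.IsTop K v) :
    D.P.parabolic K ≤ Subgroup.normalizer (D.stabU v : Set G) := by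
  refine sup_le (fun b hb => ?_) ((Subgroup.closure_le _).2 fun s hs =>
    hv.mem_normalizer_of_N (s_mem_N (hv.sub hs)) (subset_parabolic K hs))
  obtain ⟨u, hu, t, ht, rfl⟩ := D.dec b hb
  exact Subgroup.mul_mem _ (hv.U_le_normalizer hu)
    (hv.mem_normalizer_of_N ht.2 (B_le_parabolic K ht.1))

theorem IsTop.fix_of_mem (hv : D.IsTop K v) {g x : G} (hg : g ∈ D.P.parabolic K)
    (hx : x ∈ D.stabU v) : D.Fix x g := by
  have := (Subgroup.mem_normalizer_iff.1
    (Subgroup.inv_mem _ (hv.parabolic_le_normalizer hg)) x).1 hx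
  simpa [Fix] using D.U_le (D.mem_stabU.1 this).1

end SplitData

end CfsgLib.LieBlocks
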