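import Cfsg.Agent.Lib.BNPair.RankTwo
import Cfsg.Agent.Lib.InvCentralizers.SteinbergCount
import Mathlib.GroupTheory.Sylow

/-!
Finite split (B,N)-pairs: chambers fixed by elements of the unipotent subgroup, uniqueness of
prefixes, and the stabilizers of chambers.
-/

set_option autoImplicit false
set_option linter.unusedSectionVars false
set_option linter.style.haveILetI false

namespace CfsgLib.LieBlocks

open CfsgLib.BNPair CfsgLib.InvCentralizers.SteinbergChar CfsgLib.InvCentralizers.SteinbergCount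

/-- A split (B,N)-pair in characteristic `p`: `B = U (B ⊓ N)` with `U` a normal Sylow `p`-subgroup of
`B`, some element of `N` cuts `B` down to `B ⊓ N`, and an element of `U` fixing a second chamber of a
panel at the base chamber fixes the whole panel. -/
structure SplitData (G : Type*) [Group G] (p : ℕ) where
  /-- the (B,N)-pair -/
  P : Cfsg.BNPair G
  /-- the unipotent subgroup -/
  U : Subgroup G
  U_le : U ≤ P.B
  pGroup : IsPGroup p U
  index : ¬ p ∣ U.index
  conj : ∀ b ∈ P.B, ∀ u ∈ U, b * u * b⁻¹ ∈ U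
  dec : ∀ b ∈ P.B, ∃ u ∈ U, ∃ t ∈ P.B ⊓ P.N, b = u * t
  UN : ∀ u ∈ U, u ∈ P.N → u = 1
  opp : ∃ n ∈ P.N, ∀ b ∈ P.B, n⁻¹ * b * n ∈ P.B → b ∈ P.N
  panel : ∀ t ∈ P.S, ∀ b ∈ P.B, ∀ u ∈ U, t⁻¹ * u * t ∈ P.B → t⁻¹ * (b * u * b⁻¹) * t ∈ P.B

namespace SplitData

variable {G : Type*} [Group G] {p : ℕ} (D : SplitData G p)

/-- `x` fixes the chamber of `g`. -/
def Fix (x g : G) : Prop := g⁻¹ * x * g ∈ D.P.B

theorem fix_congr {x g g' : G} (h : g⁻¹ * g' ∈ D.P.B) (hx : D.Fix x g) : D.Fix x g' := by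
  have e : g'⁻¹ * x * g' = (g⁻¹ * g')⁻¹ * (g⁻¹ * x * g) * (g⁻¹ * g') := by group
  unfold Fix
  rw [e]
  exact D.P.B.mul_mem (D.P.B.mul_mem (D.P.B.inv_mem h) hx) h

theorem fix_one {x : G} (hx : x ∈ D.P.B) : D.Fix x 1 := by simpa [Fix] using hx

theorem fix_conj {x g a : G} : D.Fix (a * x * a⁻¹) g ↔ D.Fix x (a⁻¹ * g) := by
  unfold Fix
  rw [show g⁻¹ * (a * x * a⁻¹) * g = (a⁻¹ * g)⁻¹ * x * (a⁻¹ * g) by group]

variable [Finite G] [Fact p.Prime]

theorem mem_U_of_pow {g : G} (hg : g ∈ D.P.B) {k : ℕ} (h : g ^ p ^ k = 1) : g ∈ D.U := by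
  have hz : IsPGroup p (Subgroup.zpowers g) := by
    intro x
    obtain ⟨x, ⟨n, rfl⟩⟩ := x
    refine ⟨k, Subtype.ext ?_⟩
    show (g ^ n) ^ p ^ k = 1
    rw [← zpow_natCast, ← zpow_mul, mul_comm, zpow_mul, zpow_natCast, h, one_zpow]
  have hle : Subgroup.zpowers g ≤ Subgroup.normalizer (D.U : Set G) := by
    rw [Subgroup.zpowers_le, Subgroup.mem_normalizer_iff]
    intro u
    refine ⟨fun hu => D.conj g hg u hu, fun hu => ?_⟩
    have := D.conj g⁻¹ (inv_mem hg) _ hu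
    simpa [mul_assoc] using this
  have hsup := hz.to_sup_of_normal_right' D.pGroup hle
  have := (D.pGroup.toSylow D.index).3 hsup le_sup_right
  have hS : ((D.pGroup.toSylow D.index : Sylow p G) : Subgroup G) = D.U := rfl
  rw [hS] at this
  exact this ▸ Subgroup.mem_sup_left (Subgroup.mem_zpowers g)

/-- An element of `U` conjugated into `B` lands in `U`. -/
theorem conj_mem_U {x g : G} (hx : x ∈ D.U) (h : D.Fix x g) : g⁻¹ * x * g ∈ D.U := by
  obtain ⟨k, hk⟩ := D.pGroup ⟨x, hx⟩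
  refine D.mem_U_of_pow h (k := k) ?_
  have hk' : x ^ p ^ k = 1 := congrArg Subtype.val hk
  have e : g⁻¹ * x * g = g⁻¹ * x * (g⁻¹)⁻¹ := by rw [inv_inv]
  rw [e, conj_pow, hk', mul_one, mul_inv_cancel]

omit [Finite G] [Fact p.Prime] in
theorem torus_conj {n t : G} (hn : n ∈ D.P.N) (ht : t ∈ D.P.B ⊓ D.P.N) :
    n⁻¹ * t * n ∈ D.P.B ⊓ D.P.N :=
  ⟨conj_inv_mem' hn ht.1 ht.2, D.P.N.mul_mem (D.P.N.mul_mem (D.P.N.inv_mem hn) ht.2) hn⟩

omit [Finite G] [Fact p.Prime] in
theorem torus_conj' {n t : G} (hn : n ∈ D.P.N) (ht : t ∈ D.P.B ⊓ D.P.N) :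
    n * t * n⁻¹ ∈ D.P.B ⊓ D.P.N := by
  have := D.torus_conj (D.P.N.inv_mem hn) ht
  simpa using this

omit [Finite G] [Fact p.Prime] in
/-- A chamber of a cell is a translate of the distinguished one under `U`. -/
theorem exists_U_rep {n g : G} (hn : n ∈ D.P.N) (hg : g ∈ cell D.P n) :
    ∃ u ∈ D.U, (u * n)⁻¹ * g ∈ D.P.B := by
  obtain ⟨x, hx, y, hy, rfl⟩ := mem_cell.1 hg
  obtain ⟨u, hu, t, ht, rfl⟩ := D.dec x hx
  refine ⟨u, hu, ?_⟩
  have := D.P.B.mul_mem (D.torus_conj hn ht).1 hy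
  rwa [show (u * n)⁻¹ * (u * t * n * y) = n⁻¹ * t * n * y by group]

omit [Finite G] [Fact p.Prime] in
/-- The product of a cell with the cell of an ascending generator. -/
theorem cell_mul_cell {n s g h : G} (hs : s ∈ D.P.S) (hn : n ∈ D.P.N)
    (hle : len D.P n ≤ len D.P (n * s)) (hg : g ∈ cell D.P n) (hh : h ∈ cell D.P s) :
    g * h ∈ cell D.P (n * s) := by
  obtain ⟨x, hx, y, hy, rfl⟩ := mem_cell.1 hh
  have h1 := mul_cell_right_of_le hs hn hle (right_mul_mem_cell hx hg)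
  have := right_mul_mem_cell hy h1
  simpa [mul_assoc] using this

omit [Finite G] [Fact p.Prime] in
theorem not_agree_mul {n s : G} (hs : s ∈ D.P.S) : ¬ Agree D.P n (n * s) := fun h =>
  s_not_mem hs (by simpa [Agree] using h)

omit [Fact p.Prime] in
/-- Prefixes along an ascent are unique. -/
theorem prefix_unique {n s g g' h h' : G} (hs : s ∈ D.P.S) (hn : n ∈ D.P.N)
    (hle : len D.P n ≤ len D.P (n * s)) (hg : g ∈ cell D.P n) (hg' : g' ∈ cell D.P n)
    (hh : h ∈ cell D.P s) (hh' : h' ∈ cell D.P s) (e : (g' * h')⁻¹ * (g * h) ∈ D.P.B) :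
    g'⁻¹ * g ∈ D.P.B := by
  have hcell : ∀ {a : G}, a ∈ cell D.P s → a ∈ D.P.parabolic {s} := fun ha =>
    cell_subset (B_le_parabolic _) (subset_parabolic _ rfl) ha
  have hz : g'⁻¹ * g ∈ D.P.parabolic {s} := by
    rw [show g'⁻¹ * g = h' * ((g' * h')⁻¹ * (g * h)) * h⁻¹ by group]
    exact Subgroup.mul_mem _ (Subgroup.mul_mem _ (hcell hh') (B_le_parabolic _ e))
      (Subgroup.inv_mem _ (hcell hh))
  rcases mem_parabolic_singleton hs hz with h1 | h1
  · exact h1
  · exfalso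
    have h2 := D.cell_mul_cell hs hn hle hg' h1
    rw [mul_inv_cancel_left] at h2
    exact D.not_agree_mul hs (agree_of_mem_cell hn (D.P.N.mul_mem hn (s_mem_N hs)) hg h2)

omit [Finite G] [Fact p.Prime] in
theorem len_right_cases {n s : G} (hs : s ∈ D.P.S) (hn : n ∈ D.P.N) :
    len D.P (n * s) = len D.P n + 1 ∨ len D.P (n * s) + 1 = len D.P n := by
  rw [len_mul_right hs hn, ← len_inv hn]
  have h1 := len_mul_le hs (D.P.N.inv_mem hn)
  have h2 := len_le_mul hs (D.P.N.inv_mem hn)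
  have h3 := len_mul_ne hs (D.P.N.inv_mem hn)
  omega

omit [Finite G] [Fact p.Prime] in
theorem len_left_cases {n s : G} (hs : s ∈ D.P.S) (hn : n ∈ D.P.N) :
    len D.P (s * n) = len D.P n + 1 ∨ len D.P (s * n) + 1 = len D.P n := by
  have h1 := len_mul_le hs hn
  have h2 := len_le_mul hs hn
  have h3 := len_mul_ne hs hn
  omega

omit [Fact p.Prime] in
/-- An element of `B` fixing an ascended chamber fixes the chamber below. -/
theorem fix_prefix {n s x : G} (hs : s ∈ D.P.S) (hn : n ∈ D.P.N)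
    (hlt : len D.P n < len D.P (n * s)) (hx : x ∈ D.P.B) (h : D.Fix x (n * s)) : D.Fix x n := by
  have h1 : x * n ∈ cell D.P n := left_mul_mem_cell hx (self_mem_cell n)
  refine (?_ : n⁻¹ * x * n ∈ D.P.B)
  rw [mul_assoc]
  exact D.prefix_unique hs hn hlt.le h1 (self_mem_cell n) (self_mem_cell s) (self_mem_cell s)
    (by rw [show (n * s)⁻¹ * (x * n * s) = (n * s)⁻¹ * x * (n * s) by group]; exact h)

/-- The stabilizer of the chamber of `g` in `U`. -/
def stabU (g : G) : Subgroup G := D.U ⊓ D.U.map (MulAut.conj g).toMonoidHom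

theorem mem_stabU {g x : G} : x ∈ D.stabU g ↔ x ∈ D.U ∧ D.Fix x g := by
  simp only [stabU, Subgroup.mem_inf]
  refine and_congr_right fun hx => ⟨?_, fun h => ?_⟩
  · rintro ⟨u, hu, rfl⟩
    simp only [MulEquiv.coe_toMonoidHom, MulAut.conj_apply, Fix]
    simpa [mul_assoc] using D.U_le hu
  · exact ⟨_, D.conj_mem_U hx h, by simp [mul_assoc]⟩

theorem stabU_congr {g g' : G} (h : g⁻¹ * g' ∈ D.P.B) : D.stabU g = D.stabU g' := by
  have h' : g'⁻¹ * g ∈ D.P.B := by simpa using D.P.B.inv_mem h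
  ext x
  rw [mem_stabU, mem_stabU]
  exact and_congr_right fun _ => ⟨D.fix_congr h, D.fix_congr h'⟩

theorem card_stabU_smul {u g : G} (hu : u ∈ D.U) :
    Nat.card (D.stabU (u * g)) = Nat.card (D.stabU g) := by
  have h : D.stabU (u * g) = (D.stabU g).map (MulAut.conj u).toMonoidHom := by
    ext x
    rw [mem_stabU]
    constructor
    · rintro ⟨hx, hf⟩
      refine ⟨u⁻¹ * x * u, ?_, by simp [mul_assoc]⟩
      rw [SetLike.mem_coe, mem_stabU]
      refine ⟨D.U.mul_mem (D.U.mul_mem (D.U.inv_mem hu) hx) hu, ?_⟩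
      unfold Fix at hf ⊢
      simpa [mul_assoc] using hf
    · rintro ⟨y, hy, rfl⟩
      rw [SetLike.mem_coe, mem_stabU] at hy
      simp only [MulEquiv.coe_toMonoidHom, MulAut.conj_apply]
      refine ⟨D.U.mul_mem (D.U.mul_mem hu hy.1) (D.U.inv_mem hu), ?_⟩
      rw [fix_conj, inv_mul_cancel_left]
      exact hy.2
  rw [h]
  exact Subgroup.card_map_of_injective (MulEquiv.injective _)

theorem card_stabU_cell {n g : G} (hn : n ∈ D.P.N) (hg : g ∈ cell D.P n) :
    Nat.card (D.stabU g) = Nat.card (D.stabU n) := by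
  obtain ⟨u, hu, h⟩ := D.exists_U_rep hn hg
  rw [← D.stabU_congr h, D.card_stabU_smul hu]

/-- An ascent strictly shrinks the stabilizer. -/
theorem card_stabU_lt {n s : G} (hs : s ∈ D.P.S) (hn : n ∈ D.P.N)
    (hlt : len D.P n < len D.P (n * s)) :
    Nat.card (D.stabU (n * s)) < Nat.card (D.stabU n) := by
  have hle : D.stabU (n * s) ≤ D.stabU n := fun x hx => by
    rw [mem_stabU] at hx ⊢
    exact ⟨hx.1, D.fix_prefix hs hn hlt (D.U_le hx.1) hx.2⟩
  refine lt_of_le_of_ne (Subgroup.card_le_of_le hle) fun e => ?_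
  have heq : D.stabU (n * s) = D.stabU n := Subgroup.eq_of_le_of_card_ge hle e.ge
  obtain ⟨b, hb, hbs⟩ := exists_bsb hs
  have hg : n * (b * s) ∈ cell D.P (n * s) :=
    D.cell_mul_cell hs hn hlt.le (self_mem_cell n) (left_mul_mem_cell hb (self_mem_cell s))
  obtain ⟨u, hu, hub⟩ := D.exists_U_rep (D.P.N.mul_mem hn (s_mem_N hs)) hg
  have h1 : (u * n)⁻¹ * n ∈ D.P.B :=
    D.prefix_unique hs hn hlt.le (self_mem_cell n) (left_mul_mem_cell (D.U_le hu) (self_mem_cell n))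
      (left_mul_mem_cell hb (self_mem_cell s)) (self_mem_cell s) (by
        rw [show u * n * s = u * (n * s) by group]
        exact hub)
  have hfix : u ∈ D.stabU n := by
    rw [mem_stabU]
    refine ⟨hu, ?_⟩
    have := D.P.B.inv_mem h1
    unfold Fix
    simpa [mul_assoc] using this
  rw [← heq, mem_stabU] at hfix
  have h2 : s⁻¹ * b * s ∈ D.P.B := by
    have := D.P.B.mul_mem hfix.2 hub
    simpa [mul_assoc] using this
  have h3 := D.P.B.mul_mem (D.P.sq_mem s hs) h2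
  rw [show s * s * (s⁻¹ * b * s) = s * b * s by group] at h3
  exact s_not_mem hs (mem_of_cell_meets le_rfl h3 hbs)

/-- The chambers of the big cell have trivial stabilizer. -/
theorem stabU_rightTop {n : G} (hn : n ∈ D.P.N) (h : RightTop D.P n) : D.stabU n = ⊥ := by
  obtain ⟨w, hw, hl, hr⟩ := exists_top (P := D.P)
  rw [D.stabU_congr (rightTop_unique hn hw h hr), eq_bot_iff]
  intro x hx
  rw [mem_stabU] at hx
  exact Subgroup.mem_bot.2 (D.UN x hx.1 (mem_N_of_conj D.opp hw hl (D.U_le hx.1) hx.2))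

end SplitData

end CfsgLib.LieBlocks
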